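import Cfsg.Agent.DegThreeP.Defs
import Cfsg.Agent.SmallGroups.DegreeThree
import Cfsg.Agent.Char.Basic
import Mathlib.GroupTheory.Perm.Cycle.Type

/-!
# Simple primitive groups of degree `3p`: elementary facts
-/

set_option autoImplicit false
set_option linter.style.haveILetI false
set_option linter.unusedSectionVars false

noncomputable section

namespace Cfsg.Agent.DegThreeP

open Cfsg Subgroup MulAction
open scoped Classical

universe u v

variable {G : Type u} [Group G] [Fintype G] {Ω : Type v} [Fintype Ω] [MulAction G Ω] {p : ℕ}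

namespace Setup

variable (S : Setup G Ω p)
include S

theorem p_pos : 0 < p := by have := S.three_lt; omega

theorem p_odd : Odd p := S.prime.odd_of_ne_two (by have := S.three_lt; omega)

theorem five_le : 5 ≤ p := by
  by_contra h
  have h3 := S.three_lt
  have : p = 4 := by omega
  exact absurd (this ▸ S.prime) (by decide)

theorem orderOf_singular {g : G} (h : p ∣ orderOf g) : orderOf g = p := by
  haveI := Fact.mk S.prime
  have hg0 : 0 < orderOf g := orderOf_pos g
  set x := g ^ (orderOf g / p) with hx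
  have hxo : orderOf x = p := orderOf_pow_orderOf_div hg0.ne' h
  obtain ⟨P, hP⟩ := ((IsPGroup.of_card (p := p) (n := 1)
    (by rw [Nat.card_zpowers, hxo, pow_one])) : IsPGroup p (zpowers x)).exists_le_sylow
  obtain ⟨hc, hC, -⟩ := S.sylow P
  have hPe : zpowers x = (P : Subgroup G) :=
    Subgroup.eq_of_le_of_card_ge hP (by rw [Nat.card_zpowers, hxo, hc])
  have hg : g ∈ (P : Subgroup G) := by
    rw [← hC, ← hPe, mem_centralizer_iff]
    rintro y ⟨i, rfl⟩
    rw [hx]
    exact ((Commute.refl g).pow_left _).zpow_left i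
  have h2 := Subgroup.orderOf_dvd_natCard _ hg
  rw [hc] at h2
  exact Nat.dvd_antisymm h2 h

theorem exists_inverted : ∃ x t : G, orderOf x = p ∧ orderOf t = 2 ∧ t * x * t⁻¹ = x⁻¹ := by
  haveI := Fact.mk S.prime
  set P : Sylow p G := default
  obtain ⟨hc, hC, hN⟩ := S.sylow P
  set N := normalizer ((P : Subgroup G) : Set G) with hNd
  obtain ⟨t, ht⟩ := exists_prime_orderOf_dvd_card' (G := N) 2 (by rw [hN]; exact dvd_mul_right 2 p)
  obtain ⟨x, hx⟩ := exists_prime_orderOf_dvd_card' (G := (P : Subgroup G)) p (by rw [hc])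
  refine ⟨x, t, by rw [Subgroup.orderOf_coe, hx], by rw [Subgroup.orderOf_coe, ht], ?_⟩
  have hzp : zpowers (x : G) = (P : Subgroup G) :=
    Subgroup.eq_of_le_of_card_ge (zpowers_le.2 x.2)
      (by rw [Nat.card_zpowers, Subgroup.orderOf_coe, hx, hc])
  have hmem : (t : G) * x * (t : G)⁻¹ ∈ (P : Subgroup G) :=
    (mem_normalizer_iff.1 t.2 x).1 x.2
  obtain ⟨i, hi⟩ := (SetLike.ext_iff.1 hzp _).2 hmem
  simp only at hi
  have htt : (t : G) * t = 1 := by
    rw [← pow_two, ← show orderOf (t : G) = 2 by rw [Subgroup.orderOf_coe, ht], pow_orderOf_eq_one]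
  have htinv : (t : G)⁻¹ = t := inv_eq_of_mul_eq_one_right htt
  have h2 : (x : G) ^ (i * i) = x := by
    rw [_root_.zpow_mul, hi, conj_zpow, hi, htinv]
    simp only [← mul_assoc, htt, one_mul]
    rw [mul_assoc, htt, mul_one]
  have hxo : orderOf (x : G) = p := by rw [Subgroup.orderOf_coe, hx]
  have h3 : (p : ℤ) ∣ i * i - 1 := by
    rw [← hxo, orderOf_dvd_iff_zpow_eq_one, zpow_sub_one, h2, mul_inv_cancel]
  rw [show i * i - 1 = (i - 1) * (i + 1) by ring] at h3
  rcases (Nat.prime_iff_prime_int.1 S.prime).dvd_or_dvd h3 with h | h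
  · exfalso
    have hxi : (x : G) ^ i = x := by
      have : (x : G) ^ (i - 1) = 1 := orderOf_dvd_iff_zpow_eq_one.1 (by rw [hxo]; exact h)
      rwa [zpow_sub_one, mul_inv_eq_one] at this
    rw [hxi] at hi
    have htC : (t : G) ∈ centralizer ((P : Subgroup G) : Set G) := by
      rw [mem_centralizer_iff, ← hzp]
      rintro y ⟨j, rfl⟩
      have hcm : Commute (x : G) t := by
        have h4 := congrArg (· * (t : G)) hi
        simp only [inv_mul_cancel_right] at h4
        exact h4
      exact hcm.zpow_left j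
    rw [hC] at htC
    have := Subgroup.orderOf_dvd_natCard _ htC
    rw [Subgroup.orderOf_coe, ht, hc] at this
    have := (Nat.prime_dvd_prime_iff_eq Nat.prime_two S.prime).1 this
    have := S.three_lt
    omega
  · have : (x : G) ^ (i + 1) = 1 := orderOf_dvd_iff_zpow_eq_one.1 (by rw [hxo]; exact h)
    rw [zpow_add_one, hi] at this
    exact eq_inv_of_mul_eq_one_left this

theorem fix_singular {g : G} (h : p ∣ orderOf g) : fix Ω g = 0 := by
  haveI := Fact.mk S.prime
  haveI := S.faithful
  haveI := S.prim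
  have hgo := S.orderOf_singular h
  rw [fix, Nat.card_eq_zero]
  refine Or.inl ⟨fun a => ?_⟩
  have hga : g ∈ stabilizer G (a : Ω) := a.2
  have hidx : (stabilizer G (a : Ω)).index = 3 * p := by
    rw [MulAction.index_stabilizer_of_transitive, ← S.card_points]
  have hd : p * (3 * p) ∣ Nat.card G := by
    rw [← (stabilizer G (a : Ω)).card_mul_index, hidx]
    refine mul_dvd_mul_right ?_ _
    rw [← hgo]
    exact Subgroup.orderOf_dvd_natCard _ hga
  set P : Sylow p G := default
  have hpp : p ^ 2 ∣ Nat.card P :=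
    P.pow_dvd_card_of_pow_dvd_card ((Dvd.intro 3 (by ring)).trans hd)
  rw [(S.sylow P).1] at hpp
  have := Nat.le_of_dvd S.p_pos hpp
  have := S.three_lt
  nlinarith

theorem ne_one_singular {g : G} (h : p ∣ orderOf g) : g ≠ 1 := by
  rintro rfl
  rw [orderOf_one] at h
  exact S.prime.not_dvd_one h

/-- Simple groups act by even permutations. -/
theorem four_dvd_sub_fix {t : G} (ht : orderOf t = 2) : (4 : ℤ) ∣ 3 * (p : ℤ) - fix Ω t := by
  haveI := S.faithful
  haveI := S.simple
  set φ := MulAction.toPermHom G Ω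
  have hsign : Equiv.Perm.sign (φ t) = 1 :=
    SmallGroups.DegThree.hom_eq_one S.noncomm (Equiv.Perm.sign.comp φ) t
  have hne : φ t ≠ 1 := fun h => by
    have : t = 1 := FaithfulSMul.eq_of_smul_eq_smul (α := Ω) fun a => by
      rw [one_smul]; simpa [φ] using Equiv.Perm.congr_fun h a
    rw [this, orderOf_one] at ht
    omega
  have hord : orderOf (φ t) = 2 :=
    orderOf_eq_prime (by rw [← map_pow, ← ht, pow_orderOf_eq_one, map_one]) hne
  obtain ⟨k, hk⟩ := Equiv.Perm.cycleType_prime_order (σ := φ t) (by rw [hord]; norm_num)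
  rw [hord] at hk
  rw [Equiv.Perm.sign_of_cycleType, hk, Multiset.sum_replicate, Multiset.card_replicate,
    smul_eq_mul] at hsign
  have heven : Even ((k + 1) * 2 + (k + 1)) := by
    by_contra hodd
    rw [(Nat.not_even_iff_odd.mp hodd).neg_one_pow] at hsign
    exact absurd hsign (by decide)
  have hsupp : (φ t).support.card = (k + 1) * 2 := by
    rw [← Equiv.Perm.sum_cycleType, hk, Multiset.sum_replicate, smul_eq_mul]
  have heq : MulAction.fixedBy Ω t = (((φ t).support : Finset Ω) : Set Ω)ᶜ := by
    ext T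
    simp [φ]
  have hle : (φ t).support.card ≤ Nat.card Ω := by
    rw [Nat.card_eq_fintype_card]
    exact Finset.card_le_univ _
  have hfx : fix Ω t = 3 * p - (k + 1) * 2 := by
    rw [fix, Nat.card_coe_set_eq, heq, Set.ncard_compl, Set.ncard_coe_finset, hsupp, S.card_points]
  obtain ⟨j, hj⟩ := heven
  rw [hsupp, S.card_points] at hle
  rw [hfx]
  omega

/-- The value of a character at an involution. -/
theorem involution_value (χ : IrrCharacter G) {t : G} (ht : orderOf t = 2) :
    ∃ a : ℤ, (χ : G → ℂ) t = a ∧ (4 : ℤ) ∣ (charDegree (χ : G → ℂ) : ℤ) - a ∧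
      |a| ≤ (charDegree (χ : G → ℂ) : ℤ) ∧
      ((χ : G → ℂ) ≠ (fun _ => 1) → a ≠ (charDegree (χ : G → ℂ) : ℤ)) := by
  haveI := S.simple
  obtain ⟨n, ρ, hirr, hρ⟩ := χ.2
  have hdim : Module.finrank ℂ (Fin n → ℂ) = n := Module.finrank_fin_fun ℂ
  obtain ⟨b, ε, hb, hε⟩ := Char.exists_eigenbasis ρ t
  rw [ht] at hε
  have hsum : ρ.character t = ∑ i, ε i := by
    simpa using Char.character_pow_eq_sum ρ hb 1
  have hdet : LinearMap.det (ρ t) = ∏ i, ε i := by
    have hmat : LinearMap.toMatrix b b (ρ t) = Matrix.diagonal ε := by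
      ext i j
      rw [LinearMap.toMatrix_apply, hb j, map_smul, Module.Basis.repr_self]
      rcases eq_or_ne i j with rfl | hij
      · simp
      · simp [hij, Ne.symm hij]
    rw [← LinearMap.det_toMatrix b, hmat, Matrix.det_diagonal]
  rw [SmallGroups.DegThree.det_eq_one S.noncomm ρ t] at hdet
  have hpm : ∀ i, ε i = 1 ∨ ε i = -1 := fun i => sq_eq_one_iff.mp (hε i)
  set m := (Finset.univ.filter fun i => ε i = -1).card
  have hm : Even m := by
    rcases Nat.even_or_odd m with h | h
    · exact h
    · exfalso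
      rw [← Finset.prod_filter_mul_prod_filter_not Finset.univ (fun i => ε i = -1),
        Finset.prod_congr rfl (fun i hi => (Finset.mem_filter.1 hi).2), Finset.prod_const,
        Finset.prod_eq_one (fun i hi => (hpm i).resolve_right (Finset.mem_filter.1 hi).2),
        mul_one, h.neg_one_pow] at hdet
      norm_num at hdet
  have hdeg : charDegree (χ : G → ℂ) = Module.finrank ℂ (Fin n → ℂ) :=
    Char.charDegree_of_eq (by rw [← hρ, Representation.char_one])
  have hmle : m ≤ Module.finrank ℂ (Fin n → ℂ) := (Finset.card_filter_le _ _).trans (by simp)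
  have hval : (χ : G → ℂ) t = (((Module.finrank ℂ (Fin n → ℂ) : ℕ) : ℤ) - 2 * m : ℤ) := by
    have e : ∀ i, ε i = (if ε i = -1 then -1 else 1 : ℂ) := fun i => by
      split_ifs with h'
      · exact h'
      · exact (hpm i).resolve_right h'
    rw [← hρ, hsum, Finset.sum_congr rfl fun i _ => e i, Finset.sum_ite,
      Finset.sum_const, Finset.sum_const]
    have hnot : (Finset.univ.filter fun i => ¬ ε i = -1).card = Module.finrank ℂ (Fin n → ℂ) - m := by
      have := Finset.card_filter_add_card_filter_not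
        (s := (Finset.univ : Finset (Fin (Module.finrank ℂ (Fin n → ℂ))))) (fun i => ε i = -1)
      simp only [Finset.card_univ, Fintype.card_fin] at this
      omega
    rw [hnot]
    simp only [nsmul_eq_mul]
    push_cast [hmle]
    ring
  refine ⟨((Module.finrank ℂ (Fin n → ℂ) : ℕ) : ℤ) - 2 * m, hval, ?_, ?_, fun hne hEq => ?_⟩
  · obtain ⟨j, hj⟩ := hm
    rw [hdeg]
    exact ⟨j, by rw [hj]; push_cast; ring⟩
  · rw [hdeg, abs_le]
    omega
  · rw [hdeg] at hEq
    have h1 := (SmallGroups.DegThree.faithful S.noncomm χ.2 hne).1 t (by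
      rw [hval, hEq, ← hρ, Representation.char_one]
      norm_num)
    rw [h1, orderOf_one] at ht
    omega

/-- An involution inverting an element of order `p` fixes at most three points. -/
theorem fix_le_three {x t : G} (hx : orderOf x = p) (htx : t * x * t⁻¹ = x⁻¹) :
    fix Ω t ≤ 3 := by
  haveI := Fact.mk S.prime
  have hfree : ∀ (a : Ω) (i : ℤ), x ^ i • a = a → x ^ i = 1 := by
    intro a i h
    by_contra hne
    have ho : orderOf (x ^ i) = p := by
      have := orderOf_dvd_of_mem_zpowers (zpow_mem_zpowers x i : x ^ i ∈ zpowers x)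
      rw [hx] at this
      rcases (Nat.dvd_prime S.prime).1 this with h1 | h1
      · exact absurd (orderOf_eq_one_iff.1 h1) hne
      · exact h1
    have h0 := S.fix_singular (g := x ^ i) (by rw [ho])
    rw [fix, Nat.card_eq_zero] at h0
    rcases h0 with h0 | h0
    · exact h0.false ⟨a, h⟩
    · exact absurd h0 (not_infinite_iff_finite.2 inferInstance)
  have hconj : ∀ i : ℤ, t * x ^ i * t⁻¹ = x ^ (-i) := fun i => by
    rw [← conj_zpow, htx, inv_zpow, _root_.zpow_neg]
  -- the orbit map is injective on fixed points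
  set Z := zpowers x
  have hinj : Function.Injective (fun a : MulAction.fixedBy Ω t =>
      (Quotient.mk (MulAction.orbitRel Z Ω) (a : Ω))) := by
    rintro ⟨a, ha⟩ ⟨b, hb⟩ hab
    obtain ⟨⟨g, i, rfl⟩, hg⟩ := Quotient.exact hab
    simp only at hg
    change x ^ i • b = a at hg
    have h1 : x ^ (-i) • b = a := by
      rw [← hconj, mul_smul, mul_smul, inv_smul_eq_iff.2 (hb : t • b = b).symm, hg]
      exact ha
    have h2 : x ^ (i + i) • b = b := by
      have h3 : x ^ (-i) • b = x ^ i • b := by rw [h1, hg]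
      rw [zpow_add, mul_smul, ← h3, ← mul_smul, ← zpow_add, add_neg_cancel, zpow_zero, one_smul]
    have h4 := orderOf_dvd_iff_zpow_eq_one.2 (hfree b _ h2)
    rw [hx, ← two_mul] at h4
    have h5 : (p : ℤ) ∣ i :=
      ((Nat.prime_iff_prime_int.1 S.prime).dvd_or_dvd h4).resolve_left fun h => by
        have := Int.le_of_dvd two_pos h
        have := S.three_lt
        omega
    have h6 : x ^ i = 1 := orderOf_dvd_iff_zpow_eq_one.1 (by rw [hx]; exact h5)
    rw [h6, one_smul] at hg
    exact Subtype.ext hg.symm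
  have hle := Nat.card_le_card_of_injective _ hinj
  refine le_trans hle ?_
  have hsum : 3 * p = Nat.card (Quotient (MulAction.orbitRel Z Ω)) * p := by
    have e := (MulAction.selfEquivSigmaOrbits Z Ω)
    rw [← S.card_points, Nat.card_congr e, Nat.card_sigma]
    rw [Finset.sum_congr rfl fun q _ => ?_, Finset.sum_const, Finset.card_univ, smul_eq_mul,
      ← Nat.card_eq_fintype_card]
    set a := q.out
    have hs : stabilizer Z a = ⊥ := by
      refine (eq_bot_iff_forall _).2 fun g hg => ?_
      obtain ⟨i, hi⟩ := g.2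
      simp only at hi
      have : x ^ i • a = a := by
        have hga : g • a = a := hg
        have : ((g : G)) • a = a := hga
        rwa [← hi] at this
      exact Subtype.ext (by rw [← hi, hfree a i this]; rfl)
    rw [← Nat.card_congr (MulAction.orbitEquivQuotientStabilizer Z a).symm,
      ← Subgroup.index_eq_card, hs, Subgroup.index_bot, Nat.card_zpowers, hx]
  have := Nat.eq_of_mul_eq_mul_right S.p_pos hsum
  exact this.symm.le

end Setup

end Cfsg.Agent.DegThreeP
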