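import Cfsg.Agent.DegThreeP.Basic
import Cfsg.Agent.S4441
import Cfsg.Agent.Char.DefectZero
import Cfsg.Agent.DefOne.McKayCount
import Cfsg.Agent.BlkChar.PModular

/-!
# The principal `p`-block when the Sylow normaliser is dihedral of order `2p`
-/

set_option autoImplicit false
set_option linter.style.haveILetI false
set_option linter.unusedSectionVars false

noncomputable section

namespace Cfsg.Agent.DegThreeP

open Cfsg Cfsg.Agent.DefOne
open scoped Classical

universe u v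

variable {G : Type u} [Group G] [Fintype G] {p : ℕ} [Fact p.Prime]

/-- The characters of degree prime to `p`, with their values on the `p`-singular elements. -/
structure Pre (G : Type u) [Group G] (p : ℕ) where
  X : IrrCharacter G
  Y : Finset (IrrCharacter G)
  εX : ℤ
  ε : ℤ
  f : ℕ
  X_ne : (X : G → ℂ) ≠ fun _ => 1
  X_not_mem : X ∉ Y
  one_not_mem : ∀ ψ ∈ Y, (ψ : G → ℂ) ≠ fun _ => 1
  card_Y : Y.card = (p - 1) / 2
  εX_cases : εX = 1 ∨ εX = -1
  ε_cases : ε = 1 ∨ ε = -1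
  deg_X : (X : G → ℂ) 1 = f
  f_mod : (p : ℤ) ∣ εX - f
  Y_regular : ∀ ψ ∈ Y, ∀ g : G, ¬ p ∣ orderOf g →
    (ε : ℂ) * (ψ : G → ℂ) g = 1 + (εX : ℂ) * (X : G → ℂ) g
  X_singular : ∀ g : G, p ∣ orderOf g → (X : G → ℂ) g = εX
  Y_singular : ∀ g : G, p ∣ orderOf g → ∑ ψ ∈ Y, (ψ : G → ℂ) g = -(ε : ℂ)
  other : ∀ χ : IrrCharacter G, (χ : G → ℂ) ≠ (fun _ => 1) → χ ≠ X → χ ∉ Y →
    p ∣ charDegree (χ : G → ℂ) ∧ ∀ g : G, p ∣ orderOf g → (χ : G → ℂ) g = 0

theorem exists_pre (hp5 : 5 ≤ p) (P : Sylow p G) (hP : Nat.card P = p)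
    (hC : CP P = (P : Subgroup G)) (hN : Nat.card (NP P) = 2 * p)
    (hsing : ∀ g : G, p ∣ orderOf g → orderOf g = p) {M : Ideal AlgInt}
    (hM : IsPModular p M) : Nonempty (Pre G p) := by
  have hp : p.Prime := Fact.out
  haveI := Block.isPrime_of_isPModular hM
  have hCc : Nat.card (CP P) = p := by rw [hC]; exact hP
  have he : (CP P).relIndex (NP P) = 2 := by
    have h := ((CP P).subgroupOf (NP P)).card_mul_index
    rw [Nat.card_congr (Subgroup.subgroupOfEquivOfLe (Subgroup.centralizer_le_normalizer _)).toEquiv,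
      hCc, hN] at h
    rw [Subgroup.relIndex]
    exact Nat.eq_of_mul_eq_mul_left hp.pos (h.trans (mul_comm 2 p))
  obtain ⟨X, Y, hB, hdis, hX, hY, εX, ε, hX', hε, hY', -, hrel⟩ :=
    S4441.result p M hM (by omega) P hP 2 he
  obtain ⟨L⟩ := exists_loc P hP
  have hsmall : ∀ k : ℤ, (k = 1 ∨ k = -1 ∨ k = 2 ∨ k = -2) → ∀ d : ℕ, (d : ℤ) ≡ k [ZMOD p] → ¬ p ∣ d := by
    intro k hk d hd hdvd
    have h1 : (p : ℤ) ∣ k := by
      have h2 := Int.modEq_iff_dvd.1 hd
      have h3 : (p : ℤ) ∣ (d : ℤ) := Int.natCast_dvd_natCast.2 hdvd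
      simpa using h2.add h3
    have h4 := Int.le_of_dvd (show 0 < |k| by rcases hk with h | h | h | h <;> subst h <;> decide)
      ((dvd_abs _ _).2 h1)
    rcases hk with h | h | h | h <;> subst h <;> norm_num at h4 <;> omega
  -- the count
  have hsub : principalBlock M G ⊆ {φ : IrrCharacter G | ¬ p ∣ charDegree (φ : G → ℂ)} := by
    intro φ hφ
    rw [hB] at hφ
    rcases hφ with h | h
    · obtain ⟨h1, h2, -⟩ := hX' φ h
      exact hsmall _ (by rcases h1 with h1 | h1 <;> simp [h1]) _ h2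
    · exact hsmall _ (by rcases hε with h1 | h1 <;> simp [h1]) _ (hY' φ h)
  have hall : principalBlock M G = {φ : IrrCharacter G | ¬ p ∣ charDegree (φ : G → ℂ)} := by
    refine Set.eq_of_subset_of_ncard_le hsub ?_ (Set.toFinite _)
    have htriv : ∀ θ : IrrCharacter (CP P), TrivP θ → θ = Char.trivialIrr (CP P) := by
      intro θ hθ
      have hc : ∀ c, (θ : CP P → ℂ) c = (θ : CP P → ℂ) 1 := fun c =>
        hθ c (by rw [← hC]; exact c.2)
      by_contra hne
      have hs := Char.irr_sum_eq_zero θ.2 fun h => hne (Subtype.ext h)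
      rw [Finset.sum_congr rfl fun c _ => hc c, Finset.sum_const, smul_eq_zero] at hs
      exact hs.elim (fun h => Fintype.card_ne_zero h) (Char.irr_one_ne_zero θ.2)
    have hT : (Finset.univ.filter fun θ : IrrCharacter (CP P) => TrivP θ)
        = {Char.trivialIrr (CP P)} := by
      ext θ
      simp only [Finset.mem_filter, Finset.mem_univ, true_and, Finset.mem_singleton]
      exact ⟨htriv θ, fun h => h ▸ fun _ _ => rfl⟩
    have h := L.card_pPrime hM
    rw [hT, Finset.sum_singleton] at h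
    have hs : Nat.card {n : NP P // Loc.tw n (Char.trivialIrr (CP P)) = Char.trivialIrr (CP P)}
        = 2 * p := by
      rw [Nat.card_congr (Equiv.subtypeUnivEquiv fun n => Subtype.ext (funext fun c => by
        rw [Loc.tw_apply]; rfl))]
      exact hN
    simp only [weight, hs, hCc, hN, Nat.mul_div_cancel _ hp.pos] at h
    rw [mul_div_assoc, div_self (Nat.cast_ne_zero.2 (by omega)), mul_one, Nat.cast_inj] at h
    rw [← Nat.card_coe_set_eq, Set.coe_setOf, h, hB, Set.ncard_union_eq hdis (Set.toFinite _) (Set.toFinite _),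
      ← Nat.card_coe_set_eq, ← Nat.card_coe_set_eq, hX, hY]
  have h1mem : Char.trivialIrr G ∈ principalBlock M G := Block.mem_blockOf_self (Char.trivialIrr G)
  have hd1 : charDegree ((Char.trivialIrr G : IrrCharacter G) : G → ℂ) = 1 :=
    Nat.cast_injective (R := ℂ) (by
      rw [← (Block.irr_one_eq_charDegree (Char.trivialIrr G).2).1, Nat.cast_one]; rfl)
  rw [hB] at h1mem
  have h1X : Char.trivialIrr G ∈ X := by
    refine h1mem.resolve_right fun h => ?_
    have h2 := hY' _ h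
    rw [hd1, Nat.cast_one] at h2
    have h3 := Int.modEq_iff_dvd.1 h2
    rcases hε with h4 | h4 <;> subst h4 <;>
      [(have h5 := Int.le_of_dvd (by norm_num) h3); (have h5 := Int.le_of_dvd (by norm_num) (dvd_neg.2 h3))] <;>
      norm_num at h5 <;> omega
  obtain ⟨a, b, hab, hXe⟩ := Set.ncard_eq_two.1 (show X.ncard = 2 by rw [← Nat.card_coe_set_eq, hX])
  obtain ⟨χ, hχne, hXe'⟩ : ∃ χ, χ ≠ Char.trivialIrr G ∧ X = {Char.trivialIrr G, χ} := by
    rw [hXe] at h1X
    rcases h1X with h | h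
    · exact ⟨b, h ▸ hab.symm, by rw [hXe, h]⟩
    · rw [Set.mem_singleton_iff] at h
      exact ⟨a, h ▸ hab, by rw [hXe, h, Set.pair_comm]⟩
  have hY0 : 0 < (p - 1) / 2 := Nat.div_pos (by omega) two_pos
  have hX1 : εX (Char.trivialIrr G) = 1 := by
    obtain ⟨h1, h2, -⟩ := hX' _ h1X
    rw [hd1, Nat.cast_one] at h2
    refine h1.resolve_right fun h => ?_
    rw [h] at h2
    have := Int.le_of_dvd (by norm_num) (dvd_neg.2 (Int.modEq_iff_dvd.1 h2))
    omega
  obtain ⟨hχ1, hχ2, hχ3⟩ := hX' χ (by rw [hXe']; exact Or.inr rfl)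
  have hYfin : Y.Finite := Set.toFinite _
  set Y' := hYfin.toFinset
  have hmemY : ∀ ψ, ψ ∈ Y' ↔ ψ ∈ Y := fun ψ => hYfin.mem_toFinset
  have hcardY : Y'.card = (p - 1) / 2 := by
    rw [← Set.ncard_eq_toFinset_card Y hYfin, ← Nat.card_coe_set_eq]; exact hY
  have hX1mem : Char.trivialIrr G ∈ X := h1X
  have h1Y : ∀ ψ ∈ Y', (ψ : G → ℂ) ≠ fun _ => 1 := fun ψ hψ h => by
    have : ψ = Char.trivialIrr G := Subtype.ext h
    rw [this, hmemY] at hψ
    exact Set.disjoint_left.1 hdis h1X hψ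
  have hχY : χ ∉ Y' := fun h => by
    rw [hmemY] at h
    exact Set.disjoint_left.1 hdis (show χ ∈ X by rw [hXe']; exact Or.inr rfl) h
  have hreg : ∀ ψ ∈ Y', ∀ g : G, ¬ p ∣ orderOf g →
      (ε : ℂ) * (ψ : G → ℂ) g = 1 + (εX χ : ℂ) * (χ : G → ℂ) g := by
    intro ψ hψ g hg
    rw [hrel ψ ((hmemY ψ).1 hψ) g hg, hXe', finsum_mem_pair hχne.symm, hX1]
    push_cast
    rw [show ((Char.trivialIrr G : IrrCharacter G) : G → ℂ) g = 1 from rfl, mul_one]
  have hother : ∀ φ : IrrCharacter G, (φ : G → ℂ) ≠ (fun _ => 1) → φ ≠ χ → φ ∉ Y' →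
      p ∣ charDegree (φ : G → ℂ) := by
    intro φ hne hneχ hnY
    by_contra hd
    have hφ : φ ∈ principalBlock M G := by rw [hall]; exact hd
    rw [hB, hXe'] at hφ
    rcases hφ with (h | h) | h
    · exact hne (congrArg Subtype.val h)
    · exact hneχ h
    · exact hnY ((hmemY φ).2 h)
  have hvan : ∀ φ : IrrCharacter G, p ∣ charDegree (φ : G → ℂ) → ∀ g : G, p ∣ orderOf g →
      (φ : G → ℂ) g = 0 := fun φ hd g hg =>
    Char.irr_defect_zero_vanish' φ.2 hp (n := 1) (fun h => by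
      have := P.pow_dvd_card_of_pow_dvd_card h
      rw [hP] at this
      exact absurd (Nat.le_of_dvd hp.pos this) (not_le.2 (by
        rw [pow_succ, pow_one]; exact lt_mul_of_one_lt_left hp.pos hp.one_lt)))
      (Block.irr_one_eq_charDegree φ.2).1 (by rwa [pow_one]) g hg
  have hXs : ∀ g : G, p ∣ orderOf g → (χ : G → ℂ) g = εX χ := by
    intro g hg
    have ho := hsing g hg
    obtain ⟨Q, hQ⟩ := ((IsPGroup.of_card (p := p) (n := 1)
      (by rw [Nat.card_zpowers, ho, pow_one])) : IsPGroup p (Subgroup.zpowers g)).exists_le_sylow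
    obtain ⟨w, hw⟩ := MulAction.exists_smul_eq G Q P
    have hmem : w * g * w⁻¹ ∈ (P : Subgroup G) := by
      rw [← hw]
      exact ⟨g, hQ (Subgroup.mem_zpowers g), rfl⟩
    have hne : w * g * w⁻¹ ≠ 1 := fun h => by
      rw [conj_eq_one_iff] at h
      rw [h, orderOf_one] at ho
      exact hp.one_lt.ne ho
    have h := hχ3 _ hmem hne 1 (one_mem _) (by rw [orderOf_one]; exact hp.not_dvd_one)
    rw [mul_one, Char.isCharacter_isClassFunction (Char.isCharacter_of_irr χ.2) g w] at h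
    exact h
  refine ⟨⟨χ, Y', εX χ, ε, charDegree (χ : G → ℂ), fun h => hχne (Subtype.ext h), hχY, h1Y,
    hcardY, hχ1, hε, (Block.irr_one_eq_charDegree χ.2).1, ?_, hreg, hXs, ?_,
    fun φ h1 h2 h3 => ⟨hother φ h1 h2 h3, hvan φ (hother φ h1 h2 h3)⟩⟩⟩
  · exact Int.modEq_iff_dvd.1 hχ2
  · intro g hg
    have hg1 : g ≠ 1 := fun h => by rw [h, orderOf_one] at hg; exact hp.not_dvd_one hg
    have h0 := Char.sum_irr_degree_mul (G := G) g
    rw [if_neg hg1] at h0
    set one := Char.trivialIrr G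
    have hn1 : one ∉ insert χ Y' := by
      rw [Finset.mem_insert, not_or]
      exact ⟨hχne.symm, fun h => h1Y _ h rfl⟩
    rw [← Finset.sum_subset (Finset.subset_univ (insert one (insert χ Y'))) (fun φ _ hφ => by
      simp only [Finset.mem_insert, not_or] at hφ
      have hne : (φ : G → ℂ) ≠ fun _ => 1 := fun h => hφ.1 (Subtype.ext h)
      rw [hvan φ (hother φ hne hφ.2.1 hφ.2.2) g hg, mul_zero]), Finset.sum_insert hn1,
      Finset.sum_insert hχY, show (one : G → ℂ) 1 = 1 from rfl, show (one : G → ℂ) g = 1 from rfl,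
      hXs g hg, Finset.sum_congr (s₁ := Y') rfl (fun (ψ : IrrCharacter G) hψ => show (ψ : G → ℂ) 1 * (ψ : G → ℂ) g =
        (ε : ℂ) * (1 + (εX χ : ℂ) * (χ : G → ℂ) 1) * (ψ : G → ℂ) g by
          rw [← hreg ψ hψ 1 (by rw [orderOf_one]; exact hp.not_dvd_one)]
          rcases hε with e | e <;> simp [e]), ← Finset.mul_sum] at h0
    set Sy := ∑ ψ ∈ Y', (ψ : G → ℂ) g
    have hne0 : 1 + (εX χ : ℂ) * (χ : G → ℂ) 1 ≠ 0 := by
      obtain ⟨ψ, hψ⟩ := Finset.card_pos.1 (by rw [hcardY]; exact hY0 : 0 < Y'.card)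
      rw [← hreg ψ hψ 1 (by rw [orderOf_one]; exact hp.not_dvd_one)]
      refine mul_ne_zero ?_ (Char.irr_one_ne_zero ψ.2)
      rcases hε with e | e <;> simp [e]
    have h2 : (1 + (εX χ : ℂ) * (χ : G → ℂ) 1) * (1 + (ε : ℂ) * Sy) = 0 := by
      linear_combination h0
    have h3 := (mul_eq_zero.1 h2).resolve_left hne0
    have h4 : (ε : ℂ) * (ε : ℂ) = 1 := by rcases hε with e | e <;> simp [e]
    linear_combination (ε : ℂ) * h3 - Sy * h4

end Cfsg.Agent.DegThreeP
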