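import Cfsg.Agent.DegThreeP.Split
import Cfsg.Agent.Char.Real

/-!
# The cases `f = p - 1, 2p - 1, 3p - 1`
-/

set_option autoImplicit false
set_option linter.style.haveILetI false
set_option linter.unusedSectionVars false
set_option maxHeartbeats 400000

noncomputable section

namespace Cfsg.Agent.DegThreeP

open Cfsg Subgroup MulAction
open scoped Classical ComplexConjugate

universe u v

variable {G : Type u} [Group G] [Fintype G] {Ω : Type v} [Fintype Ω] [MulAction G Ω] {p : ℕ}

/-- The arithmetic of the degrees: `n` is the rest of the permutation character. -/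
theorem degree_cases {p f E N n : ℕ} {a c : ℕ} {εX ε : ℤ} (hp : p.Prime) (hp5 : 5 ≤ p)
    (hN : N = (p - 1) / 2) (hεX : εX = 1 ∨ εX = -1) (hε : ε = 1 ∨ ε = -1)
    (hf : (p : ℤ) ∣ εX - f) (hf2 : 2 ≤ f) (hE : ε * E = 1 + εX * f) (hE1 : 1 ≤ E)
    (hc : ε * c = 1 + εX * a) (hn : p ∣ n)
    (hdeg : 3 * p = 1 + a * f + c * (N * E) + n) :
    (εX = 1 ∧ p = 5 ∧ f = 6 ∧ ε = 1 ∧ a = 0 ∧ c = 1 ∧ n = 0) ∨
      (εX = -1 ∧ ε = -1 ∧ (f = p - 1 ∨
        (a = 1 ∧ c = 0 ∧ ((f = 2 * p - 1 ∧ n = p) ∨ (f = 3 * p - 1 ∧ n = 0))))) := by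
  obtain ⟨k, hk⟩ := hp.odd_of_ne_two (by omega)
  have hNk : N = k := by omega
  subst hNk
  rcases hεX with h | h <;> subst h
  · left
    have hε1 : ε = 1 := by
      rcases hε with e | e
      · exact e
      · exfalso; subst e; omega
    subst hε1
    have hfp : p + 1 ≤ f := by
      by_contra hlt
      have h1 : (p : ℤ) ∣ (f : ℤ) - 1 := by
        have := hf.neg_right; rwa [neg_sub] at this
      have := Int.le_of_dvd (by omega) h1
      omega
    have hEe : E = f + 1 := by omega
    have hce : c = a + 1 := by omega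
    subst hEe hce
    have h1 : (a + 1) * (N * (f + 1)) ≥ N * (p + 2) * (a + 1) := by
      rw [mul_comm (a + 1)]
      exact Nat.mul_le_mul_right _ (Nat.mul_le_mul_left _ (by omega))
    have hp5' : p = 5 := by
      by_contra hne
      have hN3 : 3 ≤ N := by omega
      have : 3 * (p + 2) ≤ N * (p + 2) * (a + 1) :=
        (Nat.mul_le_mul_right _ hN3).trans (Nat.le_mul_of_pos_right _ (by omega))
      omega
    subst hp5'
    have hN2 : N = 2 := by omega
    subst hN2
    have ha : a = 0 := by
      by_contra h0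
      have : 2 * (5 + 2) * 2 ≤ 2 * (5 + 2) * (a + 1) := Nat.mul_le_mul_left _ (by omega)
      omega
    subst ha
    refine ⟨rfl, rfl, ?_, rfl, rfl, rfl, ?_⟩ <;> omega
  · right
    have hε1 : ε = -1 := by
      rcases hε with e | e
      · exfalso; subst e; omega
      · exact e
    subst hε1
    have hfp : p - 1 ≤ f := by
      have h1 : (p : ℤ) ∣ (f : ℤ) + 1 := by
        have := hf.neg_right; rwa [neg_sub, sub_neg_eq_add] at this
      have := Int.le_of_dvd (by omega) h1
      omega
    have hEe : E = f - 1 := by omega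
    have ha1 : 1 ≤ a := by omega
    have hce : c = a - 1 := by omega
    refine ⟨rfl, rfl, ?_⟩
    by_cases h2 : 2 ≤ a
    · left
      have h3 : 2 * f ≤ a * f := Nat.mul_le_mul_right _ h2
      have h4 : N * E ≤ c * (N * E) := Nat.le_mul_of_pos_left _ (by omega)
      have hp5' : p = 5 := by
        by_contra hne
        have : 3 * E ≤ N * E := Nat.mul_le_mul_right _ (by omega)
        omega
      subst hp5'
      have hN2 : N = 2 := by omega
      subst hN2
      obtain ⟨j, hj⟩ := hf
      omega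
    · have ha : a = 1 := by omega
      subst ha
      have hc0 : c = 0 := by omega
      subst hc0
      obtain ⟨j, hj⟩ := hf
      obtain ⟨i, hi⟩ := hn
      subst hi
      have hf' : (f : ℤ) + 1 = (p : ℤ) * (-j) := by linarith
      have hsum : (p : ℤ) * 3 = (p : ℤ) * (-j + i) := by
        rw [mul_add, ← hf']; push_cast [mul_comm 3 p] at *; omega
      have h3 := mul_left_cancel₀ (by exact_mod_cast hp.ne_zero : (p : ℤ) ≠ 0) hsum
      have hj1 : 1 ≤ -j := by
        by_contra hlt
        have : (p : ℤ) * (-j) ≤ 0 := mul_nonpos_of_nonneg_of_nonpos (by positivity) (by omega)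
        omega
      rcases (show -j = 1 ∨ -j = 2 ∨ -j = 3 by omega) with e | e | e
      · left; rw [e, mul_one] at hf'; omega
      · right; refine ⟨rfl, rfl, Or.inl ⟨?_, ?_⟩⟩
        · rw [e] at hf'; omega
        · have : (i : ℤ) = 1 := by omega
          have : i = 1 := by exact_mod_cast this
          subst this; rw [mul_one]
      · right; refine ⟨rfl, rfl, Or.inr ⟨?_, ?_⟩⟩
        · rw [e] at hf'; omega
        · have : (i : ℤ) = 0 := by omega
          have : i = 0 := by exact_mod_cast this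
          subst this; rw [mul_zero]

/-- The three cases. -/
theorem Setup.cases (S : Setup G Ω p) :
    (∃ (f : ℕ) (C : Chars G p f) (a : ℤ) (c : ℕ), f = p - 1 ∧ Invol C a c ∧
      (4 : ℤ) ∣ (f : ℤ) - a ∧ |a| < f) ∨
    (∃ (f : ℕ) (C : Chars G p f) (c : ℕ), f = 3 * p - 1 ∧
      (∀ g, (fix Ω g : ℂ) = 1 + (C.X : G → ℂ) g) ∧
      ((p % 4 = 3 ∧ Invol C 0 c) ∨ (p % 4 = 1 ∧ Invol C 2 c))) ∨
    (∃ (f : ℕ) (C : Chars G p f) (θ : IrrCharacter G) (c : ℕ), f = 2 * p - 1 ∧
      Invol C 1 c ∧ (θ : G → ℂ) 1 = p ∧ (∀ g, p ∣ orderOf g → (θ : G → ℂ) g = 0) ∧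
      (∀ g, (fix Ω g : ℂ) = 1 + (C.X : G → ℂ) g + (θ : G → ℂ) g) ∧
      (∀ t, orderOf t = 2 → (θ : G → ℂ) t = if p % 4 = 1 then 1 else -1) ∧
      (∀ g, ((C.X : G → ℂ) g).im = 0 ∧ ((θ : G → ℂ) g).im = 0)) := by
  haveI := Fact.mk S.prime
  haveI := S.simple
  haveI := S.prim
  have hp5 := S.five_le
  haveI : Nonempty Ω := (Nat.card_pos_iff.1 (by rw [S.card_points]; omega)).1
  set P : Sylow p G := default
  obtain ⟨hPc, hPC, hPN⟩ := S.sylow P
  obtain ⟨M, hM⟩ := BlkChar.exists_isPModular p S.prime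
  obtain ⟨B⟩ := exists_pre hp5 P hPc hPC hPN (fun g h => S.orderOf_singular h) hM
  set π : G → ℂ := Char.permChar (G := G) Ω with hπd
  have hπfix : ∀ g, π g = (fix Ω g : ℂ) := fun g => rfl
  have hπs : ∀ g, p ∣ orderOf g → π g = 0 := fun g hg => by
    rw [hπfix, S.fix_singular hg, Nat.cast_zero]
  obtain ⟨m, hexp, hm⟩ := Char.isCharacter_exists_coeff (Char.isCharacter_permChar (G := G) Ω)
  set one := Char.trivialIrr G with honed
  have hm1 : m one = 1 := by
    have h : classInner π (one : G → ℂ) = 1 := by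
      rw [hπd, show (one : G → ℂ) = fun _ => 1 from rfl, Char.classInner_permChar_one,
        Char.card_orbits_eq_one_of_pretransitive, Nat.cast_one]
    rw [hm] at h
    exact_mod_cast h
  obtain ⟨ψ₀, hψ₀⟩ := Finset.card_pos.1
    (show 0 < B.Y.card by rw [B.card_Y]; exact Nat.div_pos (by omega) two_pos)
  set a := m B.X with had
  set c := m ψ₀ with hcd
  -- all exceptional characters occur equally often
  have hYm : ∀ ψ ∈ B.Y, (B.ε : ℂ) * (m ψ : ℂ) = 1 + (B.εX : ℂ) * a := by
    intro ψ hψ
    have h1 : classInner π (fun g => (B.ε : ℂ) * (ψ : G → ℂ) g) =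
        classInner π (fun g => 1 + (B.εX : ℂ) * (B.X : G → ℂ) g) := by
      simp only [classInner]
      congr 1
      refine Finset.sum_congr rfl fun g _ => ?_
      by_cases hg : p ∣ orderOf g
      · rw [hπs g hg, zero_mul, zero_mul]
      · rw [B.Y_regular ψ hψ g hg]
    have hint : ∀ z : ℤ, conj (z : ℂ) = z := fun z => by simp
    rw [show (fun g => (B.ε : ℂ) * (ψ : G → ℂ) g) = (B.ε : ℂ) • (ψ : G → ℂ) from rfl,
      show (fun g => 1 + (B.εX : ℂ) * (B.X : G → ℂ) g) =
        (one : G → ℂ) + (B.εX : ℂ) • (B.X : G → ℂ) from rfl,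
      Char.classInner_smul_right, Char.classInner_add_right, Char.classInner_smul_right,
      hm, hm, hm, hint, hint, hm1, Nat.cast_one] at h1
    exact h1
  have hYc : ∀ ψ ∈ B.Y, m ψ = c := by
    intro ψ hψ
    have h : (m ψ : ℂ) = c := by
      refine mul_left_cancel₀ ?_ ((hYm ψ hψ).trans (hYm ψ₀ hψ₀).symm)
      rcases B.ε_cases with e | e <;> simp [e]
    exact_mod_cast h
  set E := charDegree (ψ₀ : G → ℂ)
  have hd : ∀ χ : IrrCharacter G, (χ : G → ℂ) 1 = (charDegree (χ : G → ℂ) : ℂ) :=
    fun χ => (Block.irr_one_eq_charDegree χ.2).1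
  have hYE : ∀ ψ ∈ B.Y, charDegree (ψ : G → ℂ) = E := by
    intro ψ hψ
    refine Nat.cast_injective (R := ℂ) ?_
    rw [← hd, ← hd]
    refine mul_left_cancel₀ ?_
      ((B.Y_regular ψ hψ 1 S.regular_one).trans (B.Y_regular ψ₀ hψ₀ 1 S.regular_one).symm)
    rcases B.ε_cases with e | e <;> simp [e]
  have hdX : charDegree (B.X : G → ℂ) = B.f := Char.charDegree_of_eq B.deg_X
  have hE : B.ε * E = 1 + B.εX * B.f := by
    have h := B.Y_regular ψ₀ hψ₀ 1 S.regular_one
    rw [hd, B.deg_X] at h
    exact_mod_cast h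
  -- the rest of the permutation character
  set O := Finset.univ \ insert one (insert B.X B.Y) with hOd
  have hO : ∀ χ ∈ O, p ∣ charDegree (χ : G → ℂ) := by
    intro χ hχ
    simp only [hOd, Finset.mem_sdiff, Finset.mem_univ, true_and, Finset.mem_insert, not_or] at hχ
    exact (B.other χ (fun h => hχ.1 (Subtype.ext h)) hχ.2.1 hχ.2.2).1
  have hn1 : one ∉ insert B.X B.Y := by
    rw [Finset.mem_insert, not_or]
    exact ⟨fun h => B.X_ne (congrArg Subtype.val h).symm, fun h => B.one_not_mem _ h rfl⟩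
  have hπexp : ∀ g, π g = 1 + (a : ℂ) * (B.X : G → ℂ) g + (c : ℂ) * ∑ ψ ∈ B.Y, (ψ : G → ℂ) g
      + ∑ χ ∈ O, (m χ : ℂ) * (χ : G → ℂ) g := by
    intro g
    have h := congrFun hexp g
    simp only [Finset.sum_apply, Pi.smul_apply, nsmul_eq_mul, Pi.mul_apply, Pi.natCast_apply] at h
    rw [hπd, h, ← Finset.sum_sdiff (Finset.subset_univ (insert one (insert B.X B.Y))), ← hOd,
      Finset.sum_insert hn1, Finset.sum_insert B.X_not_mem, hm1,
      Finset.sum_congr (s₁ := B.Y) rfl (fun (ψ : IrrCharacter G) hψ =>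
        show (m ψ : ℂ) * (ψ : G → ℂ) g = (c : ℂ) * (ψ : G → ℂ) g by rw [hYc ψ hψ]),
      ← Finset.mul_sum, show (one : G → ℂ) g = 1 from rfl]
    push_cast
    ring
  set n := ∑ χ ∈ O, m χ * charDegree (χ : G → ℂ) with hnd
  have hdeg : 3 * p = 1 + a * B.f + c * (((p - 1) / 2) * E) + n := by
    refine Nat.cast_injective (R := ℂ) ?_
    have h := hπexp 1
    rw [hπfix, fix, Nat.card_congr (Equiv.subtypeUnivEquiv fun z => by simp [MulAction.mem_fixedBy]),
      S.card_points, B.deg_X, Finset.sum_congr rfl (fun ψ hψ => by rw [hd, hYE ψ hψ]),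
      Finset.sum_const, B.card_Y, nsmul_eq_mul,
      Finset.sum_congr rfl (fun χ _ => by rw [hd χ])] at h
    rw [hnd]
    push_cast at h ⊢
    exact h
  have hf2 : 2 ≤ B.f := hdX ▸ (SmallGroups.DegThree.faithful S.noncomm B.X.2 B.X_ne).2
  have hcc : B.ε * c = 1 + B.εX * a := by exact_mod_cast hYm ψ₀ hψ₀
  have hnp : p ∣ n := Finset.dvd_sum fun χ hχ => (hO χ hχ).mul_left _
  have hrest0 : n = 0 → ∀ χ ∈ O, m χ = 0 := fun h χ hχ => by
    have := Finset.sum_eq_zero_iff.1 h χ hχ
    rcases Nat.mul_eq_zero.1 this with e | e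
    · exact e
    · exact absurd e (Block.irr_one_eq_charDegree χ.2).2.1.ne'
  have hYreg : B.εX = -1 → B.ε = -1 → ∀ ψ ∈ B.Y, ∀ g : G, ¬ p ∣ orderOf g →
      (ψ : G → ℂ) g = (B.X : G → ℂ) g - 1 := fun h1 h2 ψ hψ g hg => by
    have := B.Y_regular ψ hψ g hg
    rw [h1, h2] at this
    push_cast at this
    linear_combination -this
  obtain ⟨D⟩ := S.exists_dih
  rcases degree_cases S.prime hp5 rfl B.εX_cases B.ε_cases B.f_mod hf2 hE
      (Block.irr_one_eq_charDegree ψ₀.2).2.1 hcc hnp hdeg with
    ⟨h1, h5, hf6, hε, ha0, hc1, hn0⟩ | ⟨h1, h2, h⟩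
  · -- no such group
    exfalso
    obtain ⟨b, hb, hb4, hbabs, hbne⟩ := S.involution_value B.X D.orderOf_t
    have hbne' := hbne B.X_ne
    rw [hdX] at hb4 hbabs hbne'
    have hfix3 := S.fix_le_three D.orderOf_x D.inv_x
    have h4 := S.four_dvd_sub_fix D.orderOf_t
    have h := hπexp D.t
    rw [ha0, hc1, Finset.sum_congr (s₁ := B.Y) rfl (fun (ψ : IrrCharacter G) hψ =>
        show (ψ : G → ℂ) D.t = 1 + (b : ℂ) by
          have := B.Y_regular ψ hψ D.t (S.regular_invol D.orderOf_t)
          rw [h1, hε, hb] at this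
          push_cast at this
          linear_combination this), Finset.sum_const, B.card_Y, show (p - 1) / 2 = 2 by omega,
      Finset.sum_eq_zero (s := O) (fun χ hχ => by rw [hrest0 hn0 χ hχ, Nat.cast_zero, zero_mul])] at h
    rw [hπfix] at h
    norm_num at h
    have h' : ((fix Ω D.t : ℕ) : ℤ) = 1 + 2 * (1 + b) := by
      have : (((fix Ω D.t : ℕ) : ℤ) : ℂ) = ((1 + 2 * (1 + b) : ℤ) : ℂ) := by
        push_cast; linear_combination h
      exact_mod_cast this
    rw [hf6] at hb4 hbabs hbne'
    have h5z : (p : ℤ) = 5 := by exact_mod_cast h5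
    rw [abs_le] at hbabs
    omega
  · let C : Chars G p B.f :=
      { X := B.X, Y := B.Y, X_ne := B.X_ne, X_not_mem := B.X_not_mem, one_not_mem := B.one_not_mem,
        card_Y := B.card_Y, deg_X := B.deg_X,
        f_mod := by
          have := B.f_mod.neg_right
          rw [h1, neg_sub, sub_neg_eq_add] at this
          exact this,
        Y_regular := hYreg h1 h2,
        X_singular := fun g hg => by rw [B.X_singular g hg, h1]; norm_num,
        Y_singular := fun g hg => by rw [B.Y_singular g hg, h2]; norm_num,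
        other := B.other }
    obtain ⟨b, cc, I, hb4, hbabs⟩ := S.invol C
    rcases h with hf | ⟨ha1, hc0, h⟩
    · exact Or.inl ⟨B.f, C, b, cc, hf, I, hb4, hbabs⟩
    have hfixt := S.fix_invol I.isConj D.orderOf_t
    have hbt : (B.X : G → ℂ) D.t = b := I.X_val D.t D.orderOf_t
    rcases h with ⟨hf, hn⟩ | ⟨hf, hn⟩
    · refine Or.inr (Or.inr ?_)
      -- one further constituent, of degree `p`
      obtain ⟨θ, hθO, hθne⟩ : ∃ θ ∈ O, m θ * charDegree (θ : G → ℂ) ≠ 0 :=
        Finset.exists_ne_zero_of_sum_ne_zero (by rw [← hnd, hn]; omega)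
      have hθle : m θ * charDegree (θ : G → ℂ) ≤ p := hn ▸
        Finset.single_le_sum (f := fun χ => m χ * charDegree (χ : G → ℂ)) (fun _ _ => Nat.zero_le _) hθO
      have hθd : charDegree (θ : G → ℂ) = p ∧ m θ = 1 := by
        obtain ⟨j, hj⟩ := hO θ hθO
        rw [hj] at hθne hθle
        have hmj : m θ * j = 1 := by
          have h1 : p * (m θ * j) ≤ p * 1 := by rw [mul_one]; linarith [hθle]
          have h3 := Nat.le_of_mul_le_mul_left h1 S.p_pos
          have h4 : m θ * j ≠ 0 := fun e => hθne (by rw [mul_left_comm, e, mul_zero])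
          omega
        obtain ⟨hm', hj'⟩ := Nat.eq_one_of_mul_eq_one_right hmj, Nat.eq_one_of_mul_eq_one_left hmj
        exact ⟨by rw [hj, hj', mul_one], hm'⟩
      have hothers : ∀ χ ∈ O, χ ≠ θ → m χ = 0 := by
        intro χ hχ hne
        have h := Finset.add_sum_erase O (fun χ => m χ * charDegree (χ : G → ℂ)) hθO
        rw [← hnd, hn, hθd.1, hθd.2, one_mul] at h
        have h0 : ∑ χ ∈ O.erase θ, m χ * charDegree (χ : G → ℂ) = 0 := by omega
        rcases Nat.mul_eq_zero.1 (Finset.sum_eq_zero_iff.1 h0 χ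
          (Finset.mem_erase.2 ⟨hne, hχ⟩)) with e | e
        · exact e
        · exact absurd e (Block.irr_one_eq_charDegree χ.2).2.1.ne'
      have hπg : ∀ g, π g = 1 + (B.X : G → ℂ) g + (θ : G → ℂ) g := by
        intro g
        rw [hπexp g, ha1, hc0, Finset.sum_eq_single θ
          (fun χ hχ hne => by rw [hothers χ hχ hne, Nat.cast_zero, zero_mul])
          (fun h => absurd hθO h), hθd.2]
        push_cast
        ring
      have hθ1 : (θ : G → ℂ) 1 = p := by rw [hd, hθd.1]
      have hθmem := hθO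
      simp only [hOd, Finset.mem_sdiff, Finset.mem_univ, true_and, Finset.mem_insert, not_or] at hθmem
      have hθs : ∀ g, p ∣ orderOf g → (θ : G → ℂ) g = 0 :=
        (B.other θ (fun h => hθmem.1 (Subtype.ext h)) hθmem.2.1 hθmem.2.2).2
      obtain ⟨w, hw, hw4, -, -⟩ := S.involution_value θ D.orderOf_t
      rw [hθd.1] at hw4
      have hsumt : ((fix Ω D.t : ℕ) : ℤ) = 1 + b + w := by
        have h := hπg D.t
        rw [hπfix, hbt, hw] at h
        exact_mod_cast h
      have hcl : ∀ χ : IrrCharacter G, ∀ t : G, orderOf t = 2 → (χ : G → ℂ) t = (χ : G → ℂ) D.t :=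
        fun χ t ht => by
          obtain ⟨g, hg⟩ := isConj_iff.1 (I.isConj D.t t D.orderOf_t ht)
          rw [← hg, Char.isCharacter_isClassFunction (Char.isCharacter_of_irr χ.2)]
      have hθnn := D.sum_nonneg S.not_dvd_two θ (w := 0) (a := w) hθ1
        (fun g hg => by rw [hθs g hg, Int.cast_zero]) (fun g _ hg => by rw [hcl θ g hg, hw])
      have hXnn := D.sum_nonneg S.not_dvd_two B.X (w := -1) (a := b) B.deg_X
        (fun g hg => by rw [B.X_singular g hg, h1]) (fun g _ hg => by rw [hcl B.X g hg, hbt])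
      have hw1 : -1 ≤ w := by
        by_contra hlt
        have : (p : ℤ) * w ≤ (p : ℤ) * (-2) := mul_le_mul_of_nonneg_left (by omega) (by positivity)
        omega
      have hb1 : -1 ≤ b := by
        by_contra hlt
        have : (p : ℤ) * b ≤ (p : ℤ) * (-2) := mul_le_mul_of_nonneg_left (by omega) (by positivity)
        omega
      have hvals : b = 1 ∧ w = if p % 4 = 1 then 1 else -1 := by
        rw [hfixt] at hsumt
        obtain ⟨k, hk⟩ := S.p_odd
        rw [hf] at hb4
        split_ifs at hsumt ⊢ <;> constructor <;> omega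
      refine ⟨B.f, C, θ, cc, hf, hvals.1 ▸ I, hθ1, hθs, fun g => (hπfix g).symm.trans (hπg g),
        fun t ht => ?_, fun g => ⟨?_, ?_⟩⟩
      · rw [hcl θ t ht, hw, hvals.2]
        split_ifs <;> simp
      · refine (Char.conjIrr_eq_self_iff B.X).1 ?_ g
        have hdc : charDegree (Char.conjIrr B.X : G → ℂ) = B.f := Char.charDegree_of_eq (by
          rw [Char.conjIrr_apply, B.deg_X, map_natCast])
        by_contra hne
        by_cases hY : Char.conjIrr B.X ∈ B.Y
        · have hh := hYE _ hY
          rw [hdc] at hh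
          rw [h1, h2, ← hh] at hE
          omega
        have h1' : (Char.conjIrr B.X : G → ℂ) ≠ fun _ => 1 := fun h => B.X_ne (funext fun g => by
          have e := congrArg conj (congrFun h g)
          rw [Char.conjIrr_apply] at e
          simpa using e)
        obtain ⟨hdvd, -⟩ := B.other _ h1' hne hY
        rw [hdc, hf] at hdvd
        have h3 : p ∣ 1 := by
          have h4 : p ∣ 2 * p := dvd_mul_left p 2
          have := Nat.dvd_sub h4 hdvd
          rwa [show 2 * p - (2 * p - 1) = 1 by omega] at this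
        exact S.prime.not_dvd_one h3
      · refine (Char.conjIrr_eq_self_iff θ).1 ?_ g
        by_contra hne
        have hme : m (Char.conjIrr θ) = 1 := by
          have h : classInner π (Char.conjIrr θ : G → ℂ) = conj (classInner π (θ : G → ℂ)) := by
            simp only [classInner, map_mul, map_inv₀, map_natCast, map_sum]
            congr 1
            refine Finset.sum_congr rfl fun g _ => ?_
            rw [hπfix, Char.conjIrr_apply, map_natCast]
          rw [hm, hm, map_natCast, hθd.2] at h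
          exact_mod_cast h
        have hdc : charDegree (Char.conjIrr θ : G → ℂ) = p := Char.charDegree_of_eq (by
          rw [Char.conjIrr_apply, hθ1, map_natCast])
        by_cases hin : Char.conjIrr θ ∈ O
        · rw [hothers _ hin hne] at hme
          omega
        · simp only [hOd, Finset.mem_sdiff, Finset.mem_univ, true_and, not_not, Finset.mem_insert] at hin
          rcases hin with e | e | e
          · rw [e, Char.charDegree_of_eq (d := 1) (by rw [Nat.cast_one]; rfl)] at hdc
            omega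
          · rw [e, hdX, hf] at hdc
            omega
          · rw [hYc _ e, hc0] at hme
            omega
    · refine Or.inr (Or.inl ⟨B.f, C, cc, hf, fun g => ?_, ?_⟩)
      · show (fix Ω g : ℂ) = 1 + (B.X : G → ℂ) g
        rw [← hπfix, hπexp g, ha1, hc0,
          Finset.sum_eq_zero (s := O) (fun χ hχ => by rw [hrest0 hn χ hχ, Nat.cast_zero, zero_mul])]
        push_cast
        ring
      · have h := hπexp D.t
        rw [hπfix, ha1, hc0, hbt,
          Finset.sum_eq_zero (s := O) (fun χ hχ => by rw [hrest0 hn χ hχ, Nat.cast_zero, zero_mul])] at h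
        have h' : ((fix Ω D.t : ℕ) : ℤ) = 1 + b := by
          have : (((fix Ω D.t : ℕ) : ℤ) : ℂ) = ((1 + b : ℤ) : ℂ) := by
            push_cast at h ⊢; linear_combination h
          exact_mod_cast this
        rw [hfixt] at h'
        have hodd := S.p_odd
        rw [Nat.odd_iff] at hodd
        by_cases h4 : p % 4 = 1
        · rw [if_pos h4] at h'
          exact Or.inr ⟨h4, (show b = 2 by omega) ▸ I⟩
        · rw [if_neg h4] at h'
          exact Or.inl ⟨by omega, (show b = 0 by omega) ▸ I⟩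

end Cfsg.Agent.DegThreeP
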