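import Cfsg.Statements.S3254
import Cfsg.Agent.Char.PermChar
import Cfsg.Agent.DefOne.McKayCount

/-!
# Simple primitive groups of degree `3p` with a dihedral Sylow normaliser: the interfaces

`Setup` is the hypothesis of S3254 in the primitive case, `Chars` is the principal `p`-block,
`Invol` is the single class of involutions, `Param` is the rank-three colouring of the case
`f = 2p - 1` and `Local` its Sylow 2-structure.
-/

set_option autoImplicit false

noncomputable section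

namespace Cfsg.Agent.DegThreeP

open Cfsg
open scoped Classical

universe u v

/-- The number of points fixed by `g`. -/
def fix {G : Type u} [Group G] (Ω : Type v) [MulAction G Ω] (g : G) : ℕ :=
  Nat.card (MulAction.fixedBy Ω g)

/-- The hypotheses in the primitive case. -/
structure Setup (G : Type u) [Group G] (Ω : Type v) [MulAction G Ω] (p : ℕ) : Prop where
  prime : p.Prime
  three_lt : 3 < p
  simple : IsSimpleGroup G
  noncomm : ¬ IsMulCommutative G
  faithful : FaithfulSMul G Ω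
  prim : MulAction.IsPreprimitive G Ω
  card_points : Nat.card Ω = 3 * p
  sylow : ∀ P : Sylow p G, Nat.card P = p ∧
    Subgroup.centralizer ((P : Subgroup G) : Set G) = (P : Subgroup G) ∧
    Nat.card (Subgroup.normalizer ((P : Subgroup G) : Set G)) = 2 * p

/-- The principal `p`-block: `1`, `X` of degree `f ≡ -1`, and `(p-1)/2` exceptional characters
equal to `X - 1` on `p`-regular elements; every other character is of defect zero. -/
structure Chars (G : Type u) [Group G] (p f : ℕ) where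
  X : IrrCharacter G
  Y : Finset (IrrCharacter G)
  X_ne : (X : G → ℂ) ≠ fun _ => 1
  X_not_mem : X ∉ Y
  one_not_mem : ∀ ψ ∈ Y, (ψ : G → ℂ) ≠ fun _ => 1
  card_Y : Y.card = (p - 1) / 2
  deg_X : (X : G → ℂ) 1 = f
  f_mod : (p : ℤ) ∣ (f : ℤ) + 1
  Y_regular : ∀ ψ ∈ Y, ∀ g : G, ¬ p ∣ orderOf g → (ψ : G → ℂ) g = (X : G → ℂ) g - 1
  X_singular : ∀ g : G, p ∣ orderOf g → (X : G → ℂ) g = -1
  Y_singular : ∀ g : G, p ∣ orderOf g → ∑ ψ ∈ Y, (ψ : G → ℂ) g = 1
  other : ∀ χ : IrrCharacter G, (χ : G → ℂ) ≠ (fun _ => 1) → χ ≠ X → χ ∉ Y →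
    p ∣ charDegree (χ : G → ℂ) ∧ ∀ g : G, p ∣ orderOf g → (χ : G → ℂ) g = 0

/-- All involutions are conjugate; `a` is the value of `X` at them, `c` their centraliser order. -/
structure Invol {G : Type u} [Group G] {p f : ℕ} (C : Chars G p f) (a : ℤ) (c : ℕ) : Prop where
  exists_invol : ∃ t : G, orderOf t = 2
  isConj : ∀ t u : G, orderOf t = 2 → orderOf u = 2 → IsConj t u
  card_centralizer : ∀ t : G, orderOf t = 2 → Nat.card (Subgroup.centralizer ({t} : Set G)) = c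
  X_val : ∀ t : G, orderOf t = 2 → (C.X : G → ℂ) t = a
  formula : (Nat.card G : ℤ) * ((f : ℤ) - a) ^ 2 = p * (c : ℤ) ^ 2 * f * ((f : ℤ) - 1)

/-- The colouring of rank three in the case `f = 2p - 1`. -/
structure Param (G : Type u) [Group G] (Ω : Type v) [MulAction G Ω] (p : ℕ) where
  R : Ω → Ω → Prop
  inv : ∀ (g : G) (a b : Ω), R (g • a) (g • b) ↔ R a b
  symm : ∀ a b : Ω, R a b → R b a
  irrefl : ∀ a : Ω, ¬ R a a
  trans_R : ∀ a b c : Ω, R a b → R a c → ∃ g : G, g • a = a ∧ g • b = c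
  trans_L : ∀ a b c : Ω, a ≠ b → ¬ R a b → a ≠ c → ¬ R a c → ∃ g : G, g • a = a ∧ g • b = c
  s : ℤ
  two_p : 2 * (p : ℤ) = 6 * s ^ 2 + 3 * s + 1
  deg_R : ∀ a : Ω, (Nat.card {b : Ω // R a b} : ℤ) = p + s
  deg_L : ∀ a : Ω, (Nat.card {b : Ω // a ≠ b ∧ ¬ R a b} : ℤ) = 2 * p - 1 - s
  swap : p % 4 = 1 → ∀ t : G, orderOf t = 2 → Nat.card {a : Ω // R a (t • a)} = p - 1

/-- The Sylow 2-structure in the case `f = 2p - 1`: `⟨σ, v⟩` is dihedral of order 8 with centre
`z = σ ^ 2`; `{1, z, v, v z}` fixes exactly `a, b, b'`, a triangle of colour `R`; the other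
four-group `{1, z, σ v, σ v z}` fixes only `a`. -/
structure Local (G : Type u) [Group G] (Ω : Type v) [MulAction G Ω] (p : ℕ) (Q : Param G Ω p) where
  T : Sylow 2 G
  σ : G
  v : G
  z : G
  a : Ω
  b : Ω
  b' : Ω
  z_eq : z = σ ^ 2
  orderOf_σ : orderOf σ = 4
  orderOf_v : orderOf v = 2
  rel : v * σ * v⁻¹ = σ⁻¹
  card_T : Nat.card T = 8
  gen : Subgroup.closure ({σ, v} : Set G) = (T : Subgroup G)
  one_mod_four : p % 4 = 1
  odd_d : Odd ((p - 1) / 4)
  ab : a ≠ b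
  ab' : a ≠ b'
  bb' : b ≠ b'
  R_ab : Q.R a b
  R_ab' : Q.R a b'
  R_bb' : Q.R b b'
  fix_z : ∀ q : Ω, z • q = q ↔ q = a ∨ q = b ∨ q = b'
  fix_v : ∀ q : Ω, v • q = q ↔ q = a ∨ q = b ∨ q = b'
  σ_a : σ • a = a
  σ_b : σ • b = b'
  σ_b' : σ • b' = b
  stab_L_odd : ∀ q r : Ω, q ≠ r → ¬ Q.R q r →
    ¬ 2 ∣ Nat.card ↥(MulAction.stabilizer G q ⊓ MulAction.stabilizer G r)

end Cfsg.Agent.DegThreeP
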