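import Cfsg.Agent.DegThreeP.Basic
import Cfsg.Agent.S0497
import Mathlib.GroupTheory.GroupAction.Jordan
import Mathlib.GroupTheory.SpecificGroups.Alternating

/-!
# Degree fifteen: the group has order `360`
-/

set_option autoImplicit false
set_option linter.style.haveILetI false
set_option linter.unusedSectionVars false

noncomputable section

namespace Cfsg.Agent.DegThreeP

open Cfsg Subgroup MulAction
open scoped Classical

universe u v

variable {G : Type u} [Group G] [Fintype G] {Ω : Type v} [Fintype Ω] [MulAction G Ω] {p : ℕ}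

theorem small_quot : ∀ o < 247, o % 2 = 1 → 3632428800 % o ^ 4 = 0 → o = 1 ∨ o = 3 := by
  decide +kernel

theorem Setup.equiv_alternating (S : Setup G Ω p) (hp : p = 5) {o : ℕ}
    (hG : Nat.card G = 360 * o ^ 4) (T : Sylow 2 G) (hT : Nat.card T = 8) :
    Nonempty (G ≃* alternatingGroup (Fin 6)) := by
  haveI := S.simple
  haveI := S.faithful
  haveI := S.prim
  haveI : Fact (Nat.Prime 2) := ⟨Nat.prime_two⟩
  haveI : Fact (Nat.Prime 3) := ⟨Nat.prime_three⟩
  set φ := MulAction.toPermHom G Ω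
  have hinj : Function.Injective φ := MulAction.toPerm_injective
  have hcard : Nat.card (Equiv.Perm Ω) = 1307674368000 := by
    rw [Nat.card_perm, S.card_points, hp]
    rfl
  have hrange : Nat.card φ.range = Nat.card G :=
    (Nat.card_congr (MonoidHom.ofInjective hinj).toEquiv).symm
  have hdvd : 360 * o ^ 4 ∣ 1307674368000 := by
    rw [← hG, ← hrange, ← hcard]
    exact φ.range.card_subgroup_dvd_card
  have ho4 : o ^ 4 ∣ 3632428800 :=
    Nat.dvd_of_mul_dvd_mul_left (by norm_num : 0 < 360)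
      (by rw [show 360 * 3632428800 = 1307674368000 by norm_num]; exact hdvd)
  have hodd : o % 2 = 1 := by
    by_contra h
    obtain ⟨j, hj⟩ : 2 ∣ o := by omega
    have h16 : 2 ^ 4 ∣ Nat.card G := by
      rw [hG, hj, mul_pow]
      exact (dvd_mul_right _ _).mul_left _
    have := T.pow_dvd_card_of_pow_dvd_card h16
    rw [hT] at this
    norm_num at this
  have hlt : o < 247 := by
    by_contra h
    have h1 : 247 ^ 4 ≤ o ^ 4 := Nat.pow_le_pow_left (by omega) 4
    have h2 := Nat.le_of_dvd (by norm_num) ho4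
    omega
  rcases small_quot o hlt hodd (Nat.mod_eq_zero_of_dvd ho4) with rfl | rfl
  · exact S0497.result (by rw [hG]; norm_num)
  exfalso
  obtain ⟨Q⟩ : Nonempty (Sylow 3 G) := inferInstance
  have hQ : 3 ^ 6 ∣ Nat.card Q := Q.pow_dvd_card_of_pow_dvd_card (by rw [hG]; norm_num)
  set R := (Q : Subgroup G).map φ
  have hR : IsPGroup 3 R := Q.2.map φ
  obtain ⟨W, hW⟩ := hR.exists_le_sylow
  have hWc : Nat.card W ≤ 3 ^ 6 := by
    obtain ⟨k, hk⟩ := W.2.exists_card_eq
    have h := (W : Subgroup (Equiv.Perm Ω)).card_subgroup_dvd_card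
    rw [hk, hcard] at h
    rw [hk]
    refine Nat.pow_le_pow_right (by norm_num) ?_
    by_contra hk7
    exact absurd ((pow_dvd_pow 3 (by omega : 7 ≤ k)).trans h) (by norm_num)
  have hRW : R = (W : Subgroup (Equiv.Perm Ω)) := Subgroup.eq_of_le_of_card_ge hW (hWc.trans (by
    rw [Subgroup.card_map_of_injective hinj]
    exact Nat.le_of_dvd Nat.card_pos hQ))
  obtain ⟨σ, hσ⟩ : ∃ σ : Equiv.Perm Ω, σ.IsThreeCycle := by
    obtain ⟨a, b, c, hab, hac, hbc⟩ : ∃ a b c : Ω, a ≠ b ∧ a ≠ c ∧ b ≠ c := by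
      refine Finset.two_lt_card_iff.1 (?_ : 2 < (Finset.univ : Finset Ω).card) |>.elim ?_
      · rw [Finset.card_univ, ← Nat.card_eq_fintype_card, S.card_points]; omega
      · rintro a ⟨b, c, -, -, -, hab, hac, hbc⟩
        exact ⟨a, b, c, hab, hac, hbc⟩
    exact ⟨_, Equiv.Perm.isThreeCycle_swap_mul_swap_same hab hac hbc⟩
  obtain ⟨W', hW'⟩ := ((IsPGroup.of_card (p := 3) (n := 1)
    (by rw [Nat.card_zpowers, hσ.orderOf, pow_one])) : IsPGroup 3 (zpowers σ)).exists_le_sylow
  obtain ⟨g, hg⟩ := MulAction.exists_smul_eq (Equiv.Perm Ω) W' W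
  have hmem : g * σ * g⁻¹ ∈ φ.range := by
    refine Subgroup.map_le_range φ (Q : Subgroup G) ?_
    show g * σ * g⁻¹ ∈ R
    rw [hRW, ← hg]
    exact ⟨σ, hW' (mem_zpowers σ), rfl⟩
  have hthree : (g * σ * g⁻¹).IsThreeCycle := by
    unfold Equiv.Perm.IsThreeCycle at hσ ⊢
    rw [Equiv.Perm.cycleType_conj, hσ]
  haveI hprim : IsPreprimitive φ.range Ω := by
    let F : Ω →ₑ[φ.rangeRestrict] Ω := { toFun := id, map_smul' := fun _ _ => rfl }
    exact IsPreprimitive.of_surjective (f := F) Function.surjective_id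
  have hle := Equiv.Perm.alternatingGroup_le_of_isPreprimitive_of_isThreeCycle_mem hprim hthree hmem
  have h1 := Nat.le_of_dvd Nat.card_pos (Subgroup.card_dvd_of_le hle)
  haveI : Nontrivial Ω := Finite.one_lt_card_iff_nontrivial.mp (by rw [S.card_points]; omega)
  have h2 := two_mul_nat_card_alternatingGroup (α := Ω)
  rw [hcard] at h2
  rw [hrange, hG] at h1
  omega

end Cfsg.Agent.DegThreeP
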