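import Cfsg.Agent.DegThreeP.Defs

/-!
# The Sylow 2-structure in the case `f = 2p - 1`
-/

set_option autoImplicit false
set_option linter.all false

namespace Cfsg.Agent.DegThreeP

open MulAction
open scoped Classical

universe u v

namespace LocalAAux

theorem orbit_count {G : Type u} [Group G] {Ω : Type v} [MulAction G Ω]
    (K : Subgroup G) (b : Ω) (q : Ω → Prop)
    (h1 : ∀ c, q c → ∃ g ∈ K, g • b = c) (h2 : ∀ g ∈ K, q (g • b)) :
    Nat.card {c // q c} * Nat.card ↥(K ⊓ stabilizer G b) = Nat.card ↥K := by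
  have he : orbit ↥K b = {c | q c} := by
    ext c
    constructor
    · rintro ⟨g, rfl⟩; exact h2 g g.2
    · intro hc
      obtain ⟨g, hg, e⟩ := h1 c hc
      exact ⟨⟨g, hg⟩, e⟩
  have hi : (stabilizer ↥K b).index = Nat.card {c // q c} := by
    rw [index_stabilizer, he]; rfl
  have hs : stabilizer ↥K b = (K ⊓ stabilizer G b).subgroupOf K := by
    ext g
    simp only [mem_stabilizer_iff, Subgroup.mem_subgroupOf, Subgroup.mem_inf, SetLike.coe_mem,
      true_and]
    rfl
  rw [← hi, mul_comm, ← Subgroup.card_mul_index (stabilizer ↥K b)]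
  congr 1
  rw [hs]
  exact (Nat.card_congr (Subgroup.subgroupOfEquivOfLe inf_le_left).toEquiv).symm

/-- Three distinct fixed points of an element fixing three points are all of them. -/
theorem fix_three {G : Type u} [Group G] {Ω : Type v} [MulAction G Ω] [Finite Ω]
    {g : G} {a b c : Ω} (h : fix Ω g = 3) (hab : a ≠ b) (hac : a ≠ c) (hbc : b ≠ c)
    (ha : g • a = a) (hb : g • b = b) (hc : g • c = c) (q : Ω) :
    g • q = q ↔ q = a ∨ q = b ∨ q = c := by
  have h3 : ({a, b, c} : Set Ω).ncard = 3 :=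
    Set.ncard_eq_three.2 ⟨a, b, c, hab, hac, hbc, rfl⟩
  have hsub : ({a, b, c} : Set Ω) ⊆ fixedBy Ω g := by
    rintro x (rfl | rfl | rfl)
    · exact ha
    · exact hb
    · exact hc
  have heq := Set.eq_of_subset_of_ncard_le hsub
    (by rw [h3]; exact le_of_eq h) (Set.toFinite _)
  constructor
  · intro hq
    have hq' : q ∈ fixedBy Ω g := hq
    rw [← heq] at hq'
    simpa using hq'
  · rintro (rfl | rfl | rfl)
    · exact ha
    · exact hb
    · exact hc

theorem not_two_pow_dvd {e j : ℕ} (hj : Odd j) {n : ℕ} (hn : e < n) : ¬ 2 ^ n ∣ 2 ^ e * j := by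
  intro h
  have h' : 2 ^ (e + 1) ∣ 2 ^ e * j := dvd_trans (pow_dvd_pow 2 hn) h
  rw [pow_succ] at h'
  have : 2 ∣ j := Nat.dvd_of_mul_dvd_mul_left (Nat.two_pow_pos e) h'
  exact (Nat.not_even_iff_odd.2 hj) (even_iff_two_dvd.2 this)

/-- In a simple group no element is an odd permutation. -/
theorem sign_eq_one {G : Type u} [Group G] {Ω : Type v} [MulAction G Ω] [Fintype Ω]
    [DecidableEq Ω] (hs : IsSimpleGroup G) (hc : ¬ IsMulCommutative G) (g : G) :
    Equiv.Perm.sign (toPermHom G Ω g) = 1 := by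
  haveI := hs
  let f : G →* ℤˣ := Equiv.Perm.sign.comp (toPermHom G Ω)
  rcases (inferInstance : f.ker.Normal).eq_bot_or_eq_top with h | h
  · exfalso
    have hinj := f.ker_eq_bot_iff.1 h
    exact hc ⟨⟨fun x y => hinj (by rw [map_mul, map_mul, mul_comm])⟩⟩
  · have : g ∈ f.ker := by rw [h]; trivial
    exact this

/-- A permutation whose square fixes nothing more and which moves an odd multiple of four
points is odd. -/
theorem sign_of_four {Ω : Type v} [Fintype Ω] [DecidableEq Ω] (σ : Equiv.Perm Ω)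
    (h4 : σ ^ 4 = 1) (h2 : ∀ x, σ (σ x) = x → σ x = x) {n : ℕ}
    (hcard : σ.support.card = 4 * n) : Equiv.Perm.sign σ = (-1) ^ n := by
  have hm : ∀ m ∈ σ.cycleType, m = 4 := by
    intro m hm
    have hle := Equiv.Perm.two_le_of_mem_cycleType hm
    have hd : m ∣ 4 :=
      dvd_trans (Equiv.Perm.dvd_of_mem_cycleType hm) (orderOf_dvd_of_pow_eq_one h4)
    have hm4 : m ≤ 4 := Nat.le_of_dvd (by norm_num) hd
    interval_cases m
    · exfalso
      obtain ⟨c, τ, hστ, hdis, hcyc, hsup⟩ := Equiv.Perm.mem_cycleType_iff.1 hm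
      obtain ⟨x, hx⟩ := Finset.card_pos.1 (show 0 < c.support.card by omega)
      have hx' : c x ≠ x := Equiv.Perm.mem_support.1 hx
      have hτx : τ x = x := (hdis x).resolve_left hx'
      have hcc : c (c x) = x := by
        have ho : c ^ 2 = 1 := by rw [← hsup, ← hcyc.orderOf, pow_orderOf_eq_one]
        have := congrArg (fun π : Equiv.Perm Ω => π x) ho
        simpa [sq] using this
      have hτcx : τ (c x) = c x :=
        (hdis (c x)).resolve_left (fun e => hx' (c.injective e))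
      have h1 : σ x = c x := by rw [hστ, Equiv.Perm.mul_apply, hτx]
      have h2' : σ (σ x) = x := by rw [h1, hστ, Equiv.Perm.mul_apply, hτcx, hcc]
      exact hx' (h1 ▸ h2 x h2')
    · norm_num at hd
    · rfl
  have hr : σ.cycleType = Multiset.replicate σ.cycleType.card 4 :=
    Multiset.eq_replicate.2 ⟨rfl, hm⟩
  have hsum := σ.sum_cycleType
  rw [hcard, hr, Multiset.sum_replicate, smul_eq_mul] at hsum
  have hcn : σ.cycleType.card = n := by omega
  rw [Equiv.Perm.sign_of_cycleType, σ.sum_cycleType, hcard, hcn, pow_add, pow_mul,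
    show (-1 : ℤˣ) ^ 4 = 1 from rfl, one_pow, one_mul]

end LocalAAux

open LocalAAux

theorem exists_local {G : Type u} [Group G] [Fintype G] {Ω : Type v} [Fintype Ω]
    [MulAction G Ω] {p : ℕ} (S : Setup G Ω p) {f : ℕ} (hf : f = 2 * p - 1)
    (C : Chars G p f) {c : ℕ} (I : Invol C 1 c) (Q : Param G Ω p)
    (hfix : ∀ t : G, orderOf t = 2 → fix Ω t = if p % 4 = 1 then 3 else 1) :
    Nonempty (Local G Ω p Q) := by
  haveI : Fact (Nat.Prime 2) := ⟨Nat.prime_two⟩
  haveI := S.faithful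
  haveI : IsPretransitive G Ω := S.prim.toIsPretransitive
  have hp3 := S.three_lt
  have hpodd : p % 2 = 1 := Nat.odd_iff.1 (S.prime.odd_of_ne_two (by omega))
  have hcardΩ : Nat.card Ω = 3 * p := S.card_points
  -- the sets of `R`- and `L`-neighbours
  have h2p := Q.two_p
  obtain ⟨s₁, hs₁⟩ : Odd Q.s := by
    rcases Int.even_or_odd Q.s with ⟨r, hr⟩ | h
    · exfalso
      rw [hr, show (6 : ℤ) * (r + r) ^ 2 + 3 * (r + r) + 1 = 2 * (12 * r * r + 3 * r) + 1
        by ring] at h2p
      omega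
    · exact h
  have hs_ne : (3 : ℤ) * Q.s + 1 ≠ 0 := by omega
  have key : ∀ a : Ω, ∃ k l : ℕ, Nat.card {b : Ω // Q.R a b} = k ∧
      Nat.card {b : Ω // a ≠ b ∧ ¬ Q.R a b} = l ∧ (2 : ℤ) * k = (3 * Q.s + 1) * (2 * Q.s + 1) ∧
      (l : ℤ) = 2 * Q.s * (3 * Q.s + 1) ∧ 0 < k ∧ 0 < l := by
    intro a
    refine ⟨_, _, rfl, rfl, ?_, ?_, ?_, ?_⟩
    · rw [Q.deg_R a]; linear_combination h2p
    · rw [Q.deg_L a]; linear_combination h2p
    · by_contra h0
      have := Q.deg_R a
      rw [Nat.eq_zero_of_not_pos h0] at this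
      have hps : (p : ℤ) = -Q.s := by push_cast at this; omega
      rw [hps] at h2p
      have : (6 : ℤ) * Q.s ^ 2 + 5 * Q.s + 1 = 0 := by linarith
      have e : (3 * Q.s + 1) * (2 * Q.s + 1) = 0 := by linear_combination this
      rcases mul_eq_zero.1 e with h | h <;> omega
    · by_contra h0
      have := Q.deg_L a
      rw [Nat.eq_zero_of_not_pos h0] at this
      have hps : (2 : ℤ) * p = 1 + Q.s := by push_cast at this; omega
      rw [hps] at h2p
      have e : Q.s * (3 * Q.s + 1) = 0 := by linear_combination (-(1 : ℤ) / 2) * 0 + (by linarith : (3 : ℤ) * Q.s ^ 2 + Q.s = 0)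
      rcases mul_eq_zero.1 e with h | h <;> omega
  -- orbit counts in a point stabiliser
  have countR : ∀ a b : Ω, Q.R a b → Nat.card {x : Ω // Q.R a x} *
      Nat.card ↥(stabilizer G a ⊓ stabilizer G b) = Nat.card ↥(stabilizer G a) := by
    intro a b hab
    refine orbit_count _ b _ (fun x hx => ?_) (fun g hg => ?_)
    · obtain ⟨g, hga, hgb⟩ := Q.trans_R a b x hab hx
      exact ⟨g, hga, hgb⟩
    · have := (Q.inv g a b).2 hab
      rwa [mem_stabilizer_iff.1 hg] at this
  have countL : ∀ a b : Ω, a ≠ b → ¬ Q.R a b → Nat.card {x : Ω // a ≠ x ∧ ¬ Q.R a x} *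
      Nat.card ↥(stabilizer G a ⊓ stabilizer G b) = Nat.card ↥(stabilizer G a) := by
    intro a b hne hab
    refine orbit_count _ b _ (fun x hx => ?_) (fun g hg => ⟨?_, ?_⟩)
    · obtain ⟨g, hga, hgb⟩ := Q.trans_L a b x hne hab hx.1 hx.2
      exact ⟨g, hga, hgb⟩
    · intro e
      apply hne
      have e' := mem_stabilizer_iff.1 hg
      exact smul_left_cancel g (e'.trans e)
    · intro h
      apply hab
      rw [← Q.inv g a b]
      rwa [mem_stabilizer_iff.1 hg]
  have pairsR : ∀ a : Ω, ∃ b, Q.R a b := by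
    intro a
    obtain ⟨k, l, hk, -, -, -, hk0, -⟩ := key a
    rw [← hk] at hk0
    obtain ⟨⟨b, hb⟩⟩ := (Nat.card_pos_iff.1 hk0).1
    exact ⟨b, hb⟩
  have pairsL : ∀ a : Ω, ∃ b, a ≠ b ∧ ¬ Q.R a b := by
    intro a
    obtain ⟨k, l, -, hl, -, -, -, hl0⟩ := key a
    rw [← hl] at hl0
    obtain ⟨⟨b, hb⟩⟩ := (Nat.card_pos_iff.1 hl0).1
    exact ⟨b, hb⟩
  -- an element of order two in a subgroup of even order
  have invOf : ∀ K : Subgroup G, 2 ∣ Nat.card ↥K → ∃ t ∈ K, orderOf t = 2 := by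
    intro K hK
    obtain ⟨⟨t, ht⟩, hto⟩ := exists_prime_orderOf_dvd_card' (G := ↥K) 2 hK
    exact ⟨t, ht, by rw [← hto, Subgroup.orderOf_mk]⟩
  -- the case `p ≡ 3 (mod 4)` does not occur
  have hp4 : p % 4 = 1 := by
    by_contra hne
    have hodd : ∀ a b : Ω, a ≠ b → Odd (Nat.card ↥(stabilizer G a ⊓ stabilizer G b)) := by
      intro a b hab
      by_contra h
      obtain ⟨t, ht, hto⟩ := invOf _ (even_iff_two_dvd.1 (Nat.not_odd_iff_even.1 h))
      have h1 := hfix t hto
      rw [if_neg hne] at h1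
      obtain ⟨hsub, -⟩ := Nat.card_eq_one_iff_unique.1 h1
      exact hab (congrArg Subtype.val
        (Subsingleton.elim (⟨a, ht.1⟩ : fixedBy Ω t) ⟨b, ht.2⟩))
    obtain ⟨a⟩ : Nonempty Ω := (Nat.card_pos_iff.1 (by rw [hcardΩ]; omega)).1
    obtain ⟨k, l, hk, hl, hk2, hl2, -, -⟩ := key a
    obtain ⟨b, hb⟩ := pairsR a
    obtain ⟨x, hx, hx'⟩ := pairsL a
    have e1 := countR a b hb
    have e2 := countL a x hx hx'
    obtain ⟨m1, hm1⟩ := hodd a b (fun e => Q.irrefl a (e ▸ hb))
    obtain ⟨m2, hm2⟩ := hodd a x hx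
    rw [hk, hm1] at e1
    rw [hl, hm2] at e2
    have e : (k : ℤ) * (2 * m1 + 1) = l * (2 * m2 + 1) := by exact_mod_cast e1.trans e2.symm
    have e' : (3 * Q.s + 1) * ((2 * Q.s + 1) * (2 * m1 + 1))
        = (3 * Q.s + 1) * (4 * Q.s * (2 * m2 + 1)) := by
      linear_combination 2 * e - ((2 * m1 + 1 : ℤ)) * hk2 + (2 * (2 * m2 + 1) : ℤ) * hl2
    have e'' := mul_left_cancel₀ hs_ne e'
    rw [show (2 * Q.s + 1) * (2 * (m1 : ℤ) + 1) = 2 * (2 * Q.s * m1 + Q.s + m1) + 1 by ring,
      show 4 * Q.s * (2 * (m2 : ℤ) + 1) = 2 * (2 * Q.s * (2 * m2 + 1)) by ring] at e''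
    omega
  have h3 : ∀ t : G, orderOf t = 2 → fix Ω t = 3 := fun t ht => by rw [hfix t ht, if_pos hp4]
  -- the Sylow subgroup and its fixed point
  let T : Sylow 2 G := default
  have hΩodd : ¬ 2 ∣ Nat.card Ω := by rw [hcardΩ]; omega
  obtain ⟨a, ha⟩ := T.2.nonempty_fixed_point_of_prime_not_dvd_card Ω hΩodd
  have haT : ∀ t ∈ (T : Subgroup G), t • a = a := fun t ht => ha ⟨t, ht⟩
  obtain ⟨e, he⟩ := T.2.exists_card_eq
  obtain ⟨idx, hidx, hidx2⟩ : ∃ idx, Nat.card G = 2 ^ e * idx ∧ Odd idx :=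
    ⟨(T : Subgroup G).index, by rw [← he, Subgroup.card_mul_index],
      Nat.not_even_iff_odd.1 fun h => T.not_dvd_index (even_iff_two_dvd.1 h)⟩
  -- the point stabiliser
  have hGH : Nat.card ↥(stabilizer G a) * (3 * p) = Nat.card G := by
    rw [← hcardΩ, ← index_stabilizer_of_transitive G a, Subgroup.card_mul_index]
  obtain ⟨j, hj, hj2⟩ : ∃ j, Nat.card ↥(stabilizer G a) = 2 ^ e * j ∧ Odd j := by
    obtain ⟨j, hj⟩ := he ▸ Subgroup.card_dvd_of_le (show (T : Subgroup G) ≤ stabilizer G a from haT)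
    refine ⟨j, hj, ?_⟩
    rw [hidx, hj, mul_assoc] at hGH
    have := Nat.eq_of_mul_eq_mul_left (Nat.two_pow_pos e) hGH
    rw [← this] at hidx2
    exact (Nat.odd_mul.1 hidx2).1
  obtain ⟨k, l, hk, hl, hk2, hl2, -, -⟩ := key a
  -- `k` is twice odd and `l` eight times odd
  have hkl : k + l + 1 = 3 * p := by
    have h1 := Q.deg_R a
    have h2 := Q.deg_L a
    rw [hk] at h1
    rw [hl] at h2
    omega
  obtain ⟨k1, l1, hk1, hl1, hl1o⟩ : ∃ k1 l1 : ℕ, k = 2 * k1 ∧ l = 8 * l1 ∧ Odd l1 := by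
    have hr : (3 : ℤ) * Q.s + 1 = 2 * (3 * s₁ + 2) := by omega
    rw [hr, hs₁] at hl2
    have hl4 : (l : ℤ) = 4 * ((2 * s₁ + 1) * (3 * s₁ + 2)) := by linear_combination hl2
    rw [hr, hs₁] at hk2
    obtain ⟨r, hr2⟩ : Even (3 * s₁ + 2) := by
      by_contra hno
      obtain ⟨r, hr'⟩ := Int.not_even_iff_odd.1 hno
      have : (k : ℤ) = 2 * (r * (4 * s₁ + 3) + 2 * s₁ + 1) + 1 := by
        rw [hr'] at hk2; linarith
      omega
    have hk' : (k : ℤ) = 2 * (r * (4 * s₁ + 3)) := by rw [hr2] at hk2; linarith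
    have hl' : (l : ℤ) = 8 * ((2 * s₁ + 1) * r) := by rw [hr2] at hl4; linarith
    have hrodd : Odd r := by
      rcases Int.even_or_odd r with ⟨w, hw⟩ | h
      · exfalso
        rw [hw, show 2 * ((w + w) * (4 * s₁ + 3)) = 4 * (w * (4 * s₁ + 3)) by ring] at hk'
        omega
      · exact h
    obtain ⟨w, hw⟩ := (Odd.mul ⟨s₁, rfl⟩ hrodd : Odd ((2 * s₁ + 1) * r))
    rw [hw] at hl'
    refine ⟨k / 2, l / 8, ?_, ?_, ?_⟩
    · omega
    · omega
    · rw [Nat.odd_iff]; omega
  -- pair stabilisers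
  have noT : ∀ b : Ω, a ≠ b → ¬ 2 ^ e ∣ Nat.card ↥(stabilizer G a ⊓ stabilizer G b) := by
    intro b hab hd
    by_cases hR : Q.R a b
    · have := countR a b hR
      rw [hk, hk1, hj] at this
      refine not_two_pow_dvd hj2 (show e < e + 1 by omega) ?_
      rw [← this, pow_succ, mul_comm (2 ^ e) 2, mul_assoc]
      exact Nat.mul_dvd_mul_left 2 (dvd_mul_of_dvd_right hd _)
    · have := countL a b hab hR
      rw [hl, hl1, hj] at this
      refine not_two_pow_dvd hj2 (show e < e + 3 by omega) ?_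
      rw [← this, pow_add, mul_comm (2 ^ e), mul_assoc]
      exact Nat.mul_dvd_mul_left 8 (dvd_mul_of_dvd_right hd _)
  have stabOdd_or : ∀ q r : Ω, q ≠ r → ¬ Q.R q r →
      Nat.card {x : Ω // q ≠ x ∧ ¬ Q.R q x} * Nat.card ↥(stabilizer G q ⊓ stabilizer G r)
        = 2 ^ e * j ∧ Nat.card {x : Ω // q ≠ x ∧ ¬ Q.R q x} = 8 * l1 := by
    intro q r hqr hR
    have hc := countL q r hqr hR
    have hcardq : Nat.card ↥(stabilizer G q) = 2 ^ e * j := by
      rw [← hj]
      apply Nat.eq_of_mul_eq_mul_right (show 0 < 3 * p by omega)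
      rw [hGH, ← hcardΩ, ← index_stabilizer_of_transitive G q, Subgroup.card_mul_index]
    have hlq : Nat.card {x : Ω // q ≠ x ∧ ¬ Q.R q x} = 8 * l1 := by
      have h1 := Q.deg_L q
      have h2 := Q.deg_L a
      rw [hl, hl1] at h2
      exact_mod_cast h1.trans h2.symm
    exact ⟨hc.trans hcardq, hlq⟩
  -- a central involution of `T`
  obtain ⟨c', hc', hc'2⟩ : ∃ c', 2 * (3 * j * (p - 1)) = 2 ^ e * c' ∧ Odd c' := by
    obtain ⟨t₀, ht₀⟩ := I.exists_invol
    have hT : Nontrivial ↥(T : Subgroup G) := by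
      rw [← Finite.one_lt_card_iff_nontrivial]
      have h2G : 2 ∣ Nat.card G := ht₀ ▸ orderOf_dvd_natCard t₀
      rcases Nat.eq_zero_or_pos e with h0 | h0
      · exfalso
        rw [hidx, h0, pow_zero, one_mul] at h2G
        exact (Nat.not_even_iff_odd.2 hidx2) (even_iff_two_dvd.2 h2G)
      · rw [he]; exact Nat.one_lt_two_pow (by omega)
    haveI := T.2.center_nontrivial
    obtain ⟨n, hn, hcn⟩ := ((T.2.to_subgroup _).nontrivial_iff_card).1
      (inferInstance : Nontrivial ↥(Subgroup.center ↥(T : Subgroup G)))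
    obtain ⟨z₀, hz₀⟩ := exists_prime_orderOf_dvd_card'
      (G := ↥(Subgroup.center ↥(T : Subgroup G))) 2 (hcn ▸ dvd_pow_self 2 (by omega))
    have hzo : orderOf ((z₀ : ↥(T : Subgroup G)) : G) = 2 := by
      rw [Subgroup.orderOf_coe, Subgroup.orderOf_coe, hz₀]
    have hle : (T : Subgroup G) ≤ Subgroup.centralizer {((z₀ : ↥(T : Subgroup G)) : G)} := by
      intro t ht
      rw [Subgroup.mem_centralizer_singleton_iff]
      exact congrArg Subtype.val (Subgroup.mem_center_iff.1 z₀.2 ⟨t, ht⟩)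
    obtain ⟨i, hi⟩ := he ▸ Subgroup.card_dvd_of_le hle
    rw [I.card_centralizer _ hzo] at hi
    have hiodd : Odd i := by
      have hd : c ∣ Nat.card G := by
        rw [← I.card_centralizer _ hzo]; exact Subgroup.card_subgroup_dvd_card _
      rw [hi, hidx] at hd
      exact hidx2.of_dvd_nat (Nat.dvd_of_mul_dvd_mul_left (Nat.two_pow_pos e) hd)
    refine ⟨i * i * (2 * p - 1), ?_, ?_⟩
    · have hF := I.formula
      have hff : (f : ℤ) = 2 * p - 1 := by omega
      have hG : (Nat.card G : ℤ) = 3 * p * (2 ^ e * j) := by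
        have : Nat.card G = 3 * p * (2 ^ e * j) := by rw [← hGH, hj]; ring
        exact_mod_cast this
      have hci : (c : ℤ) = 2 ^ e * i := by exact_mod_cast hi
      rw [hff, hG, hci] at hF
      have hne : (p : ℤ) * 2 ^ e * (2 * ((p : ℤ) - 1)) ≠ 0 := by
        have : (1 : ℤ) < p := by omega
        have : (0 : ℤ) < p * 2 ^ e * (2 * ((p : ℤ) - 1)) := by
          apply mul_pos <;> first | positivity | omega
        omega
      have h5 : (p : ℤ) * 2 ^ e * (2 * ((p : ℤ) - 1)) * (2 * (3 * (j : ℤ) * ((p : ℤ) - 1)))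
          = (p : ℤ) * 2 ^ e * (2 * ((p : ℤ) - 1)) * (2 ^ e * ((i : ℤ) * i * (2 * (p : ℤ) - 1))) := by
        linear_combination hF
      have h6 := mul_left_cancel₀ hne h5
      zify [show 1 ≤ p by omega, show 1 ≤ 2 * p by omega]
      exact h6
    · refine (hiodd.mul hiodd).mul ?_
      rw [Nat.odd_iff]; omega
  obtain ⟨q1, hq1⟩ : 4 ∣ p - 1 := by omega
  have he3 : 3 ≤ e := by
    by_contra h
    refine not_two_pow_dvd hc'2 (show e < 3 by omega) ?_
    rw [← hc', hq1]
    exact ⟨3 * j * q1, by ring⟩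
  -- the fixed points of a central involution
  obtain ⟨z, hzT, hzo, hzc⟩ : ∃ z ∈ (T : Subgroup G), orderOf z = 2 ∧
      ∀ t ∈ (T : Subgroup G), Commute t z := by
    haveI : Nontrivial ↥(T : Subgroup G) := by
      rw [← Finite.one_lt_card_iff_nontrivial, he]
      exact Nat.one_lt_two_pow (by omega)
    haveI := T.2.center_nontrivial
    obtain ⟨n, hn, hcn⟩ := ((T.2.to_subgroup _).nontrivial_iff_card).1
      (inferInstance : Nontrivial ↥(Subgroup.center ↥(T : Subgroup G)))
    obtain ⟨z₀, hz₀⟩ := exists_prime_orderOf_dvd_card'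
      (G := ↥(Subgroup.center ↥(T : Subgroup G))) 2 (hcn ▸ dvd_pow_self 2 (by omega))
    exact ⟨_, (z₀ : ↥(T : Subgroup G)).2,
      by rw [Subgroup.orderOf_coe, Subgroup.orderOf_coe, hz₀],
      fun t ht => congrArg Subtype.val (Subgroup.mem_center_iff.1 z₀.2 ⟨t, ht⟩)⟩
  have hFz : (fixedBy Ω z).ncard = 3 := h3 z hzo
  obtain ⟨b, b', hbb', hFb⟩ : ∃ b b', b ≠ b' ∧ fixedBy Ω z \ {a} = {b, b'} := by
    refine Set.ncard_eq_two.1 ?_
    rw [Set.ncard_diff_singleton_of_mem (show a ∈ fixedBy Ω z from haT z hzT), hFz]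
  have hbm : b ∈ fixedBy Ω z \ {a} := by rw [hFb]; simp
  have hb'm : b' ∈ fixedBy Ω z \ {a} := by rw [hFb]; simp
  have hab : a ≠ b := fun h => hbm.2 h.symm
  have hab' : a ≠ b' := fun h => hb'm.2 h.symm
  have hfixz := fix_three (h3 z hzo) hab hab' hbb' (haT z hzT) hbm.1 hb'm.1
  have hTz : ∀ t ∈ (T : Subgroup G), ∀ q, q = b ∨ q = b' → t • q = b ∨ t • q = b' := by
    intro t ht q hq
    have hzq : z • q = q := (hfixz q).2 (Or.inr hq)
    have h1 : z • t • q = t • q := by rw [smul_smul, ← (hzc t ht).eq, ← smul_smul, hzq]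
    rcases (hfixz _).1 h1 with h | h
    · exfalso
      have : q = a := smul_left_cancel t (h.trans (haT t ht).symm)
      rcases hq with rfl | rfl
      · exact hab this.symm
      · exact hab' this.symm
    · exact h
  obtain ⟨τ, hτT, hτb⟩ : ∃ τ ∈ (T : Subgroup G), τ • b ≠ b := by
    by_contra h
    push Not at h
    exact noT b hab (he ▸ Subgroup.card_dvd_of_le
      (show (T : Subgroup G) ≤ stabilizer G a ⊓ stabilizer G b from
        fun t ht => ⟨haT t ht, h t ht⟩))
  have hτb1 : τ • b = b' := (hTz τ hτT b (Or.inl rfl)).resolve_left hτb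
  set V : Subgroup G := (T : Subgroup G) ⊓ stabilizer G b with hV
  have hVcard : 2 * Nat.card ↥V = 2 ^ e := by
    have h := orbit_count (T : Subgroup G) b (fun q => q = b ∨ q = b')
      (fun q hq => by
        rcases hq with rfl | rfl
        · exact ⟨1, one_mem _, one_smul _ _⟩
        · exact ⟨τ, hτT, hτb1⟩)
      (fun g hg => hTz g hg b (Or.inl rfl))
    have h2 : Nat.card {q : Ω // q = b ∨ q = b'} = 2 :=
      Set.ncard_pair hbb'
    rw [h2, he] at h
    exact h
  have hVb' : ∀ t ∈ V, t • b' = b' := fun t ht =>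
    (hTz t ht.1 b' (Or.inr rfl)).resolve_left fun h =>
      hbb' (smul_left_cancel t ((mem_stabilizer_iff.1 ht.2).trans h.symm))
  have triR : ∀ q r : Ω, q ≠ r → (∀ t ∈ V, t • q = q ∧ t • r = r) → Q.R q r := by
    intro q r hqr hVf
    by_contra hR
    obtain ⟨hc, hl⟩ := stabOdd_or q r hqr hR
    obtain ⟨m, hm⟩ := Subgroup.card_dvd_of_le
      (show V ≤ stabilizer G q ⊓ stabilizer G r from fun t ht => hVf t ht)
    rw [hl, hm] at hc
    refine not_two_pow_dvd hj2 (show e < e + 2 by omega) ⟨l1 * m, ?_⟩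
    rw [← hc, pow_add, ← hVcard]
    ring
  have Rab : Q.R a b := triR a b hab fun t ht => ⟨haT t ht.1, ht.2⟩
  have Rab' : Q.R a b' := triR a b' hab' fun t ht => ⟨haT t ht.1, hVb' t ht⟩
  have Rbb' : Q.R b b' := triR b b' hbb' fun t ht => ⟨ht.2, hVb' t ht⟩
  have Lodd : ∀ q r : Ω, q ≠ r → ¬ Q.R q r →
      ¬ 2 ∣ Nat.card ↥(stabilizer G q ⊓ stabilizer G r) := by
    intro q r hqr hR hd
    obtain ⟨t, ht, hto⟩ := invOf _ hd
    obtain ⟨g, hg⟩ := isConj_iff.1 (I.isConj t z hto hzo)
    have hmove : ∀ x : Ω, t • x = x → z • g • x = g • x := fun x hx => by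
      rw [← hg, smul_smul, inv_mul_cancel_right, ← smul_smul, hx]
    apply hR
    rw [← Q.inv g]
    rcases (hfixz _).1 (hmove q ht.1) with h | h | h <;>
      rcases (hfixz _).1 (hmove r ht.2) with h' | h' | h' <;>
      first
        | exact absurd (smul_left_cancel g (h.trans h'.symm)) hqr
        | (rw [h, h']
           first
            | exact Rab | exact Rab' | exact Rbb'
            | exact Q.symm _ _ Rab | exact Q.symm _ _ Rab' | exact Q.symm _ _ Rbb')
  -- so `T` has order eight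
  obtain ⟨q₀, r₀, hqr₀, hR₀⟩ : ∃ q r : Ω, q ≠ r ∧ ¬ Q.R q r := ⟨a, pairsL a⟩
  have he_eq : e = 3 := by
    obtain ⟨hc, hl⟩ := stabOdd_or q₀ r₀ hqr₀ hR₀
    by_contra hne
    obtain ⟨d, rfl⟩ : ∃ d, e = 3 + (d + 1) := ⟨e - 4, by omega⟩
    rw [hl, pow_add, show (2 : ℕ) ^ 3 = 8 by norm_num, mul_assoc 8, mul_assoc 8] at hc
    have h' := Nat.eq_of_mul_eq_mul_left (by norm_num : 0 < 8) hc
    have hm : Odd (Nat.card ↥(stabilizer G q₀ ⊓ stabilizer G r₀)) :=
      Nat.not_even_iff_odd.1 fun h => Lodd _ _ hqr₀ hR₀ (even_iff_two_dvd.1 h)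
    refine Nat.not_even_iff_odd.2 (hl1o.mul hm) ?_
    rw [h']
    exact (Nat.even_pow.2 ⟨even_two, by omega⟩).mul_right _
  subst he_eq
  have hd : Odd ((p - 1) / 4) := by
    have : 3 * j * q1 = c' := by
      have h8 : 8 * (3 * j * q1) = 8 * c' := by
        rw [hq1] at hc'; rw [show (2 : ℕ) ^ 3 = 8 by norm_num] at hc'; linarith
      omega
    rw [hq1, Nat.mul_div_cancel_left _ (by norm_num : 0 < 4)]
    rw [← this] at hc'2
    exact (Nat.odd_mul.1 hc'2).2
  have hV4 : Nat.card ↥V = 4 := by rw [show (2 : ℕ) ^ 3 = 8 by norm_num] at hVcard; omega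
  -- `V` is a four-group
  have hz2 : z * z = 1 := by rw [← sq, ← hzo, pow_orderOf_eq_one]
  have hz1 : z ≠ 1 := fun h => by simp [h] at hzo
  have hVz : z ∈ V := ⟨hzT, hbm.1⟩
  have hV2 : ∀ g ∈ V, g * g = 1 := by
    intro g hg
    by_contra hgg
    have h4 : g ^ 4 = 1 := by
      have := orderOf_dvd_natCard (⟨g, hg⟩ : ↥V)
      rw [hV4, Subgroup.orderOf_mk] at this
      exact orderOf_dvd_iff_pow_eq_one.1 this
    have hgg2 : (g * g) * (g * g) = 1 := by
      rw [← h4]; simp only [pow_succ, pow_zero, one_mul, mul_assoc]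
    -- the two involutions of the cyclic group generated by `g`
    have hgo : orderOf g = 4 := by
      refine orderOf_eq_prime_pow (p := 2) (n := 1) ?_ (by simpa using h4)
      simpa [sq] using hgg
    have hcyc : Subgroup.zpowers g = V := by
      refine Subgroup.eq_of_le_of_card_ge (Subgroup.zpowers_le.2 hg) ?_
      rw [Nat.card_zpowers, hgo, hV4]
    have hzg : z = g * g := by
      have : z ∈ Subgroup.zpowers g := hcyc ▸ hVz
      obtain ⟨i, hi, rfl⟩ := Finset.mem_image.1 (mem_zpowers_iff_mem_range_orderOf.1 this)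
      rw [hgo, Finset.mem_range] at hi
      interval_cases i
      · exact absurd (pow_zero g) hz1
      · exact absurd (by simpa using hz2) hgg
      · exact sq g
      · exfalso
        apply hgg
        calc g * g = g ^ 3 * g ^ 3 * ((g ^ 4)⁻¹) := by rw [← sq]; group
          _ = 1 := by rw [hz2, h4]; simp
    have hsign := sign_eq_one (Ω := Ω) S.simple S.noncomm g
    set π := toPermHom G Ω g with hπ
    have hπ4 : π ^ 4 = 1 := by rw [hπ, ← map_pow, h4, map_one]
    have hzfix : ∀ x : Ω, z • x = x → g • x = x := by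
      intro x hx
      rcases (hfixz x).1 hx with rfl | rfl | rfl
      · exact haT g hg.1
      · exact hg.2
      · exact hVb' g hg
    have hsupp : π.support = Finset.univ \ {a, b, b'} := by
      ext x
      simp only [Equiv.Perm.mem_support, Finset.mem_sdiff, Finset.mem_univ, true_and,
        Finset.mem_insert, Finset.mem_singleton]
      constructor
      · intro hx h
        exact hx (hzfix x ((hfixz x).2 h))
      · intro hx h
        apply hx
        apply (hfixz x).1
        have h' : g • x = x := h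
        rw [hzg, ← smul_smul, h', h']
    obtain ⟨d, hdd⟩ := hd
    have hcard : π.support.card = 4 * (3 * (2 * d + 1)) := by
      rw [hsupp, Finset.card_sdiff, Finset.inter_univ, Finset.card_univ,
        ← Nat.card_eq_fintype_card, hcardΩ,
        Finset.card_eq_three.2 ⟨a, b, b', hab, hab', hbb', rfl⟩]
      omega
    have := sign_of_four π hπ4 (fun x hx => hzfix x (by
      rw [hzg, ← smul_smul]; exact hx)) hcard
    rw [hsign, Odd.neg_one_pow ⟨3 * d + 1, by ring⟩] at this
    exact absurd this (by decide)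
  -- choose `v`
  obtain ⟨v, hvV, hv1, hvz⟩ : ∃ v ∈ V, v ≠ 1 ∧ v ≠ z := by
    by_contra h
    push Not at h
    have hsub : (V : Set G) ⊆ {1, z} := fun x hx => by
      by_cases h1 : x = 1
      · exact Or.inl h1
      · exact Or.inr (h x hx h1)
    have := Set.ncard_le_ncard hsub
    rw [← Nat.card_coe_set_eq, SetLike.coe_sort_coe, hV4, Set.ncard_pair (Ne.symm hz1)] at this
    omega
  have hvv : v * v = 1 := hV2 v hvV
  have hvo : orderOf v = 2 := orderOf_eq_prime (by rw [sq]; exact hvv) hv1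
  have hvinv : v⁻¹ = v := inv_eq_of_mul_eq_one_right hvv
  have hfixv := fix_three (h3 v hvo) hab hab' hbb' (haT v hvV.1) hvV.2 (hVb' v hvV)
  have hVmem : ∀ x ∈ V, x = 1 ∨ x = z ∨ x = v ∨ x = v * z := by
    intro x hx
    have hvz1 : v * z ≠ 1 := fun e => hvz (by
      rw [← hvinv]; exact inv_eq_of_mul_eq_one_right e)
    have hsub : ({1, z, v, v * z} : Set G) ⊆ (V : Set G) := by
      rintro y (rfl | rfl | rfl | rfl)
      exacts [one_mem _, hVz, hvV, mul_mem hvV hVz]
    have h4 : ({1, z, v, v * z} : Set G).ncard = 4 := by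
      rw [Set.ncard_insert_of_notMem, Set.ncard_eq_three.2 ⟨z, v, v * z, Ne.symm hvz, ?_, ?_, rfl⟩]
      · exact fun e => hv1 (by simpa using e.symm)
      · exact fun e => hz1 (by simpa using e.symm)
      · simp [Ne.symm hz1, Ne.symm hv1, Ne.symm hvz1]
    have heq := Set.eq_of_subset_of_ncard_le hsub
      (by rw [h4, ← Nat.card_coe_set_eq, SetLike.coe_sort_coe, hV4]) (Set.toFinite _)
    have hx' : x ∈ ({1, z, v, v * z} : Set G) := by rw [heq]; exact hx
    simpa using hx'
  have htrans : ∀ t ∈ (T : Subgroup G), t • b = b' → t • b' = b := by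
    intro t ht htb
    exact (hTz t ht b' (Or.inr rfl)).resolve_right fun h =>
      hbb' (smul_left_cancel t (htb.trans h.symm))
  have hτ2 : τ * τ ∈ V := Subgroup.mem_inf.2 ⟨mul_mem hτT hτT, by
    rw [mem_stabilizer_iff, ← smul_smul, hτb1, htrans τ hτT hτb1]⟩
  have hnonV : ∀ t ∈ (T : Subgroup G), t ∉ V → τ⁻¹ * t ∈ V := by
    intro t ht htV
    have h1 : t • b = b' := (hTz t ht b (Or.inl rfl)).resolve_left fun h => htV ⟨ht, h⟩
    refine Subgroup.mem_inf.2 ⟨mul_mem (inv_mem hτT) ht, ?_⟩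
    rw [mem_stabilizer_iff, ← smul_smul, h1, ← hτb1, inv_smul_smul]
  -- `τ` does not centralise `v`
  have hτv : τ * v * τ⁻¹ ≠ v := by
    intro hcomm
    have hτv' : Commute τ v := by
      have := congrArg (· * τ) hcomm
      show τ * v = v * τ
      simpa using this
    have hτz : Commute τ z := hzc τ hτT
    have hτV : ∀ x ∈ V, Commute τ x := by
      intro x hx
      rcases hVmem x hx with rfl | rfl | rfl | rfl
      exacts [Commute.one_right _, hτz, hτv', hτv'.mul_right hτz]
    have hVV : ∀ x ∈ V, ∀ y ∈ V, Commute x y := by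
      intro x hx y hy
      have h1 : x⁻¹ = x := inv_eq_of_mul_eq_one_right (hV2 x hx)
      have h2 : y⁻¹ = y := inv_eq_of_mul_eq_one_right (hV2 y hy)
      have h3 : (x * y)⁻¹ = x * y := inv_eq_of_mul_eq_one_right (hV2 _ (mul_mem hx hy))
      show x * y = y * x
      rw [← h3, mul_inv_rev, h1, h2]
    by_cases hinv : ∃ t ∈ (T : Subgroup G), t ∉ V ∧ t * t = 1
    · obtain ⟨t, htT, htV, htt⟩ := hinv
      have ht1 : t ≠ 1 := fun h => htV (h ▸ one_mem V)
      have hto : orderOf t = 2 := orderOf_eq_prime (by rw [sq]; exact htt) ht1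
      have htb : t • b ≠ b := fun h => htV ⟨htT, h⟩
      have htb' : t • b' ≠ b' := by
        intro h
        have h1 : t • b = b' := (hTz t htT b (Or.inl rfl)).resolve_left htb
        exact hbb' (smul_left_cancel t (h1.trans h.symm))
      obtain ⟨x, hxF, hxa⟩ : ∃ x, t • x = x ∧ x ≠ a := by
        by_contra h
        push Not at h
        have : (fixedBy Ω t).ncard ≤ ({a} : Set Ω).ncard :=
          Set.ncard_le_ncard (fun x hx => h x hx)
        rw [Set.ncard_singleton] at this
        have h3' : (fixedBy Ω t).ncard = 3 := h3 t hto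
        omega
      have hTcomm : ∀ u ∈ (T : Subgroup G), Commute u t := by
        intro u hu
        have ht' : τ⁻¹ * t ∈ V := hnonV t htT htV
        have e : t = τ * (τ⁻¹ * t) := by group
        by_cases huV : u ∈ V
        · rw [e]; exact (hτV u huV).symm.mul_right (hVV u huV _ ht')
        · have hu' := hnonV u hu huV
          have eu : u = τ * (τ⁻¹ * u) := by group
          rw [e, eu]
          exact ((Commute.refl τ).mul_right (hτV _ ht')).mul_left
            ((hτV _ hu').symm.mul_right (hVV _ hu' _ ht'))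
      -- the stabiliser of `x` in `V`
      obtain ⟨w, hwV, hw1, hwx⟩ : ∃ w ∈ V, w ≠ 1 ∧ w • x = x := by
        by_contra h
        push Not at h
        have hinj : Function.Injective (fun w : ↥V => ((w : G) • x)) := by
          intro w w' e
          have e' : ((w : G)⁻¹ * w') • x = x := by
            rw [← smul_smul]; exact (congrArg ((w : G)⁻¹ • ·) e.symm).trans (inv_smul_smul _ _)
          by_contra hne
          refine h _ (mul_mem (inv_mem w.2) w'.2) ?_ e'
          intro h1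
          exact hne (Subtype.ext (inv_mul_eq_one.1 h1))
        have hrange : Set.range (fun w : ↥V => ((w : G) • x)) ⊆ fixedBy Ω t := by
          rintro _ ⟨w, rfl⟩
          show t • (w : G) • x = (w : G) • x
          rw [smul_smul, ← (hTcomm w w.2.1).eq, ← smul_smul, hxF]
        have h1 := Set.ncard_le_ncard hrange
        rw [Set.ncard_range_of_injective hinj, hV4] at h1
        have h3' : (fixedBy Ω t).ncard = 3 := h3 t hto
        omega
      have hwo : orderOf w = 2 := orderOf_eq_prime (by rw [sq]; exact hV2 w hwV) hw1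
      rcases (fix_three (h3 w hwo) hab hab' hbb' (haT w hwV.1) hwV.2 (hVb' w hwV) x).1 hwx
        with rfl | rfl | rfl
      · exact hxa rfl
      · exact htb hxF
      · exact htb' hxF
    · push Not at hinv
      have hτV' : τ ∉ V := fun h => hτb h.2
      have hu1 : τ * τ ≠ 1 := hinv τ hτT hτV'
      obtain ⟨w, hwV, hw1, hwu⟩ : ∃ w ∈ V, w ≠ 1 ∧ w ≠ τ * τ := by
        by_cases h : v = τ * τ
        · exact ⟨z, hVz, hz1, fun e => hvz (h.trans e.symm)⟩
        · exact ⟨v, hvV, hv1, h⟩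
      have hsq : ∀ y ∈ (T : Subgroup G), y * y = 1 ∨ y * y = τ * τ := by
        intro y hy
        by_cases hyV : y ∈ V
        · exact Or.inl (hV2 y hyV)
        · right
          have hy' := hnonV y hy hyV
          have e : y = τ * (τ⁻¹ * y) := by group
          rw [e, ((hτV _ hy').symm).mul_mul_mul_comm, hV2 _ hy', mul_one]
      have hTc : ∀ u ∈ (T : Subgroup G), ∀ y ∈ (T : Subgroup G), Commute u y := by
        have hcV : ∀ u ∈ (T : Subgroup G), ∀ y ∈ V, Commute u y := by
          intro u hu y hy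
          by_cases huV : u ∈ V
          · exact hVV u huV y hy
          · have eu : u = τ * (τ⁻¹ * u) := by group
            rw [eu]
            exact (hτV y hy).mul_left (hVV _ (hnonV u hu huV) y hy)
        intro u hu y hy
        by_cases hyV : y ∈ V
        · exact hcV u hu y hyV
        · have ey : y = τ * (τ⁻¹ * y) := by group
          rw [ey]
          refine Commute.mul_right ?_ (hcV u hu _ (hnonV y hy hyV))
          by_cases huV : u ∈ V
          · exact (hτV u huV).symm
          · have eu : u = τ * (τ⁻¹ * u) := by group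
            rw [eu]
            exact (Commute.refl τ).mul_left (hτV _ (hnonV u hu huV)).symm
      haveI : IsMulCommutative ↥(T : Subgroup G) :=
        ⟨⟨fun u y => Subtype.ext (hTc u u.2 y y.2).eq⟩⟩
      have hwo : orderOf w = 2 := orderOf_eq_prime (by rw [sq]; exact hV2 w hwV) hw1
      have huo : orderOf (τ * τ) = 2 :=
        orderOf_eq_prime (by rw [sq]; exact hV2 _ hτ2) hu1
      obtain ⟨g, hg⟩ := isConj_iff.1 (I.isConj _ _ huo hwo)
      have hg' : g⁻¹⁻¹ * (τ * τ) * g⁻¹ = w := by rw [inv_inv]; exact hg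
      obtain ⟨n, hn, hne⟩ := T.conj_eq_normalizer_conj_of_mem (τ * τ) g⁻¹ hτ2.1
        (by rw [hg']; exact hwV.1)
      rw [hg'] at hne
      have hmem : n⁻¹ * τ * n ∈ (T : Subgroup G) :=
        (Subgroup.mem_normalizer_iff''.1 hn _).1 hτT
      rcases hsq _ hmem with h | h
      · exact hw1 (hne.trans ((by group : n⁻¹ * (τ * τ) * n = n⁻¹ * τ * n * (n⁻¹ * τ * n)).trans h))
      · exact hwu (hne.trans ((by group : n⁻¹ * (τ * τ) * n = n⁻¹ * τ * n * (n⁻¹ * τ * n)).trans h))
  -- normal form for `τ`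
  have hτv1 : τ * v * τ⁻¹ = v * z := by
    have hmem : τ * v * τ⁻¹ ∈ V := by
      refine Subgroup.mem_inf.2 ⟨mul_mem (mul_mem hτT hvV.1) (inv_mem hτT), ?_⟩
      have hb : τ⁻¹ • b = b' := by
        rw [inv_smul_eq_iff]; exact (htrans τ hτT hτb1).symm
      rw [mem_stabilizer_iff, ← smul_smul, ← smul_smul, hb, hVb' v hvV]
      exact htrans τ hτT hτb1
    rcases hVmem _ hmem with h | h | h | h
    · exact absurd (conj_eq_one_iff.1 h) hv1
    · exfalso
      apply hvz
      calc v = τ⁻¹ * (τ * v * τ⁻¹) * τ := by group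
        _ = z := by rw [h, mul_assoc, ← (hzc τ hτT).eq]; group
    · exact absurd h hτv
    · exact h
  have hτv2 : τ * v = v * z * τ := by rw [← hτv1]; group
  have hτττ : τ * τ = 1 ∨ τ * τ = z := by
    have hcomm : Commute (τ * τ) τ := (Commute.refl τ).mul_left (Commute.refl τ)
    have hzτ : Commute z τ := (hzc τ hτT).symm
    rcases hVmem _ hτ2 with h | h | h | h
    · exact Or.inl h
    · exact Or.inr h
    · exfalso
      rw [h] at hcomm
      exact hτv (by rw [← hcomm.eq]; group)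
    · exfalso
      rw [h] at hcomm
      have h' : Commute v τ := by
        have hv' : v = v * z * z := by rw [mul_assoc, hz2, mul_one]
        rw [hv']
        exact hcomm.mul_left hzτ
      exact hτv (by rw [← h'.eq]; group)
  obtain ⟨σ, hσT, hσb, hσσ, hσv⟩ : ∃ σ ∈ (T : Subgroup G), σ • b = b' ∧ σ * σ = z ∧
      σ * v = v * z * σ := by
    rcases hτττ with h | h
    · refine ⟨τ * v, mul_mem hτT hvV.1, by rw [← smul_smul, (hfixv b).2 (by simp), hτb1], ?_, ?_⟩
      · calc τ * v * (τ * v) = v * z * τ * (τ * v) := by rw [hτv2]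
          _ = v * z * (τ * τ) * v := by simp only [mul_assoc]
          _ = v * z * v := by rw [h, mul_one]
          _ = z := by rw [mul_assoc, ← (hzc v hvV.1).eq, ← mul_assoc, hvv, one_mul]
      · calc τ * v * v = v * z * τ * v := by rw [hτv2]
          _ = v * z * (τ * v) := by simp only [mul_assoc]
    · exact ⟨τ, hτT, hτb1, h, hτv2⟩
  have hσ4 : orderOf σ = 4 := by
    refine orderOf_eq_prime_pow (p := 2) (n := 1) ?_ ?_
    · simpa [sq, hσσ] using hz1
    · show σ ^ (4 : ℕ) = 1
      rw [show (4 : ℕ) = 2 + 2 from rfl, pow_add, sq, hσσ, hz2]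
  have hrel : v * σ * v⁻¹ = σ⁻¹ := by
    have hzv : Commute z v := (hzc v hvV.1).symm
    calc v * σ * v⁻¹ = v * (σ * v) := by rw [hvinv, mul_assoc]
      _ = v * v * z * σ := by rw [hσv]; simp only [mul_assoc]
      _ = σ⁻¹ := by
        rw [hvv, one_mul]
        apply eq_inv_of_mul_eq_one_left
        rw [mul_assoc, hσσ, hz2]
  have hgen : Subgroup.closure ({σ, v} : Set G) = (T : Subgroup G) := by
    set W := Subgroup.closure ({σ, v} : Set G) with hW
    have hle : W ≤ (T : Subgroup G) := (Subgroup.closure_le _).2 (by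
      rintro x (rfl | rfl)
      exacts [hσT, hvV.1])
    have hσW : Subgroup.zpowers σ ≤ W :=
      Subgroup.zpowers_le.2 (Subgroup.subset_closure (by simp))
    have hvn : v ∉ Subgroup.zpowers σ := by
      intro h
      obtain ⟨i, hi, hiv⟩ := Finset.mem_image.1 (mem_zpowers_iff_mem_range_orderOf.1 h)
      rw [hσ4, Finset.mem_range] at hi
      have hvb : v • b = b := hvV.2
      interval_cases i
      · exact hv1 (by rw [← hiv, pow_zero])
      · rw [← hiv, pow_one, hσb] at hvb; exact hbb' hvb.symm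
      · exact hvz (by rw [← hiv, sq, hσσ])
      · rw [← hiv, show (3 : ℕ) = 1 + 2 from rfl, pow_add, pow_one, sq, hσσ, ← smul_smul,
          hbm.1, hσb] at hvb
        exact hbb' hvb.symm
    have h4 := Subgroup.card_dvd_of_le hσW
    rw [Nat.card_zpowers, hσ4] at h4
    have h8 := Subgroup.card_dvd_of_le hle
    rw [he] at h8
    refine Subgroup.eq_of_le_of_card_ge hle ?_
    rw [he]
    by_contra hlt
    have h8' : Nat.card ↥W ≤ 8 := Nat.le_of_dvd (by norm_num) h8
    obtain ⟨m, hm⟩ := h4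
    have hWpos : 0 < Nat.card ↥W := Nat.card_pos
    have : Nat.card ↥W = 4 := by omega
    have heq : Subgroup.zpowers σ = W := Subgroup.eq_of_le_of_card_ge hσW
      (by rw [this, Nat.card_zpowers, hσ4])
    exact hvn (heq ▸ Subgroup.subset_closure (by simp))
  exact ⟨{
    T := T, σ := σ, v := v, z := z, a := a, b := b, b' := b'
    z_eq := by rw [sq, hσσ]
    orderOf_σ := hσ4
    orderOf_v := hvo
    rel := hrel
    card_T := he
    gen := hgen
    one_mod_four := hp4
    odd_d := hd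
    ab := hab
    ab' := hab'
    bb' := hbb'
    R_ab := Rab
    R_ab' := Rab'
    R_bb' := Rbb'
    fix_z := hfixz
    fix_v := hfixv
    σ_a := haT σ hσT
    σ_b := hσb
    σ_b' := htrans σ hσT hσb
    stab_L_odd := Lodd }⟩

end Cfsg.Agent.DegThreeP
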