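import Cfsg.Agent.DegThreeP.Basic
import Cfsg.Agent.Char.PermChar
import Mathlib.LinearAlgebra.Trace
import Mathlib.Analysis.Matrix.Order
import Mathlib.Tactic.Module
import Mathlib.Tactic.LinearCombination

/-!
# Simple primitive groups of degree `3p`: the colouring of rank three when `f = 2p - 1`

For an orbital `R` of a rank three group with permutation character `1 + χ₁ + χ₂` the number of
points `q` with `R q (g • q)` is `k + r χ₁ g + s χ₂ g`, where `k` is the valency and `r`, `s` are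
eigenvalues of the adjacency matrix.  At an element of order `p` this number is a multiple of `p`,
which pins down the parameters.
-/

set_option autoImplicit false
set_option linter.style.haveILetI false
set_option linter.unusedSectionVars false

noncomputable section

namespace Cfsg.Agent.DegThreeP

open Cfsg Module MulAction
open scoped Classical ComplexOrder

universe u v

variable {G : Type u} [Group G] [Fintype G] {Ω : Type v} [Fintype Ω] [MulAction G Ω]

namespace RankThree

/-- The character of an invariant idempotent orthogonal to the constants. -/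
theorem char_cases [IsPretransitive G Ω] [Nonempty Ω] (E : Matrix Ω Ω ℂ)
    (hEinv : ∀ (g : G) x y, E (g • x) (g • y) = E x y) (hE2 : E * E = E)
    (hE1 : ∀ x, ∑ y, E x y = 0) (X₁ X₂ : IrrCharacter G)
    (hπ : Char.permChar (G := G) Ω = fun g => 1 + (X₁ : G → ℂ) g + (X₂ : G → ℂ) g)
    (hne2 : X₁ ≠ X₂) :
    ∃ a₁ a₂ : ℕ, a₁ ≤ 1 ∧ a₂ ≤ 1 ∧ ∀ g : G,
      ∑ x, E x (g • x) = (a₁ : ℂ) * (X₁ : G → ℂ) g + (a₂ : ℂ) * (X₂ : G → ℂ) g := by
  let ρ := Char.permRep (G := G) Ω
  let f : (Ω → ℂ) →ₗ[ℂ] (Ω → ℂ) := Matrix.toLin' E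
  have hf : ∀ v x, f v x = ∑ y, E x y * v y := fun v x => rfl
  have hρ : ∀ (g : G) (v : Ω → ℂ) x, ρ g v x = v (g⁻¹ • x) := fun g v x => rfl
  have hcomm : ∀ (g : G) v, f (ρ g v) = ρ g (f v) := by
    intro g v
    funext x
    rw [hρ, hf, hf]
    refine Fintype.sum_equiv (MulAction.toPerm g⁻¹) _ _ fun y => ?_
    rw [hρ, MulAction.toPerm_apply, hEinv]
  have hff : ∀ v, f (f v) = f v := fun v => by
    show (Matrix.toLin' E ∘ₗ Matrix.toLin' E) v = _
    rw [← Matrix.toLin'_mul, hE2]
  let P : Subrepresentation ρ := ⟨LinearMap.range f, by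
    rintro g _ ⟨v, rfl⟩
    exact ⟨ρ g v, hcomm g v⟩⟩
  have htr : ∀ g : G, P.toRepresentation.character g = ∑ x, E x (g • x) := by
    intro g
    let i : P.toSubmodule →ₗ[ℂ] (Ω → ℂ) := P.toSubmodule.subtype
    let j : (Ω → ℂ) →ₗ[ℂ] P.toSubmodule := LinearMap.codRestrict P.toSubmodule f fun v => ⟨v, rfl⟩
    have h1 : P.toRepresentation g = j ∘ₗ (ρ g ∘ₗ i) := by
      refine LinearMap.ext ?_
      rintro ⟨_, w, rfl⟩
      refine Subtype.ext ?_
      show ρ g (f w) = f (ρ g (f w))
      rw [hcomm, hff]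
    have h2 : (ρ g ∘ₗ i) ∘ₗ j = Matrix.toLin' (Matrix.of fun x y => E (g⁻¹ • x) y) := by
      refine LinearMap.ext fun v => funext fun x => ?_
      show ρ g (f v) x = _
      rw [hρ, hf, Matrix.toLin'_apply]
      rfl
    rw [Representation.character, h1, LinearMap.trace_comp_comm', h2, Matrix.trace_toLin'_eq,
      Matrix.trace]
    refine Fintype.sum_equiv (MulAction.toPerm g⁻¹) _ _ fun x => ?_
    simp [Matrix.diag]
  obtain ⟨Q, hQ⟩ := Char.exists_isCompl_subrep ρ P
  have hsum := Char.character_add_of_isCompl ρ P Q hQ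
  rw [funext (Char.permRep_character (G := G) Ω), hπ] at hsum
  obtain ⟨a, ha, hai⟩ := Char.isCharacter_exists_coeff
    (Char.isCharacter_character P.toRepresentation)
  obtain ⟨b, -, hbi⟩ := Char.isCharacter_exists_coeff
    (Char.isCharacter_character Q.toRepresentation)
  set one : IrrCharacter G := ⟨fun _ => 1, Char.isIrrCharacter_const_one⟩ with honedef
  have hab : ∀ ψ : IrrCharacter G, a ψ + b ψ =
      (if one = ψ then 1 else 0) + (if X₁ = ψ then 1 else 0) + (if X₂ = ψ then 1 else 0) := by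
    intro ψ
    have h := congrArg (fun F => classInner F (ψ : G → ℂ)) hsum
    simp only [Char.classInner_add_left, hai, hbi] at h
    rw [show (fun g => 1 + (X₁ : G → ℂ) g + (X₂ : G → ℂ) g) =
      ((one : G → ℂ) + (X₁ : G → ℂ)) + (X₂ : G → ℂ) from rfl,
      Char.classInner_add_left, Char.classInner_add_left, Char.classInner_irrCharacter,
      Char.classInner_irrCharacter, Char.classInner_irrCharacter] at h
    split_ifs at h ⊢ <;> norm_cast at h <;> omega
  have hπone : classInner (Char.permChar (G := G) Ω) (fun _ => 1) = 1 := by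
    rw [Char.classInner_permChar_one, Char.card_orbits_eq_one_of_pretransitive, Nat.cast_one]
  have hne1 : one ≠ X₁ ∧ one ≠ X₂ := by
    rw [hπ, show (fun g => 1 + (X₁ : G → ℂ) g + (X₂ : G → ℂ) g) =
      ((one : G → ℂ) + (X₁ : G → ℂ)) + (X₂ : G → ℂ) from rfl,
      show (fun _ : G => (1 : ℂ)) = (one : G → ℂ) from rfl,
      Char.classInner_add_left, Char.classInner_add_left, Char.classInner_irrCharacter,
      Char.classInner_irrCharacter, Char.classInner_irrCharacter, if_pos rfl] at hπone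
    constructor <;> intro h <;> rw [if_pos h.symm] at hπone <;> split_ifs at hπone <;>
      norm_num at hπone
  have haone : a one = 0 := by
    have h : ((a one : ℕ) : ℂ) = (finrank ℂ P.toRepresentation.invariants : ℂ) := by
      haveI : Invertible (Nat.card G : ℂ) := invertibleOfNonzero Char.card_ne_zero_complex
      rw [← hai, ← Representation.card_inv_mul_sum_char_eq_finrank, classInner, honedef]
      simp
    have hbot : P.toRepresentation.invariants = ⊥ := by
      rw [Submodule.eq_bot_iff]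
      rintro ⟨v, w, hw⟩ hv
      have hvinv : ∀ (g : G) x, v (g⁻¹ • x) = v x := fun g x =>
        congrFun (congrArg Subtype.val (hv g)) x
      obtain ⟨x₀⟩ := ‹Nonempty Ω›
      have hconst : ∀ x, v x = v x₀ := fun x => by
        obtain ⟨g, rfl⟩ := MulAction.exists_smul_eq G x₀ x
        have := hvinv g (g • x₀)
        rw [inv_smul_smul] at this
        exact this.symm
      have hfv : f v = v := by rw [← hw, hff]
      refine Subtype.ext ?_
      show v = 0
      rw [← hfv]
      funext x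
      rw [hf, Finset.sum_congr rfl fun y _ => by rw [hconst y], ← Finset.sum_mul, hE1, zero_mul]
      rfl
    rw [hbot, finrank_bot] at h
    exact_mod_cast h
  have hrest : ∀ ψ, ψ ≠ X₁ → ψ ≠ X₂ → a ψ = 0 := by
    intro ψ e1 e2
    by_cases e0 : ψ = one
    · rw [e0, haone]
    have := hab ψ
    rw [if_neg (Ne.symm e0), if_neg (Ne.symm e1), if_neg (Ne.symm e2)] at this
    omega
  have ha1 : a X₁ ≤ 1 := by
    have := hab X₁
    rw [if_neg hne1.1, if_pos rfl, if_neg hne2.symm] at this
    omega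
  have ha2 : a X₂ ≤ 1 := by
    have := hab X₂
    rw [if_neg hne1.2, if_neg hne2, if_pos rfl] at this
    omega
  refine ⟨a X₁, a X₂, ha1, ha2, fun g => ?_⟩
  have h := congrFun ha g
  simp only [Finset.sum_apply, nsmul_eq_mul, Pi.mul_apply, Pi.natCast_apply] at h
  rw [← htr, h, ← Finset.sum_subset (Finset.subset_univ {X₁, X₂}) fun ψ _ hψ => by
    simp only [Finset.mem_insert, Finset.mem_singleton, not_or] at hψ
    rw [hrest ψ hψ.1 hψ.2, Nat.cast_zero, zero_mul], Finset.sum_pair hne2]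

/-- Idempotent algebra. -/
theorem sq_eq_smul {R : Type*} [Ring R] [Algebra ℂ R] {A U : R} {k c d μ t n r s : ℂ}
    (hAA : A * A = d • (1 : R) + c • A + μ • U) (hAU : A * U = k • U) (hUA : U * A = k • U)
    (hUU : U * U = n • U) (hc : r + s = c) (hd : r * s = -d) (ht : t * n = k - s)
    (hμ : μ = t * (k - r)) :
    (A - s • (1 : R) - t • U) * (A - s • (1 : R) - t • U) =
      (r - s) • (A - s • (1 : R) - t • U) := by
  have hd' : d = -(r * s) := by rw [hd, neg_neg]
  subst hc hd' hμ
  simp only [sub_mul, mul_sub, smul_mul_assoc, mul_smul_comm, one_mul, mul_one, hAA, hAU, hUA, hUU,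
    smul_smul, smul_sub]
  match_scalars <;> first
    | linear_combination t * ht
    | ring

/-- A symmetric orbital of valency `k` counts the points moved along it as `k + r χ₁ + s χ₂`. -/
theorem eigen [IsPretransitive G Ω] [Nonempty Ω] (R : Ω → Ω → Prop)
    (hinv : ∀ (g : G) a b, R (g • a) (g • b) ↔ R a b) (hsym : ∀ a b, R a b → R b a)
    (hirr : ∀ a, ¬ R a a)
    (hR : ∀ a b a' b', R a b → R a' b' → ∃ g : G, g • a = a' ∧ g • b = b')
    (hL : ∀ a b a' b', a ≠ b → ¬ R a b → a' ≠ b' → ¬ R a' b' →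
      ∃ g : G, g • a = a' ∧ g • b = b')
    (k : ℕ) (hk : ∀ a, Nat.card {b : Ω // R a b} = k) (X₁ X₂ : IrrCharacter G)
    (hπ : Char.permChar (G := G) Ω = fun g => 1 + (X₁ : G → ℂ) g + (X₂ : G → ℂ) g)
    (hne : X₁ ≠ X₂) :
    ∃ r s : ℂ,
      (∀ g : G, (Nat.card {q : Ω // R q (g • q)} : ℂ) =
        k + r * (X₁ : G → ℂ) g + s * (X₂ : G → ℂ) g) ∧
      (k : ℂ) ^ 2 + (X₁ : G → ℂ) 1 * r ^ 2 + (X₂ : G → ℂ) 1 * s ^ 2 =
        (Fintype.card Ω : ℂ) * k := by
  set n : ℂ := (Fintype.card Ω : ℂ) with hndef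
  have hn0 : n ≠ 0 := Nat.cast_ne_zero.2 Fintype.card_ne_zero
  have hsym' : ∀ a b, R a b ↔ R b a := fun a b => ⟨hsym a b, hsym b a⟩
  let A : Matrix Ω Ω ℂ := Matrix.of fun x y => if R x y then 1 else 0
  let U : Matrix Ω Ω ℂ := Matrix.of fun _ _ => 1
  have hA : ∀ x y, A x y = if R x y then 1 else 0 := fun _ _ => rfl
  have hU : ∀ x y, U x y = 1 := fun _ _ => rfl
  have hrow : ∀ x, ∑ y, A x y = (k : ℂ) := by
    intro x
    simp only [hA, Finset.sum_boole]
    rw [← hk x, Nat.card_eq_fintype_card, Fintype.card_subtype]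
  have hcol : ∀ y, ∑ x, A x y = (k : ℂ) := by
    intro y
    rw [← hrow y]
    simp only [hA, hsym']
  have hAU : A * U = (k : ℂ) • U := by
    ext x y
    simp only [Matrix.mul_apply, hU, mul_one, hrow, Matrix.smul_apply, smul_eq_mul]
  have hUA : U * A = (k : ℂ) • U := by
    ext x y
    simp only [Matrix.mul_apply, hU, one_mul, hcol, Matrix.smul_apply, smul_eq_mul, mul_one]
  have hUU : U * U = n • U := by
    ext x y
    simp [Matrix.mul_apply, hU, hndef]
  let M : Ω → Ω → ℕ := fun x y => (Finset.univ.filter fun z => R x z ∧ R z y).card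
  have hMinv : ∀ (g : G) x y, M (g • x) (g • y) = M x y := by
    intro g x y
    refine (Finset.card_equiv (MulAction.toPerm g) fun z => ?_).symm
    simp [hinv]
  have hM : ∀ x y, (A * A) x y = (M x y : ℂ) := by
    intro x y
    simp only [Matrix.mul_apply, hA, M]
    rw [← Finset.sum_boole]
    exact Finset.sum_congr rfl fun z _ => by split_ifs <;> simp_all
  have hMdiag : ∀ x, M x x = k := by
    intro x
    rw [← hk x, Nat.card_eq_fintype_card, Fintype.card_subtype]
    exact congrArg Finset.card (Finset.filter_congr fun z _ => by simp [hsym' z x])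
  obtain ⟨lam, hlam⟩ : ∃ lam : ℕ, ∀ x y, R x y → M x y = lam := by
    by_cases h : ∃ a b, R a b
    · obtain ⟨a, b, hab⟩ := h
      refine ⟨M a b, fun x y hxy => ?_⟩
      obtain ⟨g, rfl, rfl⟩ := hR a b x y hab hxy
      exact hMinv g a b
    · exact ⟨0, fun x y hxy => absurd ⟨x, y, hxy⟩ h⟩
  obtain ⟨mu, hmu⟩ : ∃ mu : ℕ, ∀ x y, x ≠ y → ¬ R x y → M x y = mu := by
    by_cases h : ∃ a b, a ≠ b ∧ ¬ R a b
    · obtain ⟨a, b, hab, hab'⟩ := h
      refine ⟨M a b, fun x y hxy hxy' => ?_⟩
      obtain ⟨g, rfl, rfl⟩ := hL a b x y hab hab' hxy hxy'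
      exact hMinv g a b
    · exact ⟨0, fun x y hxy hxy' => absurd ⟨x, y, hxy, hxy'⟩ h⟩
  set c : ℂ := (lam : ℂ) - mu with hcdef
  set d : ℂ := (k : ℂ) - mu with hddef
  have hAA : A * A = d • (1 : Matrix Ω Ω ℂ) + c • A + (mu : ℂ) • U := by
    ext x y
    simp only [hM, Matrix.add_apply, Matrix.smul_apply, Matrix.one_apply, hA, hU, smul_eq_mul,
      mul_one, hcdef, hddef]
    by_cases hxy : x = y
    · subst hxy
      simp [hMdiag, hirr]
    · by_cases hR' : R x y
      · simp [hxy, hR', hlam x y hR']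
      · simp [hxy, hR', hmu x y hxy hR']
  -- the row sum of the square
  have hrel : (k : ℂ) * k = d + c * k + mu * n := by
    obtain ⟨x₀⟩ := ‹Nonempty Ω›
    have h1 : (A * A) * U = ((k : ℂ) * k) • U := by
      rw [Matrix.mul_assoc, hAU, Matrix.mul_smul, hAU, smul_smul]
    rw [hAA, add_mul, add_mul, smul_mul_assoc, smul_mul_assoc, smul_mul_assoc, one_mul, hAU, hUU]
      at h1
    have h2 := congrFun (congrFun h1 x₀) x₀
    simp only [Matrix.add_apply, Matrix.smul_apply, hU, smul_eq_mul, mul_one] at h2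
    exact h2.symm
  have hd1 : 1 + (X₁ : G → ℂ) 1 + (X₂ : G → ℂ) 1 = n := by
    rw [← congrFun hπ 1, Char.permChar, hndef]
    simp [Nat.card_eq_fintype_card]
  -- the roots
  obtain ⟨z, hz⟩ := IsAlgClosed.exists_eq_mul_self (c * c + 4 * d)
  set r : ℂ := (c + z) / 2 with hrdef
  set s : ℂ := (c - z) / 2 with hsdef
  have hrs : r + s = c := by rw [hrdef, hsdef]; ring
  have hrd : r * s = -d := by rw [hrdef, hsdef]; linear_combination (1 / 4 : ℂ) * hz
  set t : ℂ := ((k : ℂ) - s) / n with htdef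
  have ht : t * n = k - s := by rw [htdef, div_mul_cancel₀ _ hn0]
  have hμ : (mu : ℂ) = t * (k - r) := by
    refine mul_left_cancel₀ hn0 ?_
    linear_combination -hrel - ((k : ℂ) - r) * ht + (k : ℂ) * hrs - hrd
  have hsq := sq_eq_smul (R := Matrix Ω Ω ℂ) hAA hAU hUA hUU hrs hrd ht hμ
  set N := A - s • (1 : Matrix Ω Ω ℂ) - t • U with hNdef
  have hcount : ∀ g : G, (Nat.card {q : Ω // R q (g • q)} : ℂ) =
      (∑ x, N x (g • x)) + s * (1 + (X₁ : G → ℂ) g + (X₂ : G → ℂ) g) + ((k : ℂ) - s) := by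
    intro g
    have h1 : ∑ x : Ω, (1 : Matrix Ω Ω ℂ) x (g • x) =
        1 + (X₁ : G → ℂ) g + (X₂ : G → ℂ) g := by
      rw [← congrFun hπ g]
      show _ = (Nat.card {x : Ω // g • x = x} : ℂ)
      simp only [Matrix.one_apply, Finset.sum_boole, Nat.card_eq_fintype_card, Fintype.card_subtype]
      exact congrArg (fun m : Finset Ω => (m.card : ℂ)) (Finset.filter_congr fun x _ => eq_comm)
    rw [← h1, ← ht]
    simp only [hNdef, Matrix.sub_apply, Matrix.smul_apply, Finset.sum_sub_distrib, smul_eq_mul,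
      ← Finset.mul_sum, hU, Finset.sum_const, Finset.card_univ, nsmul_eq_mul, mul_one]
    rw [show ∑ x, A x (g • x) = (Nat.card {q : Ω // R q (g • q)} : ℂ) by
      simp only [hA, Finset.sum_boole]
      rw [Nat.card_eq_fintype_card, Fintype.card_subtype]]
    rw [hndef]
    ring
  obtain ⟨a₁, a₂, ha₁, ha₂, hN⟩ : ∃ a₁ a₂ : ℕ, a₁ ≤ 1 ∧ a₂ ≤ 1 ∧ ∀ g : G,
      ∑ x, N x (g • x) =
        (r - s) * ((a₁ : ℂ) * (X₁ : G → ℂ) g + (a₂ : ℂ) * (X₂ : G → ℂ) g) := by
    by_cases hz0 : z = 0
    · refine ⟨0, 0, by omega, by omega, fun g => ?_⟩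
      have hrs' : r = s := by rw [hrdef, hsdef, hz0, add_zero, sub_zero]
      have hstar : Matrix.conjTranspose N = N := by
        ext x y
        simp only [hNdef, Matrix.conjTranspose_apply, Matrix.sub_apply, Matrix.smul_apply, hA, hU,
          Matrix.one_apply, smul_eq_mul, hsym' y x, eq_comm (a := y), htdef, hsdef, hz0, hcdef,
          hndef]
        split_ifs <;> simp
      have hN0 : N = 0 := by
        rw [← Matrix.self_mul_conjTranspose_eq_zero, hstar, hsq, hrs', sub_self, zero_smul]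
      simp [hN0]
    · have hne0 : r - s ≠ 0 := by
        rw [hrdef, hsdef]
        intro e
        exact hz0 (by linear_combination e)
      have hE2 : ((r - s)⁻¹ • N) * ((r - s)⁻¹ • N) = (r - s)⁻¹ • N := by
        rw [smul_mul_assoc, mul_smul_comm, hsq, smul_smul (r - s)⁻¹ (r - s), inv_mul_cancel₀ hne0,
          one_smul]
      have hEinv : ∀ (g : G) x y,
          ((r - s)⁻¹ • N) (g • x) (g • y) = ((r - s)⁻¹ • N) x y := by
        intro g x y
        simp [hNdef, Matrix.one_apply, hA, hU, hinv]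
      have hE1 : ∀ x, ∑ y, ((r - s)⁻¹ • N) x y = 0 := by
        intro x
        simp only [Matrix.smul_apply, smul_eq_mul, ← Finset.mul_sum, hNdef, Matrix.sub_apply,
          Finset.sum_sub_distrib, hrow, Matrix.one_apply, Finset.sum_ite_eq, Finset.mem_univ,
          if_true, hU, Finset.sum_const, Finset.card_univ, nsmul_eq_mul, mul_one]
        rw [show (k : ℂ) - s - (Fintype.card Ω : ℂ) * t = 0 by
          rw [← hndef, mul_comm, ht]; ring,
          mul_zero]
      obtain ⟨a₁, a₂, h1, h2, h⟩ := char_cases _ hEinv hE2 hE1 X₁ X₂ hπ hne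
      refine ⟨a₁, a₂, h1, h2, fun g => ?_⟩
      rw [← h g, Finset.mul_sum]
      refine Finset.sum_congr rfl fun x _ => ?_
      rw [Matrix.smul_apply, smul_eq_mul, ← mul_assoc, mul_inv_cancel₀ hne0, one_mul]
  have hr2 : r * r = c * r + d := by linear_combination r * hrs - hrd
  have hs2 : s * s = c * s + d := by linear_combination s * hrs - hrd
  have hroot : ∀ a : ℕ, a ≤ 1 → (s + (r - s) * a) ^ 2 = c * (s + (r - s) * a) + d := by
    intro a ha
    interval_cases a <;> push_cast
    · linear_combination hs2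
    · linear_combination hr2
  refine ⟨s + (r - s) * a₁, s + (r - s) * a₂, fun g => ?_, ?_⟩
  · rw [hcount g, hN g]
    ring
  · have h0 := hcount 1
    rw [hN 1] at h0
    have hzero : Nat.card {q : Ω // R q ((1 : G) • q)} = 0 := by
      simp [hirr]
    rw [hzero, Nat.cast_zero] at h0
    rw [hroot a₁ ha₁, hroot a₂ ha₂]
    linear_combination -c * h0 + hrel + d * hd1 + n * hddef

end RankThree

variable {p : ℕ}

/-- The orbital through a pair swapped by an involution. -/
theorem orbital_setup [IsPretransitive G Ω]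
    (h3 : Nat.card (Quotient (orbitRel G (Ω × Ω))) = 3) {t : G} (ht : t * t = 1) {a : Ω}
    (ha : t • a ≠ a) :
    ∃ R : Ω → Ω → Prop, (∀ (g : G) x y, R (g • x) (g • y) ↔ R x y) ∧ (∀ x y, R x y → R y x) ∧
      (∀ x, ¬ R x x) ∧ (∃ x y, R x y) ∧ (∃ x y, x ≠ y ∧ ¬ R x y) ∧
      (∀ x y x' y', R x y → R x' y' → ∃ g : G, g • x = x' ∧ g • y = y') ∧
      ∀ x y x' y', x ≠ y → ¬ R x y → x' ≠ y' → ¬ R x' y' →
        ∃ g : G, g • x = x' ∧ g • y = y' := by
  let R : Ω → Ω → Prop := fun x y => ∃ g : G, g • a = x ∧ g • t • a = y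
  have hirr : ∀ x, ¬ R x x := fun x ⟨g, h1, h2⟩ => ha (MulAction.injective g (h2.trans h1.symm))
  let q : Ω × Ω → Quotient (orbitRel G (Ω × Ω)) := Quotient.mk''
  have hq : ∀ x y x' y', q (x, y) = q (x', y') ↔ ∃ g : G, g • x' = x ∧ g • y' = y := by
    intro x y x' y'
    simp only [q, Quotient.eq'', orbitRel_apply, mem_orbit_iff, Prod.smul_mk, Prod.mk.injEq]
  have hne : q (a, a) ≠ q (a, t • a) := fun e => by
    obtain ⟨g, h1, h2⟩ := (hq _ _ _ _).1 e
    exact hirr a ⟨g, h1, h2⟩
  have hRq : ∀ x y, R x y ↔ q (x, y) = q (a, t • a) := fun x y => (hq _ _ _ _).symm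
  have hdq : ∀ x y, q (x, y) = q (a, a) ↔ x = y := by
    intro x y
    rw [hq]
    refine ⟨fun ⟨g, h1, h2⟩ => h1.symm.trans h2, fun e => ?_⟩
    obtain ⟨g, hg⟩ := exists_smul_eq G a x
    exact ⟨g, hg, hg.trans e⟩
  haveI : Fintype (Quotient (orbitRel G (Ω × Ω))) := Fintype.ofFinite _
  rw [Nat.card_eq_fintype_card] at h3
  refine ⟨R, fun g x y => ?_, ?_, hirr, ⟨a, t • a, 1, one_smul G a, one_smul G _⟩, ?_, ?_, ?_⟩
  · exact ⟨fun ⟨h, h1, h2⟩ => ⟨g⁻¹ * h, by rw [mul_smul, h1, inv_smul_smul],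
      by rw [mul_smul, h2, inv_smul_smul]⟩,
      fun ⟨h, h1, h2⟩ => ⟨g * h, by rw [mul_smul, h1], by rw [mul_smul, h2]⟩⟩
  · rintro x y ⟨g, h1, h2⟩
    exact ⟨g * t, by rw [mul_smul, h2], by rw [mul_smul, ← mul_smul t t, ht, one_smul, h1]⟩
  · by_contra hno
    push Not at hno
    have hsub : (Finset.univ : Finset (Quotient (orbitRel G (Ω × Ω)))) ⊆
        {q (a, a), q (a, t • a)} := by
      intro w _
      induction w using Quotient.inductionOn' with
      | _ w =>
        obtain ⟨x, y⟩ := w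
        rw [Finset.mem_insert, Finset.mem_singleton]
        by_cases e : x = y
        · exact Or.inl ((hdq x y).2 e)
        · exact Or.inr ((hRq x y).1 (hno x y e))
    have := Finset.card_le_card hsub
    rw [Finset.card_univ, h3, Finset.card_pair hne] at this
    omega
  · intro x y x' y' h h'
    exact (hq _ _ _ _).1 (((hRq _ _).1 h').trans ((hRq _ _).1 h).symm)
  · intro x y x' y' hxy h hxy' h'
    refine (hq _ _ _ _).1 ?_
    by_contra e
    rw [hRq] at h h'
    have h4 := Finset.card_le_univ ({q (a, a), q (a, t • a), q (x', y'), q (x, y)} : Finset _)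
    rw [h3, Finset.card_insert_of_notMem, Finset.card_insert_of_notMem,
      Finset.card_pair e] at h4
    · omega
    · simp only [Finset.mem_insert, Finset.mem_singleton, not_or]
      exact ⟨fun e => h' e.symm, fun e => h e.symm⟩
    · simp only [Finset.mem_insert, Finset.mem_singleton, not_or]
      exact ⟨hne, fun e => hxy' ((hdq _ _).1 e.symm), fun e => hxy ((hdq _ _).1 e.symm)⟩

/-- Along an element of order `p` without fixed points every invariant relation is counted in
multiples of `p`. -/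
theorem dvd_count (S : Setup G Ω p) (R : Ω → Ω → Prop)
    (hinv : ∀ (g : G) a b, R (g • a) (g • b) ↔ R a b) {x : G} (hx : orderOf x = p) :
    p ∣ Nat.card {q : Ω // R q (x • q)} := by
  haveI := Fact.mk S.prime
  have hiff : ∀ q : Ω, R (x • q) (x • x • q) ↔ R q (x • q) := fun q => hinv x q _
  let σ : Equiv.Perm {q : Ω // R q (x • q)} :=
    (MulAction.toPerm x : Equiv.Perm Ω).subtypePerm (p := fun q => R q (x • q)) hiff
  have hσ : ∀ q, ((σ q : {q : Ω // R q (x • q)}) : Ω) = x • (q : Ω) := fun q => rfl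
  have hpow : ∀ (n : ℕ) q, (((σ ^ n) q : {q : Ω // R q (x • q)}) : Ω) = x ^ n • (q : Ω) := by
    intro n
    induction n with
    | zero => intro q; simp
    | succ n ih => intro q; rw [pow_succ', Equiv.Perm.mul_apply, hσ, ih, ← mul_smul, ← pow_succ']
  have hp1 : σ ^ p ^ 1 = 1 := by
    refine Equiv.ext fun q => Subtype.ext ?_
    rw [hpow, pow_one, ← hx, pow_orderOf_eq_one, one_smul]
    rfl
  rw [Nat.card_eq_fintype_card]
  refine Nat.modEq_zero_iff_dvd.1 ?_
  have h := Equiv.Perm.card_compl_support_modEq hp1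
  have h0 : σ.supportᶜ = ∅ := by
    refine Finset.eq_empty_of_forall_notMem fun q hq => ?_
    rw [Finset.mem_compl, Equiv.Perm.notMem_support] at hq
    have hfix := S.fix_singular (g := x) (by rw [hx])
    rw [fix, Nat.card_eq_zero] at hfix
    rcases hfix with hfix | hfix
    · exact hfix.false ⟨q, (hσ q).symm.trans (congrArg Subtype.val hq)⟩
    · exact absurd hfix (not_infinite_iff_finite.2 inferInstance)
  rw [h0, Finset.card_empty] at h
  exact h.symm

theorem card_compl_rel (R : Ω → Ω → Prop) (hirr : ∀ x, ¬ R x x) (a : Ω) :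
    Nat.card {b : Ω // R a b} + Nat.card {b : Ω // a ≠ b ∧ ¬ R a b} + 1 = Fintype.card Ω := by
  have e : (Finset.univ.filter fun b => a ≠ b ∧ ¬ R a b) =
      (Finset.univ.filter fun b => ¬ R a b).erase a := by
    ext b
    simp [ne_comm]
  simp only [Nat.card_eq_fintype_card, Fintype.card_subtype]
  rw [e, Finset.card_erase_of_mem (by simp [hirr])]
  have h := Finset.card_filter_add_card_filter_not (s := (Finset.univ : Finset Ω)) (fun b => R a b)
  have hpos : 0 < (Finset.univ.filter fun b => ¬ R a b).card :=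
    Finset.card_pos.2 ⟨a, by simp [hirr]⟩
  rw [Finset.card_univ] at h
  omega

/-- The colouring of rank three in the case `f = 2p - 1`. -/
theorem param (S : Setup G Ω p) {f : ℕ} (hf : f = 2 * p - 1) (C : Chars G p f) (θ : IrrCharacter G)
    (hθ1 : (θ : G → ℂ) 1 = p) (hθ0 : ∀ g, p ∣ orderOf g → (θ : G → ℂ) g = 0)
    (hθt : ∀ t, orderOf t = 2 → (θ : G → ℂ) t = if p % 4 = 1 then 1 else -1)
    (hXt : ∀ t, orderOf t = 2 → (C.X : G → ℂ) t = 1)
    (hπ : ∀ g, (fix Ω g : ℂ) = 1 + (C.X : G → ℂ) g + (θ : G → ℂ) g) :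
    Nonempty (Param G Ω p) := by
  haveI := S.prim
  haveI := S.faithful
  have hp5 := S.five_le
  have hcard : Fintype.card Ω = 3 * p := by rw [← Nat.card_eq_fintype_card, S.card_points]
  haveI : Nonempty Ω := Fintype.card_pos_iff.1 (by omega)
  have hπ' : Char.permChar (G := G) Ω =
      fun g => 1 + (θ : G → ℂ) g + (C.X : G → ℂ) g := by
    funext g
    show (fix Ω g : ℂ) = _
    rw [hπ]
    ring
  have hne : θ ≠ C.X := by
    intro e
    have := C.deg_X
    rw [← e, hθ1] at this
    have : p = f := by exact_mod_cast this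
    omega
  set one : IrrCharacter G := ⟨fun _ => 1, Char.isIrrCharacter_const_one⟩ with honedef
  have hne1 : one ≠ θ := by
    intro e
    have h : (1 : ℂ) = p := by rw [← hθ1, ← e]
    have : 1 = p := by exact_mod_cast h
    omega
  have hne2 : one ≠ C.X := fun e => C.X_ne (by rw [← e])
  have h3 : Nat.card (Quotient (orbitRel G (Ω × Ω))) = 3 := by
    have h := Char.classInner_permChar_permChar (G := G) Ω (Y := Ω)
    rw [hπ', show (fun g => 1 + (θ : G → ℂ) g + (C.X : G → ℂ) g) =
      ((one : G → ℂ) + (θ : G → ℂ)) + (C.X : G → ℂ) from rfl] at h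
    simp only [Char.classInner_add_left, Char.classInner_add_right, Char.classInner_irrCharacter,
      hne, hne1, hne2, hne.symm, hne1.symm, hne2.symm, if_true, if_false] at h
    norm_num at h
    rw [Nat.card_eq_fintype_card]
    exact_mod_cast h.symm
  obtain ⟨x, t, hx, ht, -⟩ := S.exists_inverted
  obtain ⟨a, ha⟩ : ∃ a : Ω, t • a ≠ a := by
    by_contra hno
    push Not at hno
    have : t = 1 := FaithfulSMul.eq_of_smul_eq_smul (α := Ω) fun a => by rw [hno a, one_smul]
    rw [this, orderOf_one] at ht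
    omega
  have htt : t * t = 1 := by rw [← pow_two, ← ht, pow_orderOf_eq_one]
  obtain ⟨R, hinv, hsym, hirr, hRne, hLne, hR, hL⟩ := orbital_setup h3 htt ha
  -- the parameters of one orbital
  have key : ∀ Q : Ω → Ω → Prop, (∀ (g : G) a b, Q (g • a) (g • b) ↔ Q a b) →
      (∀ a b, Q a b → Q b a) → (∀ a, ¬ Q a a) → (∃ a b, Q a b) →
      (∀ a b a' b', Q a b → Q a' b' → ∃ g : G, g • a = a' ∧ g • b = b') →
      (∀ a b a' b', a ≠ b → ¬ Q a b → a' ≠ b' → ¬ Q a' b' →
        ∃ g : G, g • a = a' ∧ g • b = b') →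
      Nat.card {q : Ω // Q q (x • q)} ≠ 0 ∧
        (Nat.card {q : Ω // Q q (x • q)} = p → Nonempty (Param G Ω p)) := by
    intro Q hQinv hQsym hQirr hQne hQ hQ'
    obtain ⟨a₀, b₀, hab⟩ := hQne
    set k := Nat.card {b : Ω // Q a₀ b} with hkdef
    have hk : ∀ a, Nat.card {b : Ω // Q a b} = k := by
      intro a
      obtain ⟨g, rfl⟩ := exists_smul_eq G a₀ a
      exact (Nat.card_congr (Equiv.subtypeEquiv (MulAction.toPerm g) fun b => by
        rw [MulAction.toPerm_apply, hQinv])).symm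
    have hk0 : 0 < k := Nat.card_pos_iff.2 ⟨⟨⟨b₀, hab⟩⟩, inferInstance⟩
    obtain ⟨r, s, hN, hsq⟩ :=
      RankThree.eigen Q hQinv hQsym hQirr hQ hQ' k hk θ C.X hπ' hne
    obtain ⟨m, hm⟩ := dvd_count S Q hQinv hx
    have hfC : (C.X : G → ℂ) 1 = 2 * (p : ℂ) - 1 := by
      rw [C.deg_X, hf, Nat.cast_sub (by omega)]
      push_cast
      ring
    have hs : s = (((k : ℤ) - p * m : ℤ) : ℂ) := by
      have h := hN x
      rw [hm, hθ0 x (by rw [hx]), C.X_singular x (by rw [hx])] at h
      push_cast at h ⊢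
      linear_combination h
    set si : ℤ := (k : ℤ) - p * m with hsi
    have hr : r = ((-2 * si - m : ℤ) : ℂ) := by
      have h := hN 1
      have h0 : Nat.card {q : Ω // Q q ((1 : G) • q)} = 0 := by simp [hQirr]
      rw [h0, hθ1, hfC, hs, hsi] at h
      refine mul_left_cancel₀ (show (p : ℂ) ≠ 0 from Nat.cast_ne_zero.2 (by omega)) ?_
      rw [hsi]
      push_cast at h ⊢
      linear_combination -h
    rw [hr, hs, hθ1, hfC, hcard] at hsq
    have hsq' : (k : ℤ) ^ 2 + (p : ℤ) * (-2 * si - m) ^ 2 + (2 * (p : ℤ) - 1) * si ^ 2 =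
        3 * p * k := by
      apply (Int.cast_inj (α := ℂ)).1
      push_cast at hsq ⊢
      exact hsq
    have hk' : (k : ℤ) = si + p * m := by rw [hsi]; ring
    rw [hk'] at hsq'
    have hquad : 6 * si ^ 2 + (6 * (m : ℤ) - 3) * si + (m : ℤ) ^ 2 + m * p * (m - 3) = 0 := by
      refine mul_left_cancel₀ (show (p : ℤ) ≠ 0 by omega) ?_
      linear_combination hsq'
    refine ⟨fun h0 => ?_, fun h1 => ?_⟩
    · have hm0 : m = 0 := by
        rw [hm] at h0
        rcases Nat.mul_eq_zero.1 h0 with h | h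
        · omega
        · exact h
      subst hm0
      push_cast at hquad hk'
      have : si * (2 * si - 1) = 0 := by linarith [show si * (2 * si - 1) = 2 * si ^ 2 - si by ring]
      rcases mul_eq_zero.1 this with h | h <;> omega
    · have hm1 : m = 1 := by
        rw [hm] at h1
        exact Nat.eq_of_mul_eq_mul_left (by omega : 0 < p) (h1.trans (mul_one p).symm)
      subst hm1
      push_cast at hquad hk' hr
      refine ⟨⟨Q, hQinv, hQsym, hQirr, fun a b c hb hc => ?_, fun a b c h1 h2 h3 h4 => ?_, si,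
        by linarith, fun a => by rw [hk a, hk']; ring, fun a => ?_, fun hp4 u hu => ?_⟩⟩
      · obtain ⟨g, h1, h2⟩ := hQ a b a c hb hc
        exact ⟨g, h1, h2⟩
      · exact hQ' a b a c h1 h2 h3 h4
      · have := card_compl_rel Q hQirr a
        rw [hk a, hcard] at this
        omega
      · have h := hN u
        rw [hθt u hu, if_pos hp4, hXt u hu, hr, hs] at h
        have h' : ((Nat.card {q : Ω // Q q (u • q)} : ℤ) : ℂ) = (((p : ℤ) - 1 : ℤ) : ℂ) := by
          rw [Int.cast_natCast, h]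
          have : ((k : ℤ) : ℂ) = ((si + p : ℤ) : ℂ) := by rw [hk']; ring_nf
          push_cast at this ⊢
          linear_combination this
        have := Int.cast_inj.1 h'
        omega
  have hL' : ∀ (g : G) a b, (g • a ≠ g • b ∧ ¬ R (g • a) (g • b)) ↔ (a ≠ b ∧ ¬ R a b) :=
    fun g a b => by rw [hinv, (MulAction.injective g).ne_iff]
  obtain ⟨hA0, hA1⟩ := key R hinv hsym hirr hRne hR hL
  obtain ⟨hB0, hB1⟩ := key (fun a b => a ≠ b ∧ ¬ R a b) hL'
    (fun a b h => ⟨h.1.symm, fun e => h.2 (hsym _ _ e)⟩) (fun a h => h.1 rfl) hLne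
    (fun a b a' b' h h' => hL a b a' b' h.1 h.2 h'.1 h'.2)
    (fun a b a' b' h1 h2 h1' h2' =>
      hR a b a' b' (not_not.1 fun e => h2 ⟨h1, e⟩) (not_not.1 fun e => h2' ⟨h1', e⟩))
  have hsum : Nat.card {q : Ω // R q (x • q)} +
      Nat.card {q : Ω // q ≠ x • q ∧ ¬ R q (x • q)} = 3 * p := by
    have hne : ∀ q : Ω, q ≠ x • q := by
      intro q e
      have h0 := S.fix_singular (g := x) (by rw [hx])
      rw [fix, Nat.card_eq_zero] at h0
      rcases h0 with h0 | h0
      · exact h0.false ⟨q, e.symm⟩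
      · exact absurd h0 (not_infinite_iff_finite.2 inferInstance)
    simp only [Nat.card_eq_fintype_card, Fintype.card_subtype, ne_eq, hne, not_false_eq_true,
      true_and]
    rw [Finset.card_filter_add_card_filter_not, Finset.card_univ, hcard]
  obtain ⟨m, hm⟩ := dvd_count S R hinv hx
  obtain ⟨m', hm'⟩ := dvd_count S (fun a b => a ≠ b ∧ ¬ R a b) hL' hx
  rw [hm] at hA0 hA1
  rw [hm'] at hB0 hB1
  rw [hm, hm', ← mul_add, mul_comm 3] at hsum
  have h3' : m + m' = 3 := Nat.eq_of_mul_eq_mul_left (by omega : 0 < p) hsum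
  have hm0 : m ≠ 0 := fun e => hA0 (by rw [e, mul_zero])
  have hm0' : m' ≠ 0 := fun e => hB0 (by rw [e, mul_zero])
  rcases (show m = 1 ∨ m' = 1 by omega) with e | e
  · exact hA1 (by rw [e, mul_one])
  · exact hB1 (by rw [e, mul_one])

end Cfsg.Agent.DegThreeP
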