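import Cfsg.Agent.DegThreeP.Basic

/-!
# The hypotheses of S3254 give a `Setup`
-/

set_option autoImplicit false
set_option linter.style.haveILetI false
set_option linter.unusedSectionVars false

noncomputable section

namespace Cfsg.Agent.DegThreeP

open Cfsg Subgroup
open scoped Classical

universe u v

theorem setup_of {G : Type u} [Group G] [Finite G] [IsSimpleGroup G] (hG : ¬ IsMulCommutative G)
    (p : ℕ) (hp : p.Prime) (hp3 : 3 < p) {Ω : Type v} [Fintype Ω] [MulAction G Ω] [FaithfulSMul G Ω]
    (hΩ : Fintype.card Ω = 3 * p) (P : Sylow p G)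
    (hN : Nat.card (normalizer ((P : Subgroup G) : Set G)) = 2 * p)
    (hprim : MulAction.IsPreprimitive G Ω) : Setup G Ω p := by
  haveI := Fact.mk hp
  haveI : Fintype G := Fintype.ofFinite G
  have hdvd : p ∣ Nat.card G :=
    ((dvd_mul_left p 2).trans (dvd_of_eq hN.symm)).trans
      (normalizer ((P : Subgroup G) : Set G)).card_subgroup_dvd_card
  have hP : Nat.card P = p := by
    obtain ⟨k, hk⟩ := P.2.exists_card_eq
    have h1 : p ∣ Nat.card P := P.dvd_card_of_dvd_card hdvd
    have h2 : Nat.card P ∣ 2 * p := hN ▸ Subgroup.card_dvd_of_le le_normalizer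
    rw [hk] at h1 h2 ⊢
    rcases k with _ | _ | k
    · simp at h1; omega
    · simp
    · exfalso
      have h3 : p * p ∣ 2 * p := (pow_two p ▸ pow_dvd_pow p (by omega : 2 ≤ k + 2)).trans h2
      have := Nat.le_of_dvd two_pos (Nat.dvd_of_mul_dvd_mul_right hp.pos h3)
      omega
  have hPC : centralizer ((P : Subgroup G) : Set G) = (P : Subgroup G) := by
    have hle : (P : Subgroup G) ≤ centralizer ((P : Subgroup G) : Set G) := by
      haveI : Fact p.Prime := ⟨hp⟩
      haveI : IsCyclic (P : Subgroup G) := isCyclic_of_prime_card hP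
      letI := IsCyclic.commGroup (α := (P : Subgroup G))
      intro x hx
      rw [mem_centralizer_iff]
      intro y hy
      exact congrArg Subtype.val (mul_comm (⟨y, hy⟩ : (P : Subgroup G)) ⟨x, hx⟩)
    refine le_antisymm ?_ hle
    by_contra hne
    have hCN : centralizer ((P : Subgroup G) : Set G) ≤ normalizer ((P : Subgroup G) : Set G) :=
      centralizer_le_normalizer _
    have hd := Subgroup.card_dvd_of_le hCN
    have hd' := Subgroup.card_dvd_of_le hle
    rw [hN] at hd
    rw [hP] at hd'
    obtain ⟨j, hj⟩ := hd'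
    rw [hj, mul_comm 2 p] at hd
    have hj2 := (Nat.dvd_prime Nat.prime_two).1 (Nat.dvd_of_mul_dvd_mul_left hp.pos hd)
    have hj' : j = 2 := hj2.resolve_left fun h => hne (le_of_eq (Subgroup.eq_of_le_of_card_ge hle
      (by rw [hj, hP, h, mul_one])).symm)
    have heq := Subgroup.eq_of_le_of_card_ge hCN (by rw [hj, hN, hj', mul_comm])
    have hker := MonoidHom.ker_transferSylow_isComplement' P heq.ge
    rcases (MonoidHom.normal_ker (MonoidHom.transferSylow P heq.ge)).eq_bot_or_eq_top with h | h
    · rw [h, Subgroup.isComplement'_bot_left] at hker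
      have hGc : Nat.card G = p := by
        rw [← Subgroup.card_top (G := G), ← hker]
        exact hP
      have h4 := Subgroup.card_le_card_group (normalizer ((P : Subgroup G) : Set G))
      rw [hN, hGc] at h4
      omega
    · rw [h, Subgroup.isComplement'_top_left] at hker
      rw [hker, Subgroup.card_bot] at hP
      exact hp.one_lt.ne hP
  refine ⟨hp, hp3, inferInstance, hG, inferInstance, hprim,
    by rw [Nat.card_eq_fintype_card, hΩ], fun Q => ?_⟩
  obtain ⟨g, hg⟩ := MulAction.exists_smul_eq G P Q
  subst hg
  have hc : Nat.card ↥(g • P : Sylow p G) = p := by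
    exact (Nat.card_congr (P.equiv (g • P)).toEquiv).symm.trans hP
  have hQN : Nat.card (normalizer ((g • P : Sylow p G) : Subgroup G).carrier) = 2 * p := by
    rw [← hN]
    have h : normalizer (((g • P : Sylow p G) : Subgroup G) : Set G) =
        (normalizer ((P : Subgroup G) : Set G)).map (MulAut.conj g).toMonoidHom := by
      rw [Subgroup.map_equiv_normalizer_eq]; rfl
    show Nat.card (normalizer (((g • P : Sylow p G) : Subgroup G) : Set G)) = _
    rw [h, Subgroup.card_map_of_injective (MulAut.conj g).injective]
  refine ⟨hc, ?_, hQN⟩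
  have h : centralizer (((g • P : Sylow p G) : Subgroup G) : Set G) =
      (centralizer ((P : Subgroup G) : Set G)).map (MulAut.conj g).toMonoidHom := by
    ext x
    constructor
    · intro hx
      refine ⟨(MulAut.conj g).symm x, ?_, (MulAut.conj g).apply_symm_apply x⟩
      rw [SetLike.mem_coe, mem_centralizer_iff]
      intro y hy
      have := mem_centralizer_iff.1 hx (MulAut.conj g y) ⟨y, hy, rfl⟩
      refine (MulAut.conj g).injective ?_
      rw [map_mul, map_mul, MulEquiv.apply_symm_apply]
      exact this
    · rintro ⟨z, hz, rfl⟩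
      rw [mem_centralizer_iff]
      rintro _ ⟨y, hy, rfl⟩
      have := mem_centralizer_iff.1 hz y hy
      show (MulAut.conj g) y * (MulAut.conj g) z = (MulAut.conj g) z * (MulAut.conj g) y
      rw [← map_mul, ← map_mul, this]
  rw [h, hPC]
  rfl

end Cfsg.Agent.DegThreeP
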