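import Cfsg.Agent.DegThreeP.Block
import Cfsg.Agent.S0840
import Cfsg.Agent.Lib.ClassSize
import Cfsg.Agent.Char.PermChar

/-!
# The three cases of the permutation character and the class of involutions
-/

set_option autoImplicit false
set_option linter.style.haveILetI false
set_option linter.unusedSectionVars false

noncomputable section

namespace Cfsg.Agent.DegThreeP

open Cfsg Subgroup MulAction
open scoped Classical ComplexConjugate

universe u v

variable {G : Type u} [Group G] [Fintype G] {Ω : Type v} [Fintype Ω] [MulAction G Ω] {p : ℕ}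

/-- The point counts at the involutions in a normaliser of order `2p`. -/
structure Dih (G : Type u) [Group G] (p : ℕ) where
  x : G
  t : G
  N : Subgroup G
  orderOf_x : orderOf x = p
  orderOf_t : orderOf t = 2
  inv_x : t * x * t⁻¹ = x⁻¹
  card_N : Nat.card N = 2 * p
  mem_N : ∀ g : G, g ∈ N ↔ g * x * g⁻¹ ∈ zpowers x
  card_singular : Nat.card {g : N // p ∣ orderOf (g : G)} = p - 1
  card_invol : Nat.card {g : N // orderOf (g : G) = 2} = p
  cases : ∀ g ∈ N, g = 1 ∨ orderOf g = 2 ∨ p ∣ orderOf g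
  conj_t : ∀ g ∈ N, orderOf g = 2 → IsConj t g

theorem Setup.exists_dih (S : Setup G Ω p) : Nonempty (Dih G p) := by
  haveI := Fact.mk S.prime
  have hp5 := S.five_le
  obtain ⟨x, t, hx, ht, htx⟩ := S.exists_inverted
  obtain ⟨P, hP⟩ := ((IsPGroup.of_card (p := p) (n := 1)
    (by rw [Nat.card_zpowers, hx, pow_one])) : IsPGroup p (zpowers x)).exists_le_sylow
  obtain ⟨hc, hC, hN⟩ := S.sylow P
  have hzp : zpowers x = (P : Subgroup G) :=
    Subgroup.eq_of_le_of_card_ge hP (by rw [Nat.card_zpowers, hx, hc])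
  set N := normalizer ((P : Subgroup G) : Set G) with hNd
  have hPN : (P : Subgroup G) ≤ N := le_normalizer
  have htN : t ∈ N := by
    refine mem_normalizer_iff_map_conj_eq.2 ?_
    refine Subgroup.eq_of_le_of_card_ge (fun y hy => ?_) (by
      rw [Subgroup.card_map_of_injective (MulAut.conj t).injective])
    obtain ⟨z, hz, rfl⟩ := hy
    rw [← hzp] at hz ⊢
    obtain ⟨i, rfl⟩ := hz
    refine ⟨-i, ?_⟩
    show x ^ (-i) = (MulAut.conj t).toMonoidHom (x ^ i)
    rw [MulEquiv.coe_toMonoidHom, MulAut.conj_apply, ← conj_zpow, htx, inv_zpow, _root_.zpow_neg]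
  have hmemP : ∀ g ∈ N, p ∣ orderOf g → g ∈ (P : Subgroup G) := by
    intro g hg hd
    have ho := S.orderOf_singular hd
    have h2 : g ^ 2 ∈ (P : Subgroup G) := by
      have hi : ((P : Subgroup G).subgroupOf N).index = 2 := by
        have h := ((P : Subgroup G).subgroupOf N).card_mul_index
        rw [Nat.card_congr (Subgroup.subgroupOfEquivOfLe hPN).toEquiv, hc, hN] at h
        exact Nat.eq_of_mul_eq_mul_left S.p_pos (h.trans (mul_comm 2 p))
      have := Subgroup.pow_index_mem ((P : Subgroup G).subgroupOf N) ⟨g, hg⟩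
      rw [hi, Subgroup.mem_subgroupOf] at this
      simpa using this
    obtain ⟨k, hk⟩ := S.p_odd
    have hg2 : g = (g ^ 2) ^ (k + 1) := by
      rw [← pow_mul, show 2 * (k + 1) = p + 1 by omega, pow_succ, ← ho, pow_orderOf_eq_one, one_mul]
    rw [hg2]
    exact pow_mem h2 _
  have hsingP : ∀ g ∈ (P : Subgroup G), g ≠ 1 → p ∣ orderOf g := fun g hg hne => by
    have := Subgroup.orderOf_dvd_natCard _ hg
    rw [hc] at this
    rcases (Nat.dvd_prime S.prime).1 this with h | h
    · exact absurd (orderOf_eq_one_iff.1 h) hne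
    · rw [h]
  have hcases : ∀ g ∈ N, g = 1 ∨ orderOf g = 2 ∨ p ∣ orderOf g := by
    intro g hg
    by_cases hd : p ∣ orderOf g
    · exact Or.inr (Or.inr hd)
    have hdiv := Subgroup.orderOf_dvd_natCard _ hg
    rw [hN] at hdiv
    rcases (Nat.dvd_prime Nat.prime_two).1 (((S.prime.coprime_iff_not_dvd.2 hd).symm).dvd_of_dvd_mul_right hdiv) with h | h
    · exact Or.inl (orderOf_eq_one_iff.1 h)
    · exact Or.inr (Or.inl h)
  have hsing : Nat.card {g : N // p ∣ orderOf (g : G)} = p - 1 := by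
    have e : {g : N // p ∣ orderOf (g : G)} ≃ {g : (P : Subgroup G) // g ≠ 1} :=
      { toFun := fun g => ⟨⟨g.1, hmemP _ g.1.2 g.2⟩, fun h => S.ne_one_singular g.2
          (congrArg Subtype.val h)⟩
        invFun := fun g => ⟨⟨g.1, hPN g.1.2⟩, hsingP _ g.1.2 fun h => g.2 (Subtype.ext h)⟩
        left_inv := fun _ => rfl
        right_inv := fun _ => rfl }
    rw [Nat.card_congr e, Nat.card_eq_fintype_card, Fintype.card_subtype_compl,
      ← Nat.card_eq_fintype_card, hc]
    simp
  have hinv : Nat.card {g : N // orderOf (g : G) = 2} = p := by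
    have h1 : Nat.card {g : N // orderOf (g : G) = 2} + Nat.card {g : N // p ∣ orderOf (g : G)}
        + 1 = 2 * p := by
      rw [← hN, Nat.card_eq_fintype_card, Nat.card_eq_fintype_card, Nat.card_eq_fintype_card,
        Fintype.card_subtype, Fintype.card_subtype, ← Finset.card_union_of_disjoint,
        ← Finset.card_singleton (1 : N), ← Finset.card_union_of_disjoint, ← Finset.card_univ]
      · congr 1
        ext g
        simp only [Finset.mem_union, Finset.mem_filter, Finset.mem_univ, true_and,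
          Finset.mem_singleton, iff_true]
        rcases hcases _ g.2 with h | h | h
        · exact Or.inr (Subtype.ext h)
        · exact Or.inl (Or.inl h)
        · exact Or.inl (Or.inr h)
      · rw [Finset.disjoint_singleton_right]
        simp only [Finset.mem_union, Finset.mem_filter, Finset.mem_univ, true_and,
          OneMemClass.coe_one, orderOf_one, not_or]
        exact ⟨by omega, S.prime.not_dvd_one⟩
      · rw [Finset.disjoint_filter]
        intro g _ h hd
        rw [h] at hd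
        have := Nat.le_of_dvd two_pos hd
        omega
    rw [hsing] at h1
    omega
  refine ⟨⟨x, t, N, hx, ht, htx, hN, fun g => ?_, hsing, hinv, hcases, fun g hg ho => ?_⟩⟩
  · constructor
    · intro hg
      rw [hzp]
      exact (mem_normalizer_iff.1 hg x).1 (hzp ▸ mem_zpowers x)
    · intro hg
      refine mem_normalizer_iff_map_conj_eq.2 ?_
      refine Subgroup.eq_of_le_of_card_ge (fun y hy => ?_) (by
        rw [Subgroup.card_map_of_injective (MulAut.conj g).injective])
      obtain ⟨z, hz, rfl⟩ := hy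
      rw [← hzp] at hz ⊢
      obtain ⟨i, rfl⟩ := hz
      show (MulAut.conj _).toMonoidHom (_ ^ i) ∈ _
      rw [MulEquiv.coe_toMonoidHom, MulAut.conj_apply, ← conj_zpow]
      exact zpow_mem hg i
  · haveI : Fact (Nat.Prime 2) := ⟨Nat.prime_two⟩
    have hsyl : ∀ a : N, orderOf a = 2 → ∃ Q : Sylow 2 N, (Q : Subgroup N) = zpowers a := by
      intro a ha
      obtain ⟨Q, hQ⟩ := ((IsPGroup.of_card (p := 2) (n := 1)
        (by rw [Nat.card_zpowers, ha, pow_one])) : IsPGroup 2 (zpowers a)).exists_le_sylow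
      refine ⟨Q, (Subgroup.eq_of_le_of_card_ge hQ ?_).symm⟩
      rw [Nat.card_zpowers, ha, Q.card_eq_multiplicity, hN,
        Nat.factorization_mul two_ne_zero S.p_pos.ne', Finsupp.add_apply,
        Nat.prime_two.factorization_self, Nat.factorization_eq_zero_of_not_dvd (fun h => by
          have := (Nat.prime_dvd_prime_iff_eq Nat.prime_two S.prime).1 h
          omega)]
      norm_num
    obtain ⟨Q, hQ⟩ := hsyl ⟨t, htN⟩ (by rw [← Subgroup.orderOf_coe]; exact ht)
    obtain ⟨R, hR⟩ := hsyl ⟨g, hg⟩ (by rw [← Subgroup.orderOf_coe]; exact ho)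
    obtain ⟨n, hn⟩ := MulAction.exists_smul_eq N Q R
    have hm : n * ⟨t, htN⟩ * n⁻¹ ∈ (R : Subgroup N) := by
      rw [← hn]
      exact ⟨⟨t, htN⟩, by rw [SetLike.mem_coe, hQ]; exact mem_zpowers _, rfl⟩
    rw [hR] at hm
    obtain ⟨i, hi⟩ := hm
    refine isConj_iff.2 ⟨n, ?_⟩
    have hi' : g ^ i = (n : G) * t * (n : G)⁻¹ := by simpa using congrArg Subtype.val hi
    rcases Int.even_or_odd i with ⟨j, rfl⟩ | ⟨j, rfl⟩
    · exfalso
      rw [← two_mul, _root_.zpow_mul, show g ^ (2 : ℤ) = 1 by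
        rw [zpow_two, ← pow_two, ← ho, pow_orderOf_eq_one], one_zpow] at hi'
      have := congrArg (fun w => (n : G)⁻¹ * w * n) hi'
      simp [mul_assoc] at this
      rw [← this, orderOf_one] at ht
      omega
    · rw [zpow_add, _root_.zpow_mul, show g ^ (2 : ℤ) = 1 by
        rw [zpow_two, ← pow_two, ← ho, pow_orderOf_eq_one], one_zpow, one_mul, zpow_one] at hi'
      exact hi'.symm

/-- The sum of a character over the normaliser. -/
theorem Dih.sum_nonneg (D : Dih G p) (hp2 : ¬ p ∣ 2) (χ : IrrCharacter G) {w a : ℤ} {d : ℕ}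
    (hd : (χ : G → ℂ) 1 = d) (hw : ∀ g : G, p ∣ orderOf g → (χ : G → ℂ) g = w)
    (ha : ∀ g ∈ D.N, orderOf g = 2 → (χ : G → ℂ) g = a) :
    (0 : ℤ) ≤ d + ((p - 1 : ℕ) : ℤ) * w + p * a := by
  obtain ⟨k, hk⟩ := Char.isCharacter_classInner_nat
    (Char.isCharacter_restrict (Char.isCharacter_of_irr χ.2) D.N) (Char.trivialIrr _)
  simp only [classInner] at hk
  have hone : ∀ n : D.N, ((Char.trivialIrr D.N : IrrCharacter D.N) : D.N → ℂ) n = 1 := fun n => rfl
  simp only [hone, map_one, mul_one] at hk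
  have hsplit : ∀ n : D.N, (χ : G → ℂ) n = (if (n : G) = 1 then (d : ℂ) else 0)
      + (if p ∣ orderOf (n : G) then (w : ℂ) else 0)
      + (if orderOf (n : G) = 2 then (a : ℂ) else 0) := by
    intro n
    rcases D.cases n n.2 with h | h | h
    · rw [h]
      by_cases hp : p ∣ 1
      · exact absurd (hp.trans (one_dvd 2)) hp2
      · simp [hd, hp]
    · rw [ha n n.2 h, h, if_neg (show (n : G) ≠ 1 from fun e => by
        rw [e, orderOf_one] at h; omega), if_neg hp2]
      simp
    · rw [hw n h, if_pos h, if_neg (fun e => hp2 (by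
        rw [e, orderOf_one] at h; exact h.trans (one_dvd 2))), if_neg (fun e => hp2 (by rw [e] at h; exact h))]
      simp
  have hsum : ∑ n : D.N, (χ : G → ℂ) n = (d : ℂ) + ((p - 1 : ℕ) : ℂ) * w + (p : ℂ) * a := by
    rw [Finset.sum_congr rfl fun n _ => hsplit n, Finset.sum_add_distrib, Finset.sum_add_distrib,
      ← Finset.sum_filter, ← Finset.sum_filter, ← Finset.sum_filter, Finset.sum_const,
      Finset.sum_const, Finset.sum_const, ← Fintype.card_subtype, ← Fintype.card_subtype,
      ← Fintype.card_subtype, ← Nat.card_eq_fintype_card, ← Nat.card_eq_fintype_card,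
      ← Nat.card_eq_fintype_card, D.card_singular, D.card_invol]
    rw [show Nat.card {n : D.N // (n : G) = 1} = 1 from Nat.card_eq_one_iff_unique.2
      ⟨⟨fun u v => Subtype.ext (Subtype.ext (u.2.trans v.2.symm))⟩, ⟨⟨1, rfl⟩⟩⟩]
    simp [nsmul_eq_mul]
  have h2 : ((d + ((p - 1 : ℕ) : ℤ) * w + p * a : ℤ) : ℂ) = ((2 * p * k : ℕ) : ℂ) := by
    push_cast
    have e : ∑ n : D.N, (χ : G → ℂ) n = (Nat.card D.N : ℂ) * k := by
      rw [← hk, ← mul_assoc, mul_inv_cancel₀ Char.card_ne_zero_complex, one_mul]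
    rw [← hsum, e, D.card_N]
    push_cast
    ring
  have h3 : (d + ((p - 1 : ℕ) : ℤ) * w + p * a : ℤ) = ((2 * p * k : ℕ) : ℤ) := by exact_mod_cast h2
  rw [h3]
  exact Int.natCast_nonneg _

theorem Setup.not_dvd_two (S : Setup G Ω p) : ¬ p ∣ 2 := fun h => by
  have := Nat.le_of_dvd two_pos h
  have := S.three_lt
  omega

theorem Setup.regular_one (S : Setup G Ω p) : ¬ p ∣ orderOf (1 : G) := by
  rw [orderOf_one]; exact S.prime.not_dvd_one

theorem Setup.regular_invol (S : Setup G Ω p) {t : G} (ht : orderOf t = 2) :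
    ¬ p ∣ orderOf t := by rw [ht]; exact S.not_dvd_two

/-- One class of involutions and the order formula. -/
theorem Setup.invol (S : Setup G Ω p) {f : ℕ} (C : Chars G p f) :
    ∃ (a : ℤ) (c : ℕ), Invol C a c ∧ (4 : ℤ) ∣ (f : ℤ) - a ∧ |a| < f := by
  haveI := Fact.mk S.prime
  obtain ⟨D⟩ := S.exists_dih
  have hp5 := S.five_le
  obtain ⟨a, ha, ha4, haabs, hane⟩ := S.involution_value C.X D.orderOf_t
  have hdegX : charDegree (C.X : G → ℂ) = f := Char.charDegree_of_eq C.deg_X
  rw [hdegX] at ha4 haabs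
  have hane' := hane C.X_ne
  rw [hdegX] at hane'
  set c := Nat.card (centralizer ({D.t} : Set G))
  obtain ⟨ψ₀, hψ₀⟩ := Finset.card_pos.1
    (show 0 < C.Y.card by rw [C.card_Y]; exact Nat.div_pos (by omega) two_pos)
  have hE : ∀ ψ ∈ C.Y, (ψ : G → ℂ) 1 = (f : ℂ) - 1 := fun ψ h => by
    rw [C.Y_regular ψ h 1 S.regular_one, C.deg_X]
  have hf1 : (f : ℂ) - 1 ≠ 0 := hE ψ₀ hψ₀ ▸ Char.irr_one_ne_zero ψ₀.2
  have hf0 : (f : ℂ) ≠ 0 := C.deg_X ▸ Char.irr_one_ne_zero C.X.2
  -- the class multiplication coefficient at an element of order `p`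
  have key : ∀ u : G, orderOf u = 2 → ∀ b : ℂ, (C.X : G → ℂ) u = b →
      (Nat.card {q : G × G // IsConj u q.1 ∧ IsConj u q.2 ∧ q.1 * q.2 = D.x} : ℂ) *
        (Nat.card G : ℂ) * (f * (f - 1)) =
        (Nat.card {g : G // IsConj u g} : ℂ) ^ 2 * (f - b) ^ 2 := by
    intro u hu b hb
    rw [S0840.result u u D.x, finsum_eq_sum_of_fintype]
    have hxs : p ∣ orderOf D.x := by rw [D.orderOf_x]
    set one := Char.trivialIrr G
    have hn1 : one ∉ insert C.X C.Y := by
      rw [Finset.mem_insert, not_or]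
      exact ⟨fun h => C.X_ne (congrArg Subtype.val h).symm, fun h => C.one_not_mem _ h rfl⟩
    rw [← Finset.sum_subset (Finset.subset_univ (insert one (insert C.X C.Y))) (fun φ _ hφ => by
      simp only [Finset.mem_insert, not_or] at hφ
      rw [(C.other φ (fun h => hφ.1 (Subtype.ext h)) hφ.2.1 hφ.2.2).2 D.x hxs, map_zero, mul_zero,
        zero_div]), Finset.sum_insert hn1, Finset.sum_insert C.X_not_mem,
      show (one : G → ℂ) u = 1 from rfl, show (one : G → ℂ) D.x = 1 from rfl,
      show (one : G → ℂ) 1 = 1 from rfl, hb, C.X_singular D.x hxs, C.deg_X,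
      Finset.sum_congr (s₁ := C.Y) rfl (fun (ψ : IrrCharacter G) hψ =>
        show (ψ : G → ℂ) u * (ψ : G → ℂ) u * conj ((ψ : G → ℂ) D.x) / (ψ : G → ℂ) 1 =
          (b - 1) ^ 2 / ((f : ℂ) - 1) * conj ((ψ : G → ℂ) D.x) by
          rw [hE ψ hψ, C.Y_regular ψ hψ u (S.regular_invol hu), hb]; ring),
      ← Finset.mul_sum, ← map_sum, C.Y_singular D.x hxs]
    simp only [map_one, map_neg]
    have hG : (Nat.card G : ℂ) ≠ 0 := Char.card_ne_zero_complex
    field_simp
    ring
  have hidx : ∀ u : G, Nat.card {g : G // IsConj u g} * Nat.card (centralizer ({u} : Set G))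
      = Nat.card G := fun u => by
    rw [← (centralizer ({u} : Set G)).index_mul_card, ← ClassSize.ncard_setOf_isConj u,
      ← Nat.card_coe_set_eq]
    rfl
  have hconj : ∀ u : G, orderOf u = 2 → IsConj D.t u := by
    intro u hu
    obtain ⟨b, hb, -, -, hbne⟩ := S.involution_value C.X hu
    have hb' := hbne C.X_ne
    rw [hdegX] at hb'
    have h := key u hu _ hb
    have hne : Nat.card {q : G × G // IsConj u q.1 ∧ IsConj u q.2 ∧ q.1 * q.2 = D.x} ≠ 0 := by
      intro h0
      rw [h0, Nat.cast_zero, zero_mul, zero_mul, eq_comm, mul_eq_zero, sq_eq_zero_iff,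
        sq_eq_zero_iff, Nat.cast_eq_zero, sub_eq_zero] at h
      rcases h with h | h
      · haveI : Nonempty {g : G // IsConj u g} := ⟨⟨u, IsConj.refl u⟩⟩
        exact Nat.card_pos.ne' h
      · exact hb' (by exact_mod_cast h.symm)
    obtain ⟨⟨⟨u1, u2⟩, h1, h2, h12⟩⟩ := (Nat.card_ne_zero.1 hne).1
    simp only at h1 h2 h12
    have ho1 : orderOf u1 = 2 := by
      obtain ⟨g, hg⟩ := isConj_iff.1 h1
      rw [← hg, ← MulAut.conj_apply, MulEquiv.orderOf_eq, hu]
    have ho2 : orderOf u2 = 2 := by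
      obtain ⟨g, hg⟩ := isConj_iff.1 h2
      rw [← hg, ← MulAut.conj_apply, MulEquiv.orderOf_eq, hu]
    have hs : ∀ w : G, orderOf w = 2 → w⁻¹ = w := fun w hw =>
      inv_eq_of_mul_eq_one_right (by rw [← pow_two, ← hw, pow_orderOf_eq_one])
    have hmem : u1 ∈ D.N := by
      rw [D.mem_N]
      have : u1 * D.x * u1⁻¹ = D.x⁻¹ := by
        rw [← h12, mul_inv_rev, hs u1 ho1, hs u2 ho2, ← mul_assoc, show u1 * u1 = 1 by
          rw [← pow_two, ← ho1, pow_orderOf_eq_one], one_mul]
      rw [this]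
      exact inv_mem (mem_zpowers _)
    exact (D.conj_t u1 hmem ho1).trans h1.symm
  have hcard : ∀ u : G, orderOf u = 2 → Nat.card (centralizer ({u} : Set G)) = c := by
    intro u hu
    have hset : Nat.card {g : G // IsConj u g} = Nat.card {g : G // IsConj D.t g} :=
      Nat.card_congr (Equiv.subtypeEquivRight fun g =>
        ⟨fun h => (hconj u hu).trans h, fun h => (hconj u hu).symm.trans h⟩)
    have h1 := hidx u
    rw [hset, ← hidx D.t] at h1
    haveI : Nonempty {g : G // IsConj D.t g} := ⟨⟨D.t, IsConj.refl _⟩⟩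
    exact Nat.eq_of_mul_eq_mul_left Nat.card_pos h1
  have hval : ∀ u : G, orderOf u = 2 → (C.X : G → ℂ) u = a := by
    intro u hu
    obtain ⟨g, hg⟩ := isConj_iff.1 (hconj u hu)
    rw [← hg, Char.isCharacter_isClassFunction (Char.isCharacter_of_irr C.X.2), ha]
  have hcount : Nat.card {q : G × G // IsConj D.t q.1 ∧ IsConj D.t q.2 ∧ q.1 * q.2 = D.x} = p := by
    conv_rhs => rw [← D.card_invol]
    have ho : ∀ g : G, IsConj D.t g → orderOf g = 2 := fun g h => by
      obtain ⟨w, hw⟩ := isConj_iff.1 h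
      rw [← hw, ← MulAut.conj_apply, MulEquiv.orderOf_eq, D.orderOf_t]
    have hs : ∀ w : G, orderOf w = 2 → w * w = 1 := fun w hw => by
      rw [← pow_two, ← hw, pow_orderOf_eq_one]
    have hmem : ∀ q : {q : G × G // IsConj D.t q.1 ∧ IsConj D.t q.2 ∧ q.1 * q.2 = D.x},
        q.1.1 ∈ D.N := fun q => by
      obtain ⟨⟨u1, u2⟩, h1, h2, h12⟩ := q
      simp only at h1 h2 h12 ⊢
      rw [D.mem_N]
      have : u1 * D.x * u1⁻¹ = D.x⁻¹ := by
        rw [← h12, mul_inv_rev, inv_eq_of_mul_eq_one_right (hs u1 (ho u1 h1)),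
          inv_eq_of_mul_eq_one_right (hs u2 (ho u2 h2)), ← mul_assoc, hs u1 (ho u1 h1), one_mul]
      rw [this]
      exact inv_mem (mem_zpowers _)
    refine Nat.card_congr
      { toFun := fun q => ⟨⟨q.1.1, hmem q⟩, ho _ q.2.1⟩
        invFun := fun g => ⟨((g.1 : G), (g.1 : G) * D.x), hconj _ g.2, hconj _ ?_, ?_⟩
        left_inv := fun q => Subtype.ext (Prod.ext rfl (by
          exact (congrArg (q.1.1 * ·) q.2.2.2).symm.trans
            (by rw [← mul_assoc, hs _ (ho _ q.2.1), one_mul])))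
        right_inv := fun g => rfl }
    · have hm : (g.1 : G) * D.x ∈ D.N := mul_mem g.1.2 ((D.mem_N _).2 (by
        rw [mul_inv_cancel_right]; exact mem_zpowers _))
      rcases D.cases _ hm with h | h | h
      · exfalso
        have : D.x = (g.1 : G) := by
          rw [← inv_eq_of_mul_eq_one_right h, inv_eq_of_mul_eq_one_right (hs _ g.2)]
        have ho' := D.orderOf_x
        rw [this, g.2] at ho'
        omega
      · exact h
      · exfalso
        obtain ⟨P, hP⟩ := ((IsPGroup.of_card (p := p) (n := 1)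
          (by rw [Nat.card_zpowers, D.orderOf_x, pow_one])) : IsPGroup p (zpowers D.x)).exists_le_sylow
        have hzp : zpowers D.x = (P : Subgroup G) :=
          Subgroup.eq_of_le_of_card_ge hP (by rw [Nat.card_zpowers, D.orderOf_x, (S.sylow P).1])
        obtain ⟨Q, hQ⟩ := ((IsPGroup.of_card (p := p) (n := 1)
          (by rw [Nat.card_zpowers, S.orderOf_singular h, pow_one])) :
            IsPGroup p (zpowers ((g.1 : G) * D.x))).exists_le_sylow
        have hmP : (g.1 : G) * D.x ∈ zpowers D.x := by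
          have hPN : (P : Subgroup G) ≤ D.N := by
            rw [← hzp, zpowers_le, D.mem_N, mul_inv_cancel_right]
            exact mem_zpowers _
          have hnorm : D.N ≤ normalizer ((P : Subgroup G) : Set G) := fun n hn => by
            refine mem_normalizer_iff_map_conj_eq.2 ?_
            refine Subgroup.eq_of_le_of_card_ge (fun y hy => ?_) (by
              rw [Subgroup.card_map_of_injective (MulAut.conj n).injective])
            obtain ⟨z, hz, rfl⟩ := hy
            rw [← hzp] at hz ⊢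
            obtain ⟨i, rfl⟩ := hz
            show (MulAut.conj _).toMonoidHom (_ ^ i) ∈ _
            rw [MulEquiv.coe_toMonoidHom, MulAut.conj_apply, ← conj_zpow]
            exact zpow_mem ((D.mem_N n).1 hn) i
          have hle : zpowers ((g.1 : G) * D.x) ⊔ (P : Subgroup G) ≤ D.N :=
            sup_le (zpowers_le.2 hm) hPN
          have hpg : IsPGroup p ↥(zpowers ((g.1 : G) * D.x) ⊔ (P : Subgroup G)) :=
            IsPGroup.to_sup_of_normal_right' (IsPGroup.of_card (n := 1)
              (by rw [Nat.card_zpowers, S.orderOf_singular h, pow_one])) P.2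
              ((zpowers_le.2 hm).trans hnorm)
          rw [hzp, ← P.3 hpg le_sup_right]
          exact le_sup_left (a := zpowers ((g.1 : G) * D.x)) (mem_zpowers _)
        have hg1 : (g.1 : G) ∈ zpowers D.x :=
          (Subgroup.mul_mem_cancel_right _ (mem_zpowers _)).1 hmP
        have := orderOf_dvd_of_mem_zpowers hg1
        rw [g.2, D.orderOf_x] at this
        exact absurd ((Nat.prime_dvd_prime_iff_eq Nat.prime_two S.prime).1 this) (by omega)
    · rw [← mul_assoc, hs _ g.2, one_mul]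
  have hformula : (Nat.card G : ℤ) * ((f : ℤ) - a) ^ 2 = p * (c : ℤ) ^ 2 * f * ((f : ℤ) - 1) := by
    have h := key D.t D.orderOf_t _ ha
    rw [hcount] at h
    have hI : (Nat.card {g : G // IsConj D.t g} : ℂ) * (c : ℂ) = (Nat.card G : ℂ) := by
      exact_mod_cast hidx D.t
    have hG : (Nat.card G : ℂ) ≠ 0 := Char.card_ne_zero_complex
    have h2 : (Nat.card G : ℂ) * ((f : ℂ) - a) ^ 2 = p * (c : ℂ) ^ 2 * f * ((f : ℂ) - 1) := by
      refine mul_left_cancel₀ hG ?_
      linear_combination -(c : ℂ) ^ 2 * h - ((f : ℂ) - a) ^ 2 *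
        ((Nat.card {g : G // IsConj D.t g} : ℂ) * c + (Nat.card G : ℂ)) * hI
    exact_mod_cast h2
  refine ⟨a, c, ⟨⟨D.t, D.orderOf_t⟩, fun u v hu hv => (hconj u hu).symm.trans (hconj v hv),
    hcard, hval, hformula⟩, ha4, ?_⟩
  rw [abs_lt]
  refine ⟨?_, lt_of_le_of_ne (abs_le.1 haabs).2 hane'⟩
  obtain ⟨b, hb, -, hbabs, -⟩ := S.involution_value ψ₀ D.orderOf_t
  rw [C.Y_regular ψ₀ hψ₀ _ (S.regular_invol D.orderOf_t), ha] at hb
  have hb' : a - 1 = b := by exact_mod_cast hb
  have hd : ((charDegree (ψ₀ : G → ℂ) : ℤ)) = (f : ℤ) - 1 := by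
    have h1 := (Block.irr_one_eq_charDegree ψ₀.2).1
    rw [hE ψ₀ hψ₀] at h1
    have h2 : (((f : ℤ) - 1 : ℤ) : ℂ) = (((charDegree (ψ₀ : G → ℂ) : ℕ) : ℤ) : ℂ) := by
      push_cast; exact h1
    exact_mod_cast h2.symm
  rw [hd] at hbabs
  have := (abs_le.1 hbabs).1
  omega

/-- The value of the permutation character at an involution. -/
theorem Setup.fix_invol (S : Setup G Ω p)
    (h : ∀ t u : G, orderOf t = 2 → orderOf u = 2 → IsConj t u) {t : G} (ht : orderOf t = 2) :
    fix Ω t = if p % 4 = 1 then 3 else 1 := by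
  obtain ⟨x, t0, hx, ht0, htx⟩ := S.exists_inverted
  obtain ⟨g, hg⟩ := isConj_iff.1 (h t0 t ht0 ht)
  have e : fix Ω t = fix Ω t0 := by
    rw [← hg, fix, fix]
    exact Nat.card_congr
      { toFun := fun a => ⟨g⁻¹ • (a : Ω), by
          have ha : (g * t0 * g⁻¹) • (a : Ω) = a := a.2
          rw [mul_smul, mul_smul, smul_eq_iff_eq_inv_smul] at ha
          exact ha⟩
        invFun := fun b => ⟨g • (b : Ω), by
          show (g * t0 * g⁻¹) • g • (b : Ω) = g • (b : Ω)
          rw [mul_smul, inv_smul_smul, mul_smul, show t0 • (b : Ω) = b from b.2]⟩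
        left_inv := fun a => by simp
        right_inv := fun b => by simp }
  have h3 := S.fix_le_three hx htx
  have h4 := S.four_dvd_sub_fix ht
  obtain ⟨k, hk⟩ := S.p_odd
  rw [e] at h4 ⊢
  split_ifs with hp <;> omega

end Cfsg.Agent.DegThreeP
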