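import Cfsg.Agent.DegThreeP.Basic
import Cfsg.Agent.Lib.FrobeniusCount
import Cfsg.Agent.Char.PermChar
import Mathlib.GroupTheory.IndexNormal
import Mathlib.Algebra.Order.BigOperators.Ring.Finset
import Mathlib.GroupTheory.Sylow

/-!
# Degree `3p`, `f = 3p - 1`, one fixed point: `p ≡ 3 (mod 4)` does not occur

Cauchy-Schwarz on the elements with an involution as `2`-part gives `f` a power of two and a small
set of elements of odd order in the centraliser of an involution; the conjugates of a point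
stabiliser in that centraliser then have order at most `3`.
-/

set_option autoImplicit false
set_option linter.style.haveILetI false
set_option linter.unusedSectionVars false

noncomputable section

namespace Cfsg.Agent.DegThreeP

open Cfsg Subgroup MulAction
open scoped Classical Pointwise

universe u v

namespace TwoA

section Lemma

variable {K : Type u} [Group K] [Finite K]

theorem odd_card_sup {M J : Subgroup K} (hle : M ≤ normalizer (J : Set K))
    (hM : Odd (Nat.card M)) (hJ : Odd (Nat.card J)) : Odd (Nat.card (M ⊔ J : Subgroup K)) := by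
  set N := normalizer (J : Set K)
  have hJN : J ≤ N := le_normalizer
  have h1 : J.relIndex (M ⊔ J) = J.relIndex M := by
    haveI : (J.subgroupOf N).Normal := (normal_subgroupOf_iff_le_normalizer hJN).2 le_rfl
    have h2 := relIndex_sup_right (H := M.subgroupOf N) (K := J.subgroupOf N)
    rw [← subgroupOf_sup hle hJN] at h2
    rwa [relIndex_subgroupOf (sup_le hle hJN), relIndex_subgroupOf hle] at h2
  rw [← card_mul_index (J.subgroupOf (M ⊔ J)),
    Nat.card_congr (subgroupOfEquivOfLe (le_sup_right : J ≤ M ⊔ J)).toEquiv, ← relIndex, h1]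
  exact hJ.mul (hM.of_dvd_nat (Subgroup.index_dvd_card _))

theorem card_sup_le {M J : Subgroup K} {κ : ℕ} (hκ : Odd κ)
    (hmax : ∀ H : Subgroup K, Odd (Nat.card H) → Nat.card H ∣ κ)
    (hle : M ≤ normalizer (J : Set K)) (hM : Odd (Nat.card M)) (hJ : Odd (Nat.card J)) :
    Nat.card (M ⊔ J : Subgroup K) ≤ κ :=
  Nat.le_of_dvd hκ.pos (hmax _ (odd_card_sup hle hM hJ))

theorem le_normalizer_of_three {H I : Subgroup K} {κ : ℕ} (hH : Nat.card H = κ) (hκ : Odd κ)
    (hI : I ≤ H) (h3 : 3 * Nat.card I = κ) : H ≤ normalizer (I : Set K) := by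
  have hidx : (I.subgroupOf H).index = 3 := by
    have h := card_mul_index (I.subgroupOf H)
    rw [Nat.card_congr (subgroupOfEquivOfLe hI).toEquiv, hH, ← h3, mul_comm 3] at h
    exact Nat.eq_of_mul_eq_mul_left Nat.card_pos h
  have hmf : (Nat.card H).minFac = 3 := by
    rw [hH]
    have h1 : κ.minFac ≤ 3 := Nat.minFac_le_of_dvd (by norm_num) ⟨_, h3.symm⟩
    have h2 := Nat.minFac_prime (n := κ) (by have : 0 < Nat.card I := Nat.card_pos; omega)
    have h4 : κ.minFac ≠ 2 := fun h => by
      have := Nat.minFac_dvd κ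
      rw [h] at this
      exact (Nat.not_even_iff_odd.2 hκ) (even_iff_two_dvd.2 this)
    have := h2.two_le
    omega
  haveI : (I.subgroupOf H).Normal := normal_of_index_eq_minFac_card (by rw [hidx, hmf])
  exact (normal_subgroupOf_iff_le_normalizer hI).1 inferInstance

/-- Finitely many sets with small pairwise intersections have a large union. -/
theorem card_biUnion_ge {α ι : Type*} [DecidableEq α] (s : Finset ι) (f : ι → Finset α) (m w : ℕ)
    (hm : ∀ i ∈ s, (f i).card = m)
    (hw : ∀ i ∈ s, ∀ j ∈ s, i ≠ j → (f i ∩ f j).card ≤ w) :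
    2 * s.card * m ≤ 2 * (s.biUnion f).card + s.card * (s.card - 1) * w := by
  induction s using Finset.induction_on with
  | empty => simp
  | @insert a s ha ih =>
    have h1 := ih (fun i hi => hm i (Finset.mem_insert_of_mem hi))
      (fun i hi j hj => hw i (Finset.mem_insert_of_mem hi) j (Finset.mem_insert_of_mem hj))
    have h2 : (f a ∩ s.biUnion f).card ≤ s.card * w := by
      rw [Finset.inter_biUnion]
      refine Finset.card_biUnion_le.trans ?_
      refine (Finset.sum_le_card_nsmul s _ w fun j hj => ?_).trans (le_of_eq (smul_eq_mul _ _))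
      exact hw a (Finset.mem_insert_self _ _) j (Finset.mem_insert_of_mem hj)
        (by rintro rfl; exact ha hj)
    have h3 := Finset.card_union_add_card_inter (f a) (s.biUnion f)
    rw [hm a (Finset.mem_insert_self _ _)] at h3
    rw [Finset.biUnion_insert, Finset.card_insert_of_notMem ha, Nat.add_sub_cancel]
    rcases Nat.eq_zero_or_pos s.card with h0 | h0
    · rw [h0] at h1 h2 ⊢; omega
    · obtain ⟨n, hn⟩ := Nat.exists_eq_add_of_lt h0
      rw [hn] at h1 h2 ⊢
      simp only [zero_add, Nat.add_sub_cancel] at h1 h2 ⊢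
      nlinarith

theorem odd_orderOf {M : Subgroup K} (hM : Odd (Nat.card M)) {x : K} (hx : x ∈ M) :
    Odd (orderOf x) :=
  hM.of_dvd_nat (Subgroup.orderOf_dvd_natCard _ hx)

theorem card_toFinset_diff [Fintype K] {M I : Subgroup K} (h : I ≤ M) :
    ((M : Set K).toFinset \ (I : Set K).toFinset).card = Nat.card M - Nat.card I := by
  rw [Finset.card_sdiff_of_subset (Set.toFinset_mono h), Set.toFinset_card, Set.toFinset_card,
    Nat.card_eq_fintype_card, Nat.card_eq_fintype_card]
  rfl

/-- Odd subgroups of largest order with trivial core, with few elements of odd order in all. -/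
theorem card_le_three {M : Subgroup K} {κ : ℕ} (hM : Nat.card M = κ) (hκ : Odd κ)
    (hmax : ∀ H : Subgroup K, Odd (Nat.card H) → Nat.card H ∣ κ)
    (hcore : M.normalCore = ⊥) (hU : Nat.card {x : K // Odd (orderOf x)} ≤ 3 * κ) : κ ≤ 3 := by
  classical
  by_contra hgt
  push Not at hgt
  letI : Fintype K := Fintype.ofFinite K
  set U : Finset K := Finset.univ.filter fun x => Odd (orderOf x) with hUd
  have hUc : U.card ≤ 3 * κ := by
    rwa [Nat.card_eq_fintype_card, Fintype.card_subtype] at hU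
  let cj : K → Subgroup K := fun g => M.map (MulAut.conj g).toMonoidHom
  have hcard : ∀ g, Nat.card (cj g) = κ := fun g => by
    rw [Subgroup.card_map_of_injective (MulEquiv.injective _), hM]
  have hcj : ∀ g h, (cj g).map (MulAut.conj h).toMonoidHom = cj (h * g) := fun g h => by
    simp only [cj, Subgroup.map_map]
    congr 1
    ext x
    simp [mul_assoc]
  have hcj1 : cj 1 = M := by
    simp only [cj, map_one]
    exact Subgroup.map_id M
  have hmemU : ∀ g, ∀ x ∈ cj g, x ∈ U := fun g x hx => by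
    rw [hUd, Finset.mem_filter]
    exact ⟨Finset.mem_univ x, odd_orderOf (by rw [hcard]; exact hκ) hx⟩
  have hoddc : ∀ g, Odd (Nat.card (cj g)) := fun g => by rw [hcard]; exact hκ
  -- stabilisers inside a conjugate
  have hstab : ∀ g, ∀ x ∈ M, cj (x * g) = cj g → x ∈ cj g := by
    intro g x hx he
    have hle : zpowers x ≤ normalizer (cj g : Set K) := by
      rw [zpowers_le, mem_normalizer_iff]
      intro y
      conv_rhs => rw [← SetLike.mem_coe, ← he, ← hcj, SetLike.mem_coe]
      exact (Subgroup.mem_map_iff_mem (MulEquiv.injective (MulAut.conj x))).symm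
    have hc := card_sup_le hκ hmax hle (by rw [Nat.card_zpowers]; exact odd_orderOf (hM ▸ hκ) hx)
      (hoddc g)
    have he2 : cj g = zpowers x ⊔ cj g :=
      Subgroup.eq_of_le_of_card_ge le_sup_right (by rw [hcard]; exact hc)
    rw [he2]
    exact (le_sup_left : zpowers x ≤ _) (mem_zpowers x)
  have hMx : ∀ x ∈ M, cj x = M := fun x hx => by
    refine Subgroup.eq_of_le_of_card_ge ?_ (by rw [hcard, hM])
    rintro y ⟨z, hz, rfl⟩
    simpa using M.mul_mem (M.mul_mem hx hz) (M.inv_mem hx)
  -- the orbit of a conjugate under `M`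
  have horb : ∀ g, cj g ≠ M → 3 * Nat.card (M ⊓ cj g : Subgroup K) ≤ κ ∧
      (∀ a, a * Nat.card (M ⊓ cj g : Subgroup K) ≤ κ →
        ∃ s : Finset (Subgroup K), s.card = a ∧ ∀ H ∈ s, H ≠ M ∧ ∃ x ∈ M, cj (x * g) = H) ∧
      (¬ 5 * Nat.card (M ⊓ cj g : Subgroup K) ≤ κ → 3 * Nat.card (M ⊓ cj g : Subgroup K) = κ) := by
    intro g hg
    set I := M ⊓ cj g with hI
    set J := I.subgroupOf M with hJ
    have hJc : Nat.card J = Nat.card I :=
      Nat.card_congr (subgroupOfEquivOfLe inf_le_left).toEquiv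
    have hmul := card_mul_index J
    rw [hJc, hM] at hmul
    have hodd : Odd J.index := hκ.of_dvd_nat ⟨_, by rw [← hmul]; ring⟩
    have hne : J.index ≠ 1 := fun h => by
      apply hg
      rw [h, mul_one] at hmul
      have hIM : I = M := Subgroup.eq_of_le_of_card_ge inf_le_left (by rw [hM, hmul])
      exact (Subgroup.eq_of_le_of_card_ge (hIM ▸ (inf_le_right : I ≤ cj g))
        (by rw [hcard, hM])).symm
    obtain ⟨k, hk⟩ := hodd
    refine ⟨by rw [← hmul, mul_comm 3]; exact Nat.mul_le_mul_left _ (by omega), fun a ha => ?_,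
      fun h5 => ?_⟩
    · let φ : M ⧸ J → Subgroup K := fun q => cj ((q.out : K) * g)
      have hinj : Function.Injective φ := by
        intro q q' h
        have h1 := congrArg (fun L : Subgroup K => L.map (MulAut.conj (q.out : K)⁻¹).toMonoidHom) h
        simp only [φ, hcj, ← mul_assoc, inv_mul_cancel, one_mul] at h1
        have h2 := hstab g _ (M.mul_mem (M.inv_mem q.out.2) q'.out.2) h1.symm
        rw [← QuotientGroup.out_eq' q, ← QuotientGroup.out_eq' q', QuotientGroup.eq]
        change _ ∈ I.subgroupOf M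
        rw [mem_subgroupOf, hI, Subgroup.mem_inf]
        refine ⟨?_, ?_⟩
        · exact (q.out⁻¹ * q'.out).2
        · simpa using h2
      have hcq : (Finset.univ.image φ).card = J.index := by
        rw [Finset.card_image_of_injective _ hinj, Finset.card_univ, Subgroup.index_eq_card,
          Nat.card_eq_fintype_card]
      have hal : a ≤ (Finset.univ.image φ).card := by
        rw [hcq]
        rw [← hmul, mul_comm a] at ha
        exact Nat.le_of_mul_le_mul_left ha Nat.card_pos
      obtain ⟨s, hs, hsc⟩ := Finset.exists_subset_card_eq hal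
      refine ⟨s, hsc, fun H hH => ?_⟩
      obtain ⟨q, -, rfl⟩ := Finset.mem_image.1 (hs hH)
      refine ⟨fun h => hg ?_, _, q.out.2, rfl⟩
      have h1 := congrArg (fun L : Subgroup K => L.map (MulAut.conj (q.out : K)⁻¹).toMonoidHom) h
      simp only [φ, hcj, inv_mul_cancel_left] at h1
      rw [h1]
      exact hMx _ (M.inv_mem q.out.2)
    · have : J.index = 3 := by
        rcases k with _ | _ | k
        · omega
        · omega
        · exact absurd (by rw [← hmul, hk, mul_comm 5]; exact Nat.mul_le_mul_left _ (by omega)) h5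
      rw [← hmul, this, mul_comm]
  -- intersections of two conjugates
  have hpair : ∀ a b, cj a ≠ cj b → ∃ g, cj g ≠ M ∧
      Nat.card (cj a ⊓ cj b : Subgroup K) = Nat.card (M ⊓ cj g : Subgroup K) := by
    intro a b hab
    refine ⟨a⁻¹ * b, fun h => hab ?_, ?_⟩
    · have := congrArg (fun L : Subgroup K => L.map (MulAut.conj a).toMonoidHom) h
      simp only [hcj, mul_inv_cancel_left] at this
      rw [this]
    · rw [← Subgroup.card_map_of_injective (K := cj a ⊓ cj b)
        (f := (MulAut.conj a⁻¹).toMonoidHom) (MulEquiv.injective _),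
        Subgroup.map_inf _ _ _ (MulEquiv.injective _)]
      rw [hcj, hcj, inv_mul_cancel, hcj1]
  obtain ⟨g₁, hg₁⟩ : ∃ g, cj g ≠ M := by
    by_contra h
    push Not at h
    haveI : M.Normal := ⟨fun x hx g => (SetLike.ext_iff.1 (h g) _).1 ⟨x, hx, rfl⟩⟩
    rw [Subgroup.normalCore_eq_self] at hcore
    rw [hcore, Subgroup.card_bot] at hM
    omega
  by_cases hfive : ∀ g, cj g ≠ M → 5 * Nat.card (M ⊓ cj g : Subgroup K) ≤ κ
  · obtain ⟨s, hsc, hs⟩ := (horb g₁ hg₁).2.1 5 (hfive g₁ hg₁)
    have hMs : M ∉ s := fun h => (hs M h).1 rfl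
    let f : Subgroup K → Finset K := fun H => (H : Set K).toFinset.erase 1
    have hall : ∀ H ∈ insert M s, ∃ a, cj a = H := fun H hH => by
      rcases Finset.mem_insert.1 hH with rfl | h
      · exact ⟨1, hcj1⟩
      · obtain ⟨-, x, -, hx⟩ := hs H h
        exact ⟨_, hx⟩
    have hfc : ∀ H : Subgroup K, (f H).card = Nat.card H - 1 := fun H => by
      rw [Finset.card_erase_of_mem (by simp), Set.toFinset_card, Nat.card_eq_fintype_card]
      rfl
    have key := card_biUnion_ge (insert M s) f (κ - 1) (κ / 5 - 1)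
      (fun H hH => by obtain ⟨a, rfl⟩ := hall H hH; rw [hfc, hcard])
      (fun H hH H' hH' hne => by
        obtain ⟨a, rfl⟩ := hall H hH
        obtain ⟨b, rfl⟩ := hall H' hH'
        obtain ⟨g, hg, hge⟩ := hpair a b hne
        have he : f (cj a) ∩ f (cj b) = f (cj a ⊓ cj b) := by
          ext y; simp only [f, Finset.mem_inter, Finset.mem_erase, Set.mem_toFinset, SetLike.mem_coe,
            Subgroup.mem_inf]; tauto
        rw [he, hfc, hge]
        have := hfive g hg
        omega)
    have hsub : (insert M s).biUnion f ⊆ U.erase 1 := by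
      intro x hx
      obtain ⟨H, hH, hxH⟩ := Finset.mem_biUnion.1 hx
      obtain ⟨a, rfl⟩ := hall H hH
      rw [Finset.mem_erase, Set.mem_toFinset] at hxH
      exact Finset.mem_erase.2 ⟨hxH.1, hmemU a x hxH.2⟩
    have h1 := Finset.card_le_card hsub
    rw [Finset.card_erase_of_mem (by simp [hUd])] at h1
    rw [Finset.card_insert_of_notMem hMs, hsc] at key
    have h5 := hfive g₁ hg₁
    have : 0 < Nat.card (M ⊓ cj g₁ : Subgroup K) := Nat.card_pos
    omega
  · push Not at hfive
    obtain ⟨g, hg, hg5⟩ := hfive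
    have h3 := (horb g hg).2.2 (by omega)
    set I := M ⊓ cj g with hIdef
    obtain ⟨s, hsc, hs⟩ := (horb g hg).2.1 3 h3.le
    have hMN : M ≤ normalizer (I : Set K) := le_normalizer_of_three hM hκ inf_le_left h3
    have hIs : ∀ H ∈ s, M ⊓ H = I := by
      intro H hH
      obtain ⟨-, x, hx, rfl⟩ := hs H hH
      have : I.map (MulAut.conj x).toMonoidHom = I := by
        refine Subgroup.eq_of_le_of_card_ge ?_
          (Subgroup.card_map_of_injective (MulEquiv.injective _)).ge
        rintro y ⟨z, hz, rfl⟩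
        exact (mem_normalizer_iff.1 (hMN hx) z).1 hz
      rw [← this, hIdef, Subgroup.map_inf _ _ _ (MulEquiv.injective _)]
      change M ⊓ cj (x * g) = M.map (MulAut.conj x).toMonoidHom ⊓
        (cj g).map (MulAut.conj x).toMonoidHom
      rw [hcj]
      congr 1
      exact (hMx x hx).symm
    have hall : ∀ H ∈ insert M s, I ≤ H ∧ Nat.card H = κ ∧ ∃ a, cj a = H := fun H hH => by
      rcases Finset.mem_insert.1 hH with rfl | h
      · exact ⟨inf_le_left, hM, 1, hcj1⟩
      · obtain ⟨-, x, -, hx⟩ := hs H h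
        exact ⟨hIs H h ▸ inf_le_right, hx ▸ hcard _, _, hx⟩
    have hMs : M ∉ s := fun h => (hs M h).1 rfl
    let f : Subgroup K → Finset K := fun H => (H : Set K).toFinset \ (I : Set K).toFinset
    have key := card_biUnion_ge (insert M s) f (κ - Nat.card I) 0
      (fun H hH => by rw [card_toFinset_diff (hall H hH).1, (hall H hH).2.1])
      (fun H hH H' hH' hne => by
        obtain ⟨hIH, -, a, rfl⟩ := hall H hH
        obtain ⟨hIH', -, b, rfl⟩ := hall H' hH'
        obtain ⟨c, hc, hce⟩ := hpair a b hne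
        have heq : I = cj a ⊓ cj b := Subgroup.eq_of_le_of_card_ge (le_inf hIH hIH')
          (by rw [hce]; have := (horb c hc).1; omega)
        rw [Nat.le_zero, Finset.card_eq_zero, Finset.eq_empty_iff_forall_notMem]
        intro y hy
        simp only [f, Finset.mem_inter, Finset.mem_sdiff, Set.mem_toFinset, SetLike.mem_coe] at hy
        exact hy.1.2 (heq ▸ ⟨hy.1.1, hy.2.1⟩))
    rw [Finset.card_insert_of_notMem hMs, hsc] at key
    set T : Finset K := (I : Set K).toFinset ∪ (insert M s).biUnion f with hT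
    have hTU : T ⊆ U := by
      intro y hy
      rcases Finset.mem_union.1 hy with h | h
      · rw [Set.mem_toFinset] at h
        exact hmemU 1 y (hcj1.symm ▸ (inf_le_left : I ≤ M) h)
      · obtain ⟨H, hH, hyH⟩ := Finset.mem_biUnion.1 h
        obtain ⟨-, -, a, rfl⟩ := hall H hH
        exact hmemU a y (Set.mem_toFinset.1 (Finset.mem_sdiff.1 hyH).1)
    have hTc : T.card = Nat.card I + ((insert M s).biUnion f).card := by
      rw [hT, Finset.card_union_of_disjoint, Set.toFinset_card, Nat.card_eq_fintype_card]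
      · rfl
      · rw [Finset.disjoint_biUnion_right]
        exact fun H _ => Finset.disjoint_sdiff
    have hTe : T = U := Finset.eq_of_subset_of_card_le hTU (by omega)
    have hodd : ∀ y : K, Odd (orderOf y) → y ∈ normalizer (I : Set K) := by
      intro y hy
      have : y ∈ T := hTe ▸ Finset.mem_filter.2 ⟨Finset.mem_univ y, hy⟩
      rcases Finset.mem_union.1 this with h | h
      · exact le_normalizer (Set.mem_toFinset.1 h)
      · obtain ⟨H, hH, hyH⟩ := Finset.mem_biUnion.1 h
        exact le_normalizer_of_three (hall H hH).2.1 hκ (hall H hH).1 h3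
          (Set.mem_toFinset.1 (Finset.mem_sdiff.1 hyH).1)
    have hconjI : ∀ c a, I.map (MulAut.conj c).toMonoidHom ≤ cj a := by
      intro c a
      have hle : cj a ≤ normalizer (I.map (MulAut.conj c).toMonoidHom : Set K) := by
        intro y hy
        have hy' : Odd (orderOf ((MulAut.conj c⁻¹) y)) := by
          rw [MulEquiv.orderOf_eq]
          exact odd_orderOf (hoddc a) hy
        have h1 := mem_map_of_mem (MulAut.conj c).toMonoidHom (hodd _ hy')
        have h2 := Subgroup.le_normalizer_map (H := I) (MulAut.conj c).toMonoidHom h1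
        simpa [mul_assoc] using h2
      have hJ : Odd (Nat.card (I.map (MulAut.conj c).toMonoidHom)) := by
        rw [Subgroup.card_map_of_injective (MulEquiv.injective _)]
        exact hκ.of_dvd_nat ⟨3, by rw [← h3]; ring⟩
      have he2 : cj a = cj a ⊔ I.map (MulAut.conj c).toMonoidHom :=
        Subgroup.eq_of_le_of_card_ge le_sup_left
          (by rw [hcard]; exact card_sup_le hκ hmax hle (hoddc a) hJ)
      rw [he2]
      exact le_sup_right
    have hIcore : I ≤ M.normalCore := fun x hx c => hcj1 ▸ hconjI c 1 ⟨x, hx, rfl⟩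
    rw [hcore, le_bot_iff] at hIcore
    rw [hIcore, Subgroup.card_bot] at h3
    omega

end Lemma

section Count

variable {G : Type u} [Group G] [Fintype G]

theorem not_cauchy {N r J : ℤ} (hN : 3 ≤ N) (hr : 1 ≤ r) (hJ : 5 ≤ J)
    (hv : 0 ≤ r * (6 * N + 2) + 1 - r ^ 2 * (N + 1)) :
    ¬ J * (r * N - 1) ^ 2 ≤
      (6 * N + 2 - J * (N + 1)) * (r * (6 * N + 2) + 1 - r ^ 2 * (N + 1)) := by
  intro h
  have h1 : 5 * (r * N - 1) ^ 2 ≤ J * (r * N - 1) ^ 2 := mul_le_mul_of_nonneg_right hJ (sq_nonneg _)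
  have h2 : (6 * N + 2 - J * (N + 1)) * (r * (6 * N + 2) + 1 - r ^ 2 * (N + 1)) ≤
      (N - 3) * (r * (6 * N + 2) + 1 - r ^ 2 * (N + 1)) :=
    mul_le_mul_of_nonneg_right (by nlinarith) hv
  have h3 : 0 ≤ (r ^ 2 - r) * (6 * N ^ 2 - 2 * N - 3) :=
    mul_nonneg (by nlinarith) (by nlinarith)
  have h4 : 4 * N + 3 ≤ r * (4 * N + 3) := le_mul_of_one_le_left (by omega) hr
  nlinarith

theorem sum_of_classInner {a b : G → ℤ} {A' B' : G → ℂ} {k : ℤ} (ha : ∀ g, A' g = a g)
    (hb : ∀ g, B' g = b g) (h : classInner A' B' = k) :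
    ∑ g, a g * b g = k * (Nat.card G : ℤ) := by
  have h1 := Char.sum_mul_conj_eq_card_mul_classInner A' B'
  rw [h] at h1
  simp only [ha, hb, map_intCast] at h1
  have : ((∑ g, a g * b g : ℤ) : ℂ) = ((k * (Nat.card G : ℤ) : ℤ) : ℂ) := by
    push_cast
    rw [h1, mul_comm]
  exact_mod_cast this

theorem odd_card_odd_order (K : Type*) [Group K] [Finite K] :
    Odd (Nat.card {x : K // Odd (orderOf x)}) := by
  letI : Fintype K := Fintype.ofFinite K
  set s : Finset K := (Finset.univ.filter fun x => Odd (orderOf x)).erase 1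
  have h0 : ∑ _x ∈ s, (1 : ZMod 2) = 0 := by
    refine Finset.sum_involution (fun x _ => x⁻¹) (fun _ _ => by decide) ?_ ?_ (fun _ _ => inv_inv _)
    · intro x hx _ he
      simp only [s, Finset.mem_erase, Finset.mem_filter, Finset.mem_univ, true_and] at hx
      have h2 : orderOf x ∣ 2 := orderOf_dvd_of_pow_eq_one (by
        rw [pow_two]; nth_rewrite 1 [← he]; exact inv_mul_cancel x)
      rcases (Nat.dvd_prime Nat.prime_two).1 h2 with h3 | h3
      · exact hx.1 (orderOf_eq_one_iff.1 h3)
      · rw [h3] at hx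
        exact absurd hx.2 (by decide)
    · intro x hx
      simp only [s, Finset.mem_erase, Finset.mem_filter, Finset.mem_univ, true_and] at hx ⊢
      exact ⟨inv_ne_one.2 hx.1, by rw [orderOf_inv]; exact hx.2⟩
  rw [Finset.sum_const, nsmul_eq_mul, mul_one, ZMod.natCast_eq_zero_iff_even] at h0
  have h1 : s.card + 1 = Nat.card {x : K // Odd (orderOf x)} := by
    rw [Nat.card_eq_fintype_card, Fintype.card_subtype]
    exact Finset.card_erase_add_one (by simp)
  rw [← h1]
  exact h0.add_one

/-- An involution times a commuting element of odd order determines both. -/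
theorem invol_mul_inj {s s' y y' : G} (hs : orderOf s = 2) (hs' : orderOf s' = 2)
    (hc : Commute s y) (hc' : Commute s' y') (hy : Odd (orderOf y)) (hy' : Odd (orderOf y'))
    (h : s * y = s' * y') : s = s' ∧ y = y' := by
  have key : ∀ {s y : G}, orderOf s = 2 → Commute s y → ∀ {m : ℕ}, Odd m → orderOf y ∣ m →
      (s * y) ^ m = s := by
    intro s y hs hc m ⟨k, hk⟩ hd
    rw [hc.mul_pow, orderOf_dvd_iff_pow_eq_one.1 hd, mul_one, hk, pow_succ, pow_mul,
      ← hs, pow_orderOf_eq_one, one_pow, one_mul]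
  have e : s = s' := by
    rw [← key hs hc (hy.mul hy') (dvd_mul_right _ _), h, key hs' hc' (hy.mul hy') (dvd_mul_left _ _)]
  subst e
  exact ⟨rfl, mul_left_cancel h⟩

/-- The elements with an involution as 2-part, when there is one class of involutions. -/
theorem exists_S0 {t : G} (ht : orderOf t = 2)
    (hcl : ∀ s : G, orderOf s = 2 → IsConj t s) :
    ∃ S0 : Finset G, (∀ h ∈ S0, Even (orderOf h)) ∧
      S0.card * Nat.card (centralizer ({t} : Set G)) =
        Nat.card G * Nat.card {x : centralizer ({t} : Set G) // Odd (orderOf x)} := by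
  let P : G → G → Prop := fun s y => Commute s y ∧ Odd (orderOf y)
  let f : (Σ s : {s : G // orderOf s = 2}, {y : G // P s y}) → G := fun x => x.1.1 * x.2.1
  have hf : Function.Injective f := by
    rintro ⟨⟨s, hs⟩, y, hy⟩ ⟨⟨s', hs'⟩, y', hy'⟩ h
    obtain ⟨rfl, rfl⟩ := invol_mul_inj hs hs' hy.1 hy'.1 hy.2 hy'.2 h
    rfl
  letI := Fintype.ofFinite (Σ s : {s : G // orderOf s = 2}, {y : G // P s y})
  refine ⟨Finset.univ.image f, ?_, ?_⟩
  · intro h hh
    obtain ⟨⟨⟨s, hs⟩, y, hc, hy⟩, -, rfl⟩ := Finset.mem_image.1 hh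
    show Even (orderOf (s * y))
    rw [hc.orderOf_mul_eq_mul_orderOf_of_coprime
      (by rw [hs]; exact Nat.coprime_two_left.2 hy), hs]
    exact even_two_mul _
  · rw [Finset.card_image_of_injective _ hf, Finset.card_univ, ← Nat.card_eq_fintype_card,
      Nat.card_sigma]
    have hconst : ∀ s : {s : G // orderOf s = 2}, Nat.card {y : G // P s y} =
        Nat.card {x : centralizer ({t} : Set G) // Odd (orderOf x)} := by
      rintro ⟨s, hs⟩
      obtain ⟨g, hg⟩ := isConj_iff.1 (hcl s hs)
      refine Nat.card_congr (Equiv.symm ?_)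
      refine
        { toFun := fun x => ⟨MulAut.conj g x.1.1, ?_, ?_⟩
          invFun := fun y => ⟨⟨(MulAut.conj g)⁻¹ y.1, ?_⟩, ?_⟩
          left_inv := fun x => by ext; simp [mul_assoc]
          right_inv := fun y => by ext; simp [mul_assoc] }
      · show Commute s _
        rw [← hg]
        exact (Commute.conj_iff g).2 (mem_centralizer_singleton_iff.1 x.1.2).symm
      · rw [MulEquiv.orderOf_eq, Subgroup.orderOf_coe]
        exact x.2
      · rw [mem_centralizer_singleton_iff]
        have h1 : Commute (g * t * g⁻¹) y.1 := hg.symm ▸ y.2.1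
        have h2 := ((Commute.conj_iff g⁻¹).2 h1).symm
        simpa [mul_assoc] using h2.eq
      · rw [← Subgroup.orderOf_coe]
        show Odd (orderOf ((MulAut.conj g)⁻¹ y.1))
        rw [MulEquiv.orderOf_eq]
        exact y.2.2
    rw [Finset.sum_congr rfl fun s _ => hconst s, Finset.sum_const, Finset.card_univ, smul_eq_mul,
      ← Nat.card_eq_fintype_card]
    set C := centralizer ({t} : Set G)
    let φ : G ⧸ C → {s : G // orderOf s = 2} := fun q => ⟨q.out * t * q.out⁻¹, by
      rw [← MulAut.conj_apply, MulEquiv.orderOf_eq, ht]⟩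
    have hφ : Function.Bijective φ := by
      constructor
      · intro q q' h
        have h1 : q.out * t * q.out⁻¹ = q'.out * t * q'.out⁻¹ := congrArg Subtype.val h
        rw [← QuotientGroup.out_eq' q, ← QuotientGroup.out_eq' q', QuotientGroup.eq,
          mem_centralizer_singleton_iff]
        calc q.out⁻¹ * q'.out * t = q.out⁻¹ * (q'.out * t * q'.out⁻¹) * q'.out := by group
          _ = q.out⁻¹ * (q.out * t * q.out⁻¹) * q'.out := by rw [h1]
          _ = t * (q.out⁻¹ * q'.out) := by group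
      · rintro ⟨s, hs⟩
        obtain ⟨g, hg⟩ := isConj_iff.1 (hcl s hs)
        obtain ⟨h, hh⟩ := QuotientGroup.mk_out_eq_mul C g
        refine ⟨(g : G ⧸ C), Subtype.ext ?_⟩
        show (g : G ⧸ C).out * t * (g : G ⧸ C).out⁻¹ = s
        have hht : (h : G) * t = t * h := mem_centralizer_singleton_iff.1 h.2
        rw [hh, ← hg, mul_inv_rev, mul_assoc g (h : G) t, hht]
        group
    rw [← Nat.card_eq_of_bijective φ hφ, ← Subgroup.index_eq_card, ← C.card_mul_index]
    ring

end Count

end TwoA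

variable {G : Type u} [Group G] [Fintype G] {Ω : Type v} [Fintype Ω] [MulAction G Ω] {p : ℕ}

/-- Cauchy-Schwarz bound on the odd part of the centraliser of an involution. -/
theorem two_three (S : Setup G Ω p) {f : ℕ} (hf : f = 3 * p - 1) (C : Chars G p f) {c : ℕ}
    (I : Invol C 0 c) (hπ : ∀ g, (fix Ω g : ℂ) = 1 + (C.X : G → ℂ) g) (hp : p % 4 = 3) : False := by
  haveI := Fact.mk S.prime
  haveI := S.faithful
  haveI := S.prim
  have h5 := S.five_le
  haveI : Nonempty Ω := (Nat.card_pos_iff.1 (by rw [S.card_points]; omega)).1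
  obtain ⟨N, hN⟩ : ∃ N, p = 2 * N + 1 := S.p_odd
  have hN3 : 3 ≤ N := by omega
  have hYc : C.Y.card = N := by rw [C.card_Y]; omega
  -- integral functions
  let π : G → ℤ := fun g => (fix Ω g : ℤ)
  let Ψ : G → ℤ := fun g => if p ∣ orderOf g then 1 else N * (π g - 2)
  let YF : G → ℂ := ∑ ψ ∈ C.Y, (ψ : G → ℂ)
  have hX : ∀ g, (C.X : G → ℂ) g = ((π g - 1 : ℤ) : ℂ) := fun g => by
    simp only [π]; push_cast; rw [hπ g]; ring
  have hP : ∀ g, Char.permChar Ω g = ((π g : ℤ) : ℂ) := fun g => by
    simp only [π, fix, Char.permChar]; push_cast; rfl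
  have hY : ∀ g, YF g = ((Ψ g : ℤ) : ℂ) := fun g => by
    simp only [YF, Finset.sum_apply, Ψ]
    split_ifs with h
    · rw [C.Y_singular g h]; norm_num
    · rw [Finset.sum_congr rfl fun ψ hψ => C.Y_regular ψ hψ g h, Finset.sum_const, hYc,
        nsmul_eq_mul, hX]
      push_cast; ring
  set one : G → ℂ := fun _ => 1
  have hone : IsIrrCharacter G one := Char.isIrrCharacter_const_one
  have eX1 : classInner (C.X : G → ℂ) one = 0 := Char.classInner_irr_ne C.X.2 hone C.X_ne
  have eXX : classInner (C.X : G → ℂ) C.X = 1 := Char.classInner_irr_self C.X.2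
  have eY1 : classInner YF one = 0 := by
    rw [Char.classInner_sum_left]
    exact Finset.sum_eq_zero fun ψ hψ => Char.classInner_irr_ne ψ.2 hone (C.one_not_mem ψ hψ)
  have eXY : classInner (C.X : G → ℂ) YF = 0 := by
    rw [Char.classInner_sum_right]
    refine Finset.sum_eq_zero fun ψ hψ => Char.classInner_irr_ne C.X.2 ψ.2 fun h => ?_
    exact C.X_not_mem (by rw [show C.X = ψ from Subtype.ext h]; exact hψ)
  have eYY : classInner YF YF = ((N : ℤ) : ℂ) := by
    rw [Char.classInner_sum_left, Finset.sum_congr rfl fun ψ hψ => (?_ : _ = (1 : ℂ)),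
      Finset.sum_const, hYc, nsmul_eq_mul, mul_one]
    · norm_num
    · rw [Char.classInner_sum_right, Finset.sum_eq_single ψ
        (fun φ _ hne => Char.classInner_irr_ne ψ.2 φ.2 fun h => hne (Subtype.ext h).symm)
        (fun h => absurd hψ h), Char.classInner_irr_self ψ.2]
  set n : ℤ := (Nat.card G : ℤ) with hn
  have hn0 : 0 < n := by rw [hn]; exact_mod_cast Nat.card_pos
  have sX : ∑ g, (π g - 1) * 1 = 0 * n :=
    TwoA.sum_of_classInner (b := fun _ => 1) (B' := one) hX (fun _ => by simp [one]) (by rw [eX1]; norm_num)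
  have sXX : ∑ g, (π g - 1) * (π g - 1) = 1 * n :=
    TwoA.sum_of_classInner hX hX (by rw [eXX]; norm_num)
  have sY : ∑ g, Ψ g * 1 = 0 * n :=
    TwoA.sum_of_classInner (b := fun _ => 1) (B' := one) hY (fun _ => by simp [one]) (by rw [eY1]; norm_num)
  have sXY : ∑ g, (π g - 1) * Ψ g = 0 * n :=
    TwoA.sum_of_classInner hX hY (by rw [eXY]; norm_num)
  have sYY : ∑ g, Ψ g * Ψ g = (N : ℤ) * n := TwoA.sum_of_classInner hY hY eYY
  have hcG : (∑ _g : G, (1 : ℤ)) = n := by simp [hn]
  have sπ : ∑ g, π g = n := by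
    simp only [mul_one, Finset.sum_sub_distrib, hcG] at sX
    linarith
  have sππ : ∑ g, π g * π g = 2 * n := by
    have e : ∀ g, (π g - 1) * (π g - 1) = π g * π g - 2 * π g + 1 := fun g => by ring
    simp only [e, Finset.sum_add_distrib, Finset.sum_sub_distrib, ← Finset.mul_sum, hcG, sπ] at sXX
    linarith
  -- double transitivity
  have h2t : IsMultiplyPretransitive G Ω 2 := by
    rw [← Char.card_orbits_prod_eq_two_iff Ω (by rw [S.card_points]; omega)]
    have h1 := Char.classInner_permChar_permChar (G := G) Ω (Y := Ω)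
    have h2 : ∑ g, π g * π g = (Nat.card (Quotient (MulAction.orbitRel G (Ω × Ω))) : ℤ) * n :=
      TwoA.sum_of_classInner hP hP (by rw [h1]; norm_num)
    rw [sππ] at h2
    have := mul_right_cancel₀ hn0.ne' h2
    omega
  rw [MulAction.is_two_pretransitive_iff] at h2t
  -- fixed points of elements of even order
  have hfix : ∀ s : G, orderOf s = 2 → fix Ω s = 1 := fun s hs => by
    have h1 := hπ s
    rw [I.X_val s hs] at h1
    norm_num at h1
    exact_mod_cast h1
  have heven : ∀ g : G, Even (orderOf g) → fix Ω g = 1 := by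
    intro g hg
    have hs : orderOf (g ^ (orderOf g / 2)) = 2 :=
      orderOf_pow_orderOf_div (orderOf_pos g).ne' (even_iff_two_dvd.1 hg)
    set s := g ^ (orderOf g / 2) with hsd
    have h1 := hfix s hs
    rw [fix, Nat.card_eq_one_iff_unique] at h1
    obtain ⟨hsub, ⟨a, ha⟩⟩ := h1
    have hga : g • a = a := by
      have hm : g • a ∈ fixedBy Ω s := by
        show s • g • a = g • a
        rw [hsd, ← mul_smul, ((Commute.refl g).pow_left _).eq, mul_smul]
        exact congrArg (g • ·) ha
      exact congrArg Subtype.val (@Subsingleton.elim _ hsub ⟨g • a, hm⟩ ⟨a, ha⟩)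
    rw [fix, Nat.card_eq_one_iff_unique]
    refine ⟨⟨fun x y => ?_⟩, ⟨⟨a, hga⟩⟩⟩
    have hx : ∀ z : fixedBy Ω g, (z : Ω) ∈ fixedBy Ω s := fun z => by
      show g ^ (orderOf g / 2) • (z : Ω) = z
      exact (MulAction.mem_stabilizer_iff).1 (Subgroup.pow_mem _
        (MulAction.mem_stabilizer_iff.2 (show g • (z : Ω) = z from z.2)) _)
    have h2 : (x : Ω) = y := congrArg (fun w : fixedBy Ω s => (w : Ω))
      (@Subsingleton.elim _ hsub ⟨x, hx x⟩ ⟨y, hx y⟩)
    exact Subtype.ext h2
  have hnotfix : ∀ g : G, ∀ x y : Ω, x ≠ y → g • x = x → g • y = y → ¬ Even (orderOf g) := by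
    intro g x y hxy hx hy he
    have h1 := heven g he
    rw [fix, Nat.card_eq_one_iff_unique] at h1
    exact hxy (congrArg Subtype.val (@Subsingleton.elim _ h1.1 ⟨x, hx⟩ ⟨y, hy⟩))
  have hoddsub : ∀ (H : Subgroup G) (x y : Ω), x ≠ y → (∀ g ∈ H, g • x = x ∧ g • y = y) →
      Odd (Nat.card H) := by
    intro H x y hxy hH
    rw [← Nat.not_even_iff_odd, even_iff_two_dvd]
    intro h2
    obtain ⟨g, hg⟩ := exists_prime_orderOf_dvd_card' (G := H) 2 h2
    exact hnotfix g x y hxy (hH g g.2).1 (hH g g.2).2 (by rw [Subgroup.orderOf_coe, hg]; decide)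
  obtain ⟨t, ht⟩ := I.exists_invol
  obtain ⟨a, ha⟩ : ∃ a : Ω, t • a = a := by
    have h1 := hfix t ht
    rw [fix, Nat.card_eq_one_iff_unique] at h1
    obtain ⟨-, ⟨a, ha⟩⟩ := h1
    exact ⟨a, ha⟩
  haveI : Nontrivial Ω := Finite.one_lt_card_iff_nontrivial.1 (by rw [S.card_points]; omega)
  obtain ⟨b, hba⟩ := exists_ne a
  -- orders
  have hcompl : (({a} : Set Ω)ᶜ).ncard = 3 * p - 1 := by
    rw [Set.ncard_compl, Set.ncard_singleton, S.card_points]
  set D := stabilizer (stabilizer G a) b with hD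
  have hDi : D.index = 3 * p - 1 := by
    rw [hD, MulAction.index_stabilizer, ← hcompl]
    congr 1
    ext x
    constructor
    · rintro ⟨⟨g, hg⟩, rfl⟩ h
      have h' : g • b = a := h
      exact hba (smul_left_cancel g (h'.trans hg.symm))
    · intro hx
      obtain ⟨g, hg, hg'⟩ := h2t hba.symm (Ne.symm hx : a ≠ x)
      exact ⟨⟨g, hg⟩, hg'⟩
  set d := Nat.card D with hd
  have hcard : Nat.card G = 3 * p * (3 * p - 1) * d := by
    rw [← (stabilizer G a).card_mul_index, MulAction.index_stabilizer_of_transitive, S.card_points,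
      ← D.card_mul_index, hDi]
    ring
  have hdodd : Odd d := by
    rw [hd, ← Subgroup.card_map_of_injective (K := D) (f := (stabilizer G a).subtype)
      (Subgroup.subtype_injective _)]
    refine hoddsub _ a b hba.symm ?_
    rintro _ ⟨⟨g, hg⟩, hgb, rfl⟩
    exact ⟨hg, hgb⟩
  obtain ⟨A, hA⟩ : ∃ A, A = 3 * p - 1 := ⟨_, rfl⟩
  rw [← hA] at hf hcard hDi hcompl
  subst f
  have hAp : A = 6 * N + 2 := by omega
  have h3d : 3 * d * A ^ 2 = c ^ 2 * (A - 1) := by
    have h1 := I.formula
    rw [hcard, sub_zero] at h1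
    have h2 : (Nat.cast (p * A * (3 * d * A ^ 2)) : ℤ) = Nat.cast (p * A * (c ^ 2 * (A - 1))) := by
      push_cast [show 1 ≤ A by omega]
      push_cast at h1
      linear_combination h1
    exact Nat.eq_of_mul_eq_mul_left (show 0 < p * A from Nat.mul_pos S.p_pos (by omega))
      (by exact_mod_cast h2)
  have hAc : A ∣ c := by
    rw [← Nat.pow_dvd_pow_iff (show 2 ≠ 0 by norm_num)]
    refine (Nat.Coprime.pow_left 2 ?_).dvd_of_dvd_mul_right ⟨3 * d, by rw [← h3d]; ring⟩
    rw [show A = (A - 1) + 1 by omega]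
    simp
  obtain ⟨κ, hκc⟩ := hAc
  have hκd : 3 * d = κ ^ 2 * (A - 1) := by
    refine Nat.eq_of_mul_eq_mul_right (show 0 < A ^ 2 from pow_pos (by omega) 2) ?_
    rw [h3d, hκc]; ring
  have h3κ : 3 ∣ κ := by
    have h1 : 3 ∣ κ ^ 2 * (A - 1) := ⟨d, hκd.symm⟩
    refine Nat.prime_three.dvd_of_dvd_pow (((Nat.prime_three.coprime_iff_not_dvd).2 ?_).dvd_of_dvd_mul_right h1)
    omega
  have hκodd : Odd κ := by
    have h1 : Odd (κ ^ 2 * (A - 1)) := by rw [← hκd]; exact (by decide : Odd 3).mul hdodd
    exact (Nat.odd_pow_iff two_ne_zero).1 (Nat.odd_mul.1 h1).1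
  have hd3 : A - 1 ≤ d := by
    obtain ⟨k, rfl⟩ := h3κ
    have hk : 1 ≤ k := by rcases hκodd with ⟨j, hj⟩; omega
    have : 3 * (A - 1) ≤ 3 * d := by
      rw [hκd]; exact Nat.mul_le_mul_right _ (by nlinarith)
    omega
  -- the centraliser
  set K := centralizer ({t} : Set G) with hK
  have hKc : Nat.card K = c := I.card_centralizer t ht
  obtain ⟨e, m, hm, hAm⟩ := Nat.exists_eq_two_pow_mul_odd (show A ≠ 0 by omega)
  set U := Nat.card {x : K // Odd (orderOf x)} with hU
  have hUodd : Odd U := TwoA.odd_card_odd_order K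
  have hUd : m * κ ∣ U := by
    have h1 := FrobeniusCount.frobenius (G := K) (m := m * κ)
      ⟨2 ^ e, by rw [hKc, hκc, hAm]; ring⟩
    refine h1.trans (dvd_of_eq (Nat.card_congr (Equiv.subtypeEquivRight fun x => ?_)))
    rw [← orderOf_dvd_iff_pow_eq_one]
    refine ⟨fun h => (hm.mul hκodd).of_dvd_nat h, fun h => ?_⟩
    refine (Nat.Coprime.pow_right e (Nat.coprime_two_right.2 h)).dvd_of_dvd_mul_left ?_
    have h2 : orderOf x ∣ Nat.card K := orderOf_dvd_natCard x
    rwa [hKc, hκc, hAm, mul_assoc] at h2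
  obtain ⟨j, hj⟩ := hUd
  have hjodd : Odd j := (Nat.odd_mul.1 (hj ▸ hUodd)).2
  obtain ⟨J, hJ⟩ : ∃ J, J = j * m := ⟨_, rfl⟩
  have hJU : U = J * κ := by rw [hj, hJ]; ring
  obtain ⟨S0, hS0e, hS0c⟩ := TwoA.exists_S0 ht (fun s hs => I.isConj t s ht hs)
  have hS0 : S0.card * A = Nat.card G * J := by
    rw [← hK, hKc, ← hU, hJU, hκc, ← mul_assoc, ← mul_assoc] at hS0c
    exact Nat.eq_of_mul_eq_mul_right hκodd.pos hS0c
  -- the inner product `r`
  have hgen : IsGeneralizedCharacter G
      (Char.permChar (G := G) Ω * Char.permChar Ω - ((2 : ℤ) • Char.permChar (G := G) Ω)) :=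
    Char.isGeneralizedCharacter_sub
      (Char.isGeneralizedCharacter_mul
        (Char.isGeneralizedCharacter_of_isCharacter (Char.isCharacter_permChar Ω))
        (Char.isGeneralizedCharacter_of_isCharacter (Char.isCharacter_permChar Ω)))
      (Char.isGeneralizedCharacter_zsmul
        (Char.isGeneralizedCharacter_of_isCharacter (Char.isCharacter_permChar Ω)) 2)
  obtain ⟨r, hr⟩ := Char.classInner_generalized_int hgen (Char.isGeneralizedCharacter_of_irr C.X.2)
  let Φ : G → ℤ := fun g => π g * (π g - 2)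
  have sΦX : ∑ g, Φ g * (π g - 1) = r * n :=
    TwoA.sum_of_classInner
      (A' := Char.permChar (G := G) Ω * Char.permChar Ω - ((2 : ℤ) • Char.permChar (G := G) Ω))
      (fun g => by
        simp only [Φ, Pi.sub_apply, Pi.mul_apply, Pi.smul_apply, hP, smul_eq_mul, zsmul_eq_mul,
          Int.cast_ofNat, Pi.ofNat_apply, Pi.intCast_apply]
        push_cast; ring) hX hr
  have sΦ : ∑ g, Φ g = 0 := by
    simp only [Φ, mul_sub, Finset.sum_sub_distrib, sππ, ← Finset.sum_mul, sπ]
    ring
  have sR : ∑ g, π g * (π g - 2) ^ 2 = r * n := by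
    rw [← sΦX, Finset.sum_congr rfl fun g _ =>
      (show π g * (π g - 2) ^ 2 = Φ g * (π g - 1) - Φ g by simp only [Φ]; ring),
      Finset.sum_sub_distrib, sΦ, sub_zero]
  have hπ1 : π 1 = 3 * p := by
    simp only [π, fix, MulAction.fixedBy, one_smul, Set.setOf_true, Nat.card_univ, S.card_points]
    push_cast; rfl
  have hr1 : 1 ≤ r := by
    by_contra h
    push Not at h
    have h1 : 0 < ∑ g, π g * (π g - 2) ^ 2 :=
      Finset.sum_pos' (fun g _ => mul_nonneg (Int.natCast_nonneg _) (sq_nonneg _))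
        ⟨1, Finset.mem_univ _, by
          rw [hπ1]; exact mul_pos (by omega) (pow_pos (by omega) 2)⟩
    rw [sR] at h1
    nlinarith
  have hΨΦ : ∀ g, Ψ g * Φ g = N * (π g * (π g - 2) ^ 2) := by
    intro g
    simp only [Ψ, Φ]
    split_ifs with h
    · have : π g = 0 := by simp [π, S.fix_singular h]
      rw [this]; ring
    · ring
  have hπle : ∀ g : G, g ≠ 1 → π g ≤ (A : ℤ) := by
    intro g hg
    have hle : fix Ω g < 3 * p := by
      rw [fix, ← S.card_points, Nat.card_coe_set_eq]
      refine (Set.ncard_lt_card ?_)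
      intro h
      exact hg (FaithfulSMul.eq_of_smul_eq_smul (α := Ω) fun x => by
        rw [one_smul]; exact (Set.eq_univ_iff_forall.1 h x))
    simp only [π]
    omega
  have sΦΦ : ∑ g, Φ g * Φ g ≤ A * (r * n) + n := by
    have key : ∀ g, Φ g * Φ g ≤ A * (π g * (π g - 2) ^ 2) +
        (if g = 1 then 3 * (p : ℤ) * (3 * p - 2) ^ 2 else 0) := by
      intro g
      split_ifs with h
      · subst h
        simp only [Φ, hπ1]
        have : (A : ℤ) = 3 * p - 1 := by omega
        rw [this]; exact le_of_eq (by ring)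
      · rw [add_zero]
        have h0 : 0 ≤ π g * (π g - 2) ^ 2 := mul_nonneg (Int.natCast_nonneg _) (sq_nonneg _)
        calc Φ g * Φ g = π g * (π g * (π g - 2) ^ 2) := by simp only [Φ]; ring
          _ ≤ A * (π g * (π g - 2) ^ 2) := mul_le_mul_of_nonneg_right (hπle g h) h0
    refine (Finset.sum_le_sum fun g _ => key g).trans ?_
    rw [Finset.sum_add_distrib, ← Finset.mul_sum, sR, Finset.sum_ite_eq' Finset.univ (1 : G),
      if_pos (Finset.mem_univ _)]
    have hAi : (3 : ℤ) * p - 2 = ((A - 1 : ℕ) : ℤ) := by omega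
    have : 3 * p * (A - 1) ^ 2 ≤ Nat.card G := by
      rw [hcard, pow_two, mul_assoc (3 * p)]
      exact Nat.mul_le_mul_left _ (Nat.mul_le_mul (by omega) hd3)
    rw [hAi, hn]
    gcongr
    exact_mod_cast this
  -- Cauchy-Schwarz
  let ind : G → ℤ := fun g => if g ∈ S0 then 1 else 0
  set k : ℤ := (S0.card : ℤ) with hk
  have sInd : ∀ F : G → ℤ, ∀ z, (∀ g ∈ S0, F g = z) → ∑ g, ind g * F g = z * k := by
    intro F z hF
    simp only [ind, ite_mul, one_mul, zero_mul, Finset.sum_ite_mem, Finset.univ_inter]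
    rw [Finset.sum_congr rfl hF, Finset.sum_const, nsmul_eq_mul]
    ring
  have hπS : ∀ g ∈ S0, π g = 1 := fun g hg => by simp [π, heven g (hS0e g hg)]
  have hΨS : ∀ g ∈ S0, Ψ g = -N := fun g hg => by
    simp only [Ψ]
    rw [if_neg fun h => ?_, hπS g hg]
    · ring
    · have := hS0e g hg
      rw [S.orderOf_singular h] at this
      exact Nat.not_even_iff_odd.2 S.p_odd this
  have i1 := sInd (fun _ => 1) 1 (fun _ _ => rfl)
  have iX := sInd (fun g => π g - 1) 0 (fun g hg => by simp [hπS g hg])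
  have iY := sInd Ψ (-N) hΨS
  have iF := sInd Φ (-1) (fun g hg => by simp [Φ, hπS g hg])
  simp only [mul_one] at i1
  let u : G → ℤ := fun g => A * ind g - J + J * Ψ g
  let v : G → ℤ := fun g => Φ g - r * (π g - 1) - r * Ψ g
  have hind2 : ∀ g, ind g * ind g = ind g := fun g => by simp [ind]
  simp only [mul_one, zero_mul] at sX sY sXY
  have sΨΦ : ∑ g, Ψ g * Φ g = N * (r * n) := by
    rw [Finset.sum_congr rfl fun g _ => hΨΦ g, ← Finset.mul_sum, sR]
  have hkA : k * A = n * J := by rw [hk, hn]; exact_mod_cast hS0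
  have suv : ∑ g, u g * v g = n * J * (r * N - 1) := by
    have e : ∀ g, u g * v g = A * (ind g * Φ g) - r * A * (ind g * (π g - 1))
        - r * A * (ind g * Ψ g) - J * Φ g + r * J * (π g - 1) + r * J * Ψ g
        + J * (Ψ g * Φ g) - r * J * ((π g - 1) * Ψ g) - r * J * (Ψ g * Ψ g) := fun g => by
      simp only [u, v]; ring
    simp only [e, Finset.sum_sub_distrib, Finset.sum_add_distrib, ← Finset.mul_sum, iF, iX, iY,
      sΦ, sY, sXY, sΨΦ, sYY]
    rw [Finset.sum_sub_distrib] at sX
    simp only [sX]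
    linear_combination (r * N - 1) * hkA
  have suu : ∑ g, u g * u g = n * (J * (A - J * (N + 1))) := by
    have e : ∀ g, u g * u g = A * A * (ind g * ind g) + J * J * 1 + J * J * (Ψ g * Ψ g)
        - 2 * A * J * ind g + 2 * A * J * (ind g * Ψ g) - 2 * J * J * Ψ g := fun g => by
      simp only [u]; ring
    simp only [e, hind2, Finset.sum_sub_distrib, Finset.sum_add_distrib, ← Finset.mul_sum, hcG,
      i1, iY, sY, sYY]
    linear_combination (A - 2 * J - 2 * N * J) * hkA
  have svv : ∑ g, v g * v g ≤ n * (r * A + 1 - r ^ 2 * (N + 1)) := by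
    have e : ∀ g, v g * v g = Φ g * Φ g + r * r * ((π g - 1) * (π g - 1))
        + r * r * (Ψ g * Ψ g) - 2 * r * (Φ g * (π g - 1)) - 2 * r * (Ψ g * Φ g)
        + 2 * r * r * ((π g - 1) * Ψ g) := fun g => by
      simp only [v]; ring
    simp only [e, Finset.sum_sub_distrib, Finset.sum_add_distrib, ← Finset.mul_sum, sXX, sYY,
      sΦX, sΨΦ, sXY]
    linear_combination sΦΦ
  have hv0 : 0 ≤ r * A + 1 - r ^ 2 * (N + 1) := by
    have : 0 ≤ ∑ g, v g * v g := Finset.sum_nonneg fun g _ => mul_self_nonneg _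
    nlinarith
  have hJ0 : 0 < (J : ℤ) := by
    rw [hJ]; exact_mod_cast Nat.mul_pos hjodd.pos hm.pos
  have hu0 : 0 ≤ (A : ℤ) - J * (N + 1) := by
    have h1 : 0 ≤ ∑ g, u g * u g := Finset.sum_nonneg fun g _ => mul_self_nonneg _
    rw [suu] at h1
    have h2 := (mul_nonneg_iff_of_pos_left hn0).1 h1
    exact (mul_nonneg_iff_of_pos_left hJ0).1 h2
  have hcs : (J : ℤ) * (r * N - 1) ^ 2 ≤
      ((A : ℤ) - J * (N + 1)) * (r * A + 1 - r ^ 2 * (N + 1)) := by
    have h1 : (∑ g, u g * v g) ^ 2 ≤ (∑ g, u g ^ 2) * ∑ g, v g ^ 2 :=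
      Finset.sum_mul_sq_le_sq_mul_sq _ u v
    simp only [pow_two (u _), pow_two (v _)] at h1
    rw [suv, suu] at h1
    have h2 := h1.trans (mul_le_mul_of_nonneg_left svv
      (mul_nonneg hn0.le (mul_nonneg hJ0.le hu0)))
    refine le_of_mul_le_mul_left ?_ (show 0 < n * n * J by positivity)
    linarith
  have hJ4 : J ≤ 4 := by
    by_contra h
    have hAi : (A : ℤ) = 6 * N + 2 := by omega
    rw [hAi] at hcs hv0
    exact TwoA.not_cauchy (by omega) hr1 (by omega) hv0 hcs
  have hm1 : m = 1 := by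
    have h1 : m ≤ J := hJ ▸ Nat.le_mul_of_pos_left m hjodd.pos
    obtain ⟨i, hi⟩ := hm
    rcases i with _ | _ | i
    · omega
    · exfalso
      have h3 : 3 ∣ A := ⟨2 ^ e, by rw [hAm, hi]; ring⟩
      omega
    · omega
  have hJ3 : J ≤ 3 := by
    have : Odd J := hJ ▸ hjodd.mul hm
    obtain ⟨i, hi⟩ := this
    omega
  -- the group lemma in the centraliser
  have hKa : ∀ g : K, (g : G) • a = a := by
    intro g
    have h1 := hfix t ht
    rw [fix, Nat.card_eq_one_iff_unique] at h1
    have hm' : (g : G) • a ∈ fixedBy Ω t := by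
      show t • (g : G) • a = (g : G) • a
      rw [← mul_smul, ← mem_centralizer_singleton_iff.1 g.2, mul_smul, ha]
    exact congrArg Subtype.val (@Subsingleton.elim _ h1.1 ⟨_, hm'⟩ ⟨a, ha⟩)
  set M := stabilizer K b with hM
  have hMmul := M.card_mul_index
  rw [hKc, hκc] at hMmul
  have hidx : M.index ≤ A := by
    rw [hM, MulAction.index_stabilizer, ← hcompl]
    refine Set.ncard_le_ncard ?_ (Set.toFinite _)
    rintro _ ⟨g, rfl⟩ h
    exact hba (smul_left_cancel (g : G) ((h : (g : G) • b = a).trans (hKa g).symm))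
  have hModd : Odd (Nat.card M) := by
    rw [← Subgroup.card_map_of_injective (K := M) (f := K.subtype) (Subgroup.subtype_injective _)]
    refine hoddsub _ a b hba.symm ?_
    rintro _ ⟨g, hg, rfl⟩
    exact ⟨hKa g, hg⟩
  have hodd_dvd : ∀ H : Subgroup K, Odd (Nat.card H) → Nat.card H ∣ κ := by
    intro H hH
    have h1 := Subgroup.card_subgroup_dvd_card H
    rw [hKc, hκc, hAm, hm1, mul_one] at h1
    exact (Nat.Coprime.pow_right e (Nat.coprime_two_right.2 hH)).dvd_of_dvd_mul_left h1
  have hMc : Nat.card M = κ := by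
    refine le_antisymm (Nat.le_of_dvd hκodd.pos (hodd_dvd M hModd)) ?_
    by_contra h
    have : Nat.card M * M.index < A * κ := by
      rw [mul_comm A]
      exact Nat.mul_lt_mul_of_lt_of_le (by omega) hidx (by omega)
    omega
  have hidx' : M.index = A := by
    rw [hMc, mul_comm A] at hMmul
    exact Nat.eq_of_mul_eq_mul_left hκodd.pos hMmul
  have horb : orbit K b = ({a} : Set Ω)ᶜ := by
    refine Set.eq_of_subset_of_ncard_le ?_ (by rw [hcompl, ← MulAction.index_stabilizer, ← hM, hidx'])
    rintro _ ⟨g, rfl⟩ h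
    exact hba (smul_left_cancel (g : G) ((h : (g : G) • b = a).trans (hKa g).symm))
  have hcore : M.normalCore = ⊥ := by
    rw [eq_bot_iff]
    intro x hx
    rw [Subgroup.mem_bot]
    refine Subtype.ext (FaithfulSMul.eq_of_smul_eq_smul (α := Ω) fun q => ?_)
    rw [OneMemClass.coe_one, one_smul]
    by_cases hq : q = a
    · rw [hq]; exact hKa x
    · obtain ⟨g, rfl⟩ : q ∈ orbit K b := horb ▸ hq
      have h1 : (g⁻¹ * x * g⁻¹⁻¹) • b = b := hx g⁻¹
      rw [inv_inv, mul_smul, mul_smul, inv_smul_eq_iff] at h1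
      exact h1
  have hκ3 : κ = 3 := by
    have h1 := TwoA.card_le_three hMc hκodd hodd_dvd hcore (by
      rw [← hU, hJU]; exact Nat.mul_le_mul_right _ hJ3)
    have := Nat.le_of_dvd hκodd.pos h3κ
    omega
  -- Sylow
  set P : Sylow p G := default
  have h1 := card_sylow_modEq_one p G
  rw [Sylow.card_eq_index_normalizer P] at h1
  have h2 := (normalizer ((P : Subgroup G) : Set G)).card_mul_index
  rw [(S.sylow P).2.2] at h2
  set i := (normalizer ((P : Subgroup G) : Set G)).index
  have h3 : 2 * i = 3 * A * d := by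
    refine Nat.eq_of_mul_eq_mul_left S.p_pos ?_
    linarith [hcard]
  have h4 : 3 * d = 9 * (A - 1) := by rw [hκd, hκ3]; norm_num
  have h5' : 2 * i + 9 * A = 9 * A * A := by
    rw [h3, show 3 * A * d = A * (3 * d) by ring, h4]
    obtain ⟨A', rfl⟩ : ∃ A', A = A' + 1 := ⟨A - 1, by omega⟩
    simp only [Nat.add_sub_cancel]; ring
  have hz1 : ((2 * i + 9 * A : ℕ) : ZMod p) = ((9 * A * A : ℕ) : ZMod p) := by rw [h5']
  have h1' := (ZMod.natCast_eq_natCast_iff _ _ _).2 h1
  rw [Nat.cast_one] at h1'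
  have hzi : (i : ZMod p) = 1 := h1'
  have hzA : (A : ZMod p) = -1 := by
    have : ((A + 1 : ℕ) : ZMod p) = 0 := by
      rw [CharP.cast_eq_zero_iff (ZMod p) p]
      exact ⟨3, by omega⟩
    push_cast at this
    linear_combination this
  push_cast at hz1
  rw [hzi, hzA] at hz1
  have hz2 : ((16 : ℕ) : ZMod p) = 0 := by push_cast; linear_combination -hz1
  rw [CharP.cast_eq_zero_iff (ZMod p) p] at hz2
  have := S.prime.dvd_of_dvd_pow (show p ∣ 2 ^ 4 from hz2)
  have := Nat.le_of_dvd two_pos this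
  omega

end Cfsg.Agent.DegThreeP
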