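import Cfsg.Agent.DegThreeP.Basic
import Cfsg.Agent.Char.PermChar
import Cfsg.Agent.Lib.FrobeniusCount
import Cfsg.Agent.Invol.Counting
import Mathlib

/-!
# Simple groups of degree `3p`: the 2-transitive case `f = 3p - 1`, `a = 2`, `p ≡ 1 (mod 4)`
-/

set_option autoImplicit false
set_option linter.all false

noncomputable section

namespace Cfsg.Agent.DegThreeP

open Cfsg Subgroup MulAction
open scoped Classical ComplexConjugate

universe u v

variable {G : Type u} [Group G] [Fintype G] {Ω : Type v} [Fintype Ω] [MulAction G Ω] {p : ℕ}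

namespace TwoB

theorem fix_invol {f : ℕ} (C : Chars G p f) {c : ℕ} (I : Invol C 2 c)
    (hπ : ∀ g, (fix Ω g : ℂ) = 1 + (C.X : G → ℂ) g) {t : G} (ht : orderOf t = 2) :
    fix Ω t = 3 := by
  have h := hπ t
  rw [I.X_val t ht] at h
  have h2 : (fix Ω t : ℂ) = ((3 : ℕ) : ℂ) := by rw [h]; norm_num
  exact_mod_cast h2

theorem two_transitive (S : Setup G Ω p) {f : ℕ} (C : Chars G p f)
    (hπ : ∀ g, (fix Ω g : ℂ) = 1 + (C.X : G → ℂ) g) :
    ∀ a b a' b' : Ω, a ≠ b → a' ≠ b' → ∃ g : G, g • a = a' ∧ g • b = b' := by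
  haveI := S.prim
  have hX : 2 ≤ Nat.card Ω := by rw [S.card_points]; have := S.three_lt; omega
  have hirr : IsIrrCharacter G (fun g => Char.permChar Ω g - 1) := by
    have : (fun g => Char.permChar Ω g - 1) = (C.X : G → ℂ) := funext fun g => by
      show (fix Ω g : ℂ) - 1 = _
      rw [hπ]; ring
    rw [this]
    exact C.X.2
  have h := (Char.isIrrCharacter_permChar_sub_one_iff Ω hX).1 hirr
  intro a b a' b' h1 h2
  exact MulAction.is_two_pretransitive_iff.1 h h1 h2

theorem pair_orbit (S : Setup G Ω p) {f : ℕ} (C : Chars G p f)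
    (hπ : ∀ g, (fix Ω g : ℂ) = 1 + (C.X : G → ℂ) g) {a b : Ω} (hab : a ≠ b) :
    (stabilizer G (a, b)).index = 3 * p * (3 * p - 1) := by
  rw [MulAction.index_stabilizer]
  have horb : (orbit G (a, b) : Set (Ω × Ω)) = {q | q.1 ≠ q.2} := by
    ext ⟨q, r⟩
    constructor
    · rintro ⟨g, hg⟩ he
      obtain ⟨h1, h2⟩ := Prod.ext_iff.1 hg
      simp only [Prod.smul_mk] at h1 h2
      exact hab (MulAction.injective g (h1.trans (he.trans h2.symm)))
    · intro hqr
      obtain ⟨g, h1, h2⟩ := two_transitive S C hπ a b q r hab hqr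
      exact ⟨g, Prod.ext h1 h2⟩
  rw [horb, Set.ncard_eq_toFinset_card']
  have : ({q : Ω × Ω | q.1 ≠ q.2} : Set (Ω × Ω)).toFinset = (Finset.univ : Finset Ω).offDiag := by
    ext q; simp
  rw [this, Finset.offDiag_card, Finset.card_univ, ← Nat.card_eq_fintype_card, S.card_points,
    Nat.mul_sub, mul_one]

/-- The Sylow 2-subgroups have order dividing `6 (p - 1)`. -/
theorem sylow_dvd (S : Setup G Ω p) {f : ℕ} (C : Chars G p f) {c : ℕ} (I : Invol C 2 c)
    (hπ : ∀ g, (fix Ω g : ℂ) = 1 + (C.X : G → ℂ) g) :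
    ∃ (T : Sylow 2 G) (z : G), orderOf z = 2 ∧
      (T : Subgroup G) ≤ centralizer ({z} : Set G) ∧ Nat.card T ∣ 2 * (3 * p - 3) := by
  haveI : Fact (Nat.Prime 2) := ⟨Nat.prime_two⟩
  have hp3 := S.three_lt
  have hpo := S.p_odd
  set T : Sylow 2 G := default
  set T' := (T : Subgroup G) with hT'
  obtain ⟨t₀, ht₀⟩ := I.exists_invol
  have hTn : Nontrivial T' := by
    rw [← Finite.one_lt_card_iff_nontrivial]
    have h2 : 2 ^ 1 ∣ Nat.card G := by rw [pow_one, ← ht₀]; exact orderOf_dvd_natCard t₀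
    have := T.pow_dvd_card_of_pow_dvd_card h2
    have := Nat.le_of_dvd Nat.card_pos this
    show 1 < Nat.card T
    omega
  haveI := hTn
  have hcn := T.2.center_nontrivial
  have h2c : 2 ∣ Nat.card (center T') := by
    haveI := hcn
    obtain ⟨n, hcard⟩ := IsPGroup.iff_card.1 (T.2.to_subgroup (center T'))
    rw [hcard]
    refine dvd_pow_self 2 fun h0 => ?_
    have h1 := Finite.one_lt_card (α := center T')
    rw [hcard, h0, pow_zero] at h1
    omega
  obtain ⟨z', hz'⟩ := exists_prime_orderOf_dvd_card' (G := center T') 2 h2c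
  set z : G := ((z' : T') : G) with hzdef
  have hz : orderOf z = 2 := by rw [hzdef, Subgroup.orderOf_coe, Subgroup.orderOf_coe, hz']
  have hzT : ∀ g ∈ T', g * z = z * g := fun g hg =>
    congrArg Subtype.val (mem_center_iff.1 z'.2 ⟨g, hg⟩)
  refine ⟨T, z, hz, fun g hg => mem_centralizer_singleton_iff.2 (hzT g hg), ?_⟩
  -- the three fixed points
  obtain ⟨a, ha⟩ : (fixedPoints T' Ω).Nonempty := by
    have h := T.2.card_modEq_card_fixedPoints Ω
    rw [S.card_points] at h
    rw [Set.nonempty_iff_ne_empty]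
    intro h0
    rw [h0] at h
    have hodd : Odd (3 * p) := (by decide : Odd 3).mul hpo
    have h' : 3 * p % 2 = 0 := by
      have := h
      simpa [Nat.ModEq] using this
    rw [Nat.odd_iff] at hodd
    omega
  set F : Finset Ω := Finset.univ.filter fun q => z • q = q with hF
  have hfix_eq : ∀ g : G, (Finset.univ.filter fun q : Ω => g • q = q).card = fix Ω g := fun g => by
    rw [fix, Nat.card_eq_fintype_card, ← Set.toFinset_card]
    congr 1
    ext q; simp
  have hF3 : F.card = 3 := (hfix_eq z).trans (fix_invol C I hπ hz)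
  have hzmem : z ∈ T' := (z' : T').2
  have haF : a ∈ F := by simp [F]; exact ha ⟨z, hzmem⟩
  have hmove : ∀ g ∈ T', ∀ q ∈ F, g • q ∈ F := fun g hg q hq => by
    simp only [F, Finset.mem_filter, Finset.mem_univ, true_and] at hq ⊢
    rw [← mul_smul, ← hzT g hg, mul_smul, hq]
  have hE : (F.erase a).card = 2 := by rw [Finset.card_erase_of_mem haF, hF3]
  obtain ⟨b, b', hbb', hEe⟩ := Finset.card_eq_two.1 hE
  have hb : b ∈ F.erase a := by rw [hEe]; simp
  have hb' : b' ∈ F.erase a := by rw [hEe]; simp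
  obtain ⟨hba, hbF⟩ := Finset.mem_erase.1 hb
  obtain ⟨hb'a, hb'F⟩ := Finset.mem_erase.1 hb'
  set Tb : Subgroup T' := stabilizer T' b with hTb
  -- index two
  have hidx : Tb.index = 2 := by
    rw [hTb, MulAction.index_stabilizer]
    have hsub : orbit T' b ⊆ ↑(F.erase a) := by
      rintro _ ⟨g, rfl⟩
      refine Finset.mem_erase.2 ⟨fun h => hba ?_, hmove g g.2 b hbF⟩
      exact MulAction.injective (g : G) (h.trans (ha g).symm)
    have hle : (orbit T' b).ncard ≤ 2 := by
      have := Set.ncard_le_ncard hsub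
      rwa [Set.ncard_coe_finset, hE] at this
    have hne : (orbit T' b).ncard ≠ 1 := by
      intro h1
      obtain ⟨x, hx⟩ := Set.ncard_eq_one.1 h1
      have hbx : b = x := by
        have := mem_orbit_self (M := T') b
        rwa [hx] at this
      have hle : T' ≤ stabilizer G (a, b) := fun g hg => by
        have h2 : (⟨g, hg⟩ : T') • b ∈ orbit T' b := mem_orbit b _
        rw [hx, Set.mem_singleton_iff, ← hbx] at h2
        exact Prod.ext (ha ⟨g, hg⟩) h2
      have hd : (stabilizer G (a, b)).index ∣ T'.index := Subgroup.index_dvd_of_le hle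
      rw [pair_orbit S C hπ (Ne.symm hba)] at hd
      refine T.not_dvd_index ((Dvd.dvd.mul_left ?_ (3 * p)).trans hd)
      obtain ⟨j, rfl⟩ := hpo
      exact ⟨3 * j + 1, by omega⟩
    have hpos : 0 < (orbit T' b).ncard := (Set.ncard_pos).2 ⟨b, mem_orbit_self b⟩
    omega
  have hcard : Nat.card T = Nat.card Tb * 2 := by
    have := Tb.card_mul_index
    rw [hidx] at this
    exact this.symm
  -- every nontrivial element of `Tb` fixes exactly `F`
  have hfixTb : ∀ g : Tb, g ≠ 1 → fix Ω ((g : T') : G) = 3 := by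
    intro g hg
    set g' : G := ((g : T') : G) with hg'
    have hg1 : g' ≠ 1 := fun h => hg (Subtype.ext (Subtype.ext h))
    have hgb : g' • b = b := g.2
    have hga : g' • a = a := ha g
    have hFfix : F ⊆ Finset.univ.filter fun q : Ω => g' • q = q := by
      intro q hq
      simp only [Finset.mem_filter, Finset.mem_univ, true_and]
      rcases eq_or_ne q a with rfl | hqa
      · exact hga
      have hq' : q ∈ F.erase a := Finset.mem_erase.2 ⟨hqa, hq⟩
      rw [hEe] at hq'
      simp only [Finset.mem_insert, Finset.mem_singleton] at hq'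
      rcases hq' with rfl | rfl
      · exact hgb
      have h2 : g' • q ∈ F.erase a := Finset.mem_erase.2
        ⟨fun h => hqa (MulAction.injective g' (h.trans hga.symm)), hmove g' (g : T').2 q hq⟩
      rw [hEe] at h2
      simp only [Finset.mem_insert, Finset.mem_singleton] at h2
      exact h2.resolve_left fun h => hbb' (MulAction.injective g' (h.trans hgb.symm)).symm
    refine le_antisymm ?_ (by rw [← hfix_eq, ← hF3]; exact Finset.card_le_card hFfix)
    obtain ⟨n, hn⟩ := T.2 (g : T')
    have hn' : g' ^ (2 ^ n) = 1 := by rw [hg', ← SubgroupClass.coe_pow, hn]; rfl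
    obtain ⟨m, -, hm⟩ := (Nat.dvd_prime_pow Nat.prime_two).1 (orderOf_dvd_of_pow_eq_one hn')
    obtain ⟨m', rfl⟩ : ∃ m', m = m' + 1 := by
      refine ⟨m - 1, ?_⟩
      rcases Nat.eq_zero_or_pos m with rfl | h
      · exact absurd (orderOf_eq_one_iff.1 (by simpa using hm)) hg1
      · omega
    have hu : orderOf (g' ^ (2 ^ m')) = 2 := by
      rw [orderOf_pow' _ (by positivity), hm]
      rw [Nat.gcd_eq_right (pow_dvd_pow 2 (Nat.le_succ m')), pow_succ,
        Nat.mul_div_cancel_left _ (by positivity)]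
    rw [← fix_invol C I hπ hu, ← hfix_eq, ← hfix_eq]
    refine Finset.card_le_card fun q hq => ?_
    simp only [Finset.mem_filter, Finset.mem_univ, true_and] at hq ⊢
    have : g' ∈ stabilizer G q := hq
    exact Subgroup.pow_mem _ this _
  have hb := MulAction.sum_card_fixedBy_eq_card_orbits_mul_card_group Tb Ω
  have hterm : ∀ g : Tb, Fintype.card (fixedBy Ω g) = if g = 1 then 3 * p else 3 := by
    intro g
    split_ifs with h
    · subst h
      rw [← S.card_points, ← Nat.card_eq_fintype_card]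
      exact Nat.card_congr (Equiv.subtypeUnivEquiv fun q => one_smul _ q)
    · rw [← hfixTb g h, fix, Nat.card_eq_fintype_card]
      exact Fintype.card_congr (Equiv.refl _)
  rw [Finset.sum_congr rfl fun g _ => hterm g, Finset.sum_ite, Finset.sum_const, Finset.sum_const,
    smul_eq_mul, smul_eq_mul, Finset.filter_eq', if_pos (Finset.mem_univ _), Finset.card_singleton,
    Finset.filter_ne', Finset.card_erase_of_mem (Finset.mem_univ _), Finset.card_univ, one_mul] at hb
  rw [hcard, ← Nat.card_eq_fintype_card] at *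
  rw [mul_comm 2]
  refine mul_dvd_mul_right ?_ 2
  have hpos : 0 < Nat.card Tb := Nat.card_pos
  have h3 : 3 * p - 3 + 3 * Nat.card Tb =
      Fintype.card (orbitRel.Quotient Tb Ω) * Nat.card Tb := by
    rw [← hb]
    have : (Nat.card Tb - 1) * 3 + 3 = 3 * Nat.card Tb := by omega
    omega
  exact (Nat.dvd_add_left (dvd_mul_left (Nat.card Tb) 3)).1 (h3 ▸ dvd_mul_left _ _)

/-- Orthogonality, unnormalised. -/
theorem sum_irr_mul (χ ψ : IrrCharacter G) :
    ∑ g : G, (χ : G → ℂ) g * conj ((ψ : G → ℂ) g) = if χ = ψ then (Nat.card G : ℂ) else 0 := by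
  have h : (Nat.card G : ℂ)⁻¹ * ∑ g : G, (χ : G → ℂ) g * conj ((ψ : G → ℂ) g) =
      if χ = ψ then 1 else 0 := Char.classInner_irrCharacter χ ψ
  have hne : (Nat.card G : ℂ) ≠ 0 := Nat.cast_ne_zero.2 Nat.card_pos.ne'
  split_ifs at h ⊢ with he
  · rwa [inv_mul_eq_iff_eq_mul₀ hne, mul_one] at h
  · exact (mul_eq_zero.1 h).resolve_left (inv_ne_zero hne)

theorem bessel (S : Setup G Ω p) {f : ℕ} (C : Chars G p f) (A : Finset G)
    (hA : ∀ x ∈ A, ¬ p ∣ orderOf x ∧ ((C.X : G → ℂ) x = 2 ∨ (C.X : G → ℂ) x = -1)) :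
    A.card * (36 * ((p - 1) / 2) ^ 2) ≤
      Nat.card G * (2 * ((p - 1) / 2) ^ 2 + 9 * ((p - 1) / 2)) := by
  set N := (p - 1) / 2 with hN
  let e : IrrCharacter G := Char.trivialIrr G
  have heX : e ≠ C.X := fun h => C.X_ne (congrArg Subtype.val h).symm
  have heY : e ∉ C.Y := fun h => C.one_not_mem e h rfl
  set s : Finset (IrrCharacter G) := insert e (insert C.X C.Y) with hs
  let k : IrrCharacter G → ℕ := fun ξ => if ξ ∈ C.Y then 3 else N
  let v : G → ℂ := fun g => ∑ ξ ∈ s, (k ξ : ℂ) * (ξ : G → ℂ) g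
  have hnotin : e ∉ insert C.X C.Y := by simp [heX, heY]
  have hv : ∀ g, v g = (N : ℂ) + N * (C.X : G → ℂ) g + 3 * ∑ ψ ∈ C.Y, (ψ : G → ℂ) g := by
    intro g
    simp only [v, s]
    rw [Finset.sum_insert hnotin, Finset.sum_insert C.X_not_mem, Finset.mul_sum]
    rw [show k e = N from if_neg heY, show k C.X = N from if_neg C.X_not_mem,
      Finset.sum_congr rfl fun ψ hψ => by rw [show k ψ = 3 from if_pos hψ]]
    show (N : ℂ) * 1 + _ = _
    push_cast
    ring
  have hnorm : ∑ g : G, v g * conj (v g) =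
      ((Nat.card G * (2 * N ^ 2 + 9 * N) : ℕ) : ℂ) := by
    calc ∑ g : G, v g * conj (v g)
        = ∑ ξ ∈ s, ∑ η ∈ s, ((k ξ : ℂ) * k η) *
            ∑ g : G, (ξ : G → ℂ) g * conj ((η : G → ℂ) g) := by
          simp only [v, map_sum, map_mul, Complex.conj_natCast, Finset.sum_mul_sum]
          simp only [Finset.mul_sum]
          rw [Finset.sum_comm]
          refine Finset.sum_congr rfl fun ξ _ => ?_
          rw [Finset.sum_comm]
          refine Finset.sum_congr rfl fun η _ => ?_
          exact Finset.sum_congr rfl fun g _ => by ring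
      _ = ∑ ξ ∈ s, ((k ξ : ℂ) * k ξ) * (Nat.card G : ℂ) := by
          refine Finset.sum_congr rfl fun ξ hξ => ?_
          simp only [sum_irr_mul, mul_ite, mul_zero]
          rw [Finset.sum_ite_eq, if_pos hξ]
      _ = _ := by
          simp only [s]
          rw [Finset.sum_insert hnotin, Finset.sum_insert C.X_not_mem,
            show k e = N from if_neg heY, show k C.X = N from if_neg C.X_not_mem,
            Finset.sum_congr rfl fun ψ hψ => by rw [show k ψ = 3 from if_pos hψ],
            Finset.sum_const, C.card_Y, ← hN, nsmul_eq_mul]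
          push_cast
          ring
  have hnorm' : ∑ g : G, Complex.normSq (v g) = ((Nat.card G * (2 * N ^ 2 + 9 * N) : ℕ) : ℝ) := by
    have h := congrArg Complex.re hnorm
    simp only [Complex.re_sum, Complex.mul_conj, Complex.ofReal_re, Complex.natCast_re] at h
    exact h
  have hval : ∀ x ∈ A, Complex.normSq (v x) = ((36 * N ^ 2 : ℕ) : ℝ) := by
    intro x hx
    obtain ⟨hreg, hX⟩ := hA x hx
    have hY : ∑ ψ ∈ C.Y, (ψ : G → ℂ) x = (N : ℂ) * ((C.X : G → ℂ) x - 1) := by
      rw [Finset.sum_congr rfl fun ψ hψ => C.Y_regular ψ hψ x hreg, Finset.sum_const, C.card_Y,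
        nsmul_eq_mul]
    rcases hX with h | h
    · have : v x = ((6 * N : ℕ) : ℂ) := by rw [hv, hY, h]; push_cast; ring
      rw [this, Complex.normSq_natCast]; push_cast; ring
    · have : v x = -((6 * N : ℕ) : ℂ) := by rw [hv, hY, h]; push_cast; ring
      rw [this, Complex.normSq_neg, Complex.normSq_natCast]; push_cast; ring
  have hle : ∑ x ∈ A, Complex.normSq (v x) ≤ ∑ g : G, Complex.normSq (v g) :=
    Finset.sum_le_sum_of_subset_of_nonneg (Finset.subset_univ A)
      (fun g _ _ => Complex.normSq_nonneg _)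
  rw [hnorm', Finset.sum_congr rfl hval, Finset.sum_const, nsmul_eq_mul, ← Nat.cast_mul] at hle
  exact_mod_cast hle

/-- `p` is `5`. -/
theorem p_eq_five (S : Setup G Ω p) {f : ℕ} (C : Chars G p f) {c o g : ℕ} (I : Invol C 2 c)
    (hπ : ∀ g, (fix Ω g : ℂ) = 1 + (C.X : G → ℂ) g) (hp : p % 4 = 1)
    (hG : Nat.card G = 8 * g) (hc : c = 8 * o) (hgo : Odd g) : p = 5 := by
  haveI := Fact.mk S.prime
  by_contra hne
  have hp5 := S.five_le
  obtain ⟨t, ht⟩ := I.exists_invol
  have hog : o ∣ g := by
    have hcd : c ∣ Nat.card G := by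
      rw [← I.card_centralizer t ht]; exact Subgroup.card_subgroup_dvd_card _
    rw [hc, hG] at hcd
    exact Nat.dvd_of_mul_dvd_mul_left (by norm_num) hcd
  have hpg : p ∣ g := by
    obtain ⟨x, -, hx, -⟩ := S.exists_inverted
    have h := orderOf_dvd_natCard x
    rw [hx, hG] at h
    refine ((Nat.Prime.dvd_mul S.prime).1 h).resolve_left fun h8 => ?_
    have : p ∣ 2 := S.prime.dvd_of_dvd_pow (show p ∣ 2 ^ 3 from h8)
    have := Nat.le_of_dvd two_pos this
    omega
  set A : Finset G := Finset.univ.filter fun x => orderOf (x ^ g) = 2 with hAdef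
  have hval : ∀ x ∈ A, ¬ p ∣ orderOf x ∧ ((C.X : G → ℂ) x = 2 ∨ (C.X : G → ℂ) x = -1) := by
    intro x hx
    simp only [A, Finset.mem_filter, Finset.mem_univ, true_and] at hx
    refine ⟨fun hd => ?_, ?_⟩
    · have h1 : x ^ g = 1 := orderOf_dvd_iff_pow_eq_one.1 (by rw [S.orderOf_singular hd]; exact hpg)
      rw [h1, orderOf_one] at hx
      omega
    set u := x ^ g with hu
    set y := x * u with hy
    have hxu : Commute x u := (Commute.refl x).pow_right g
    have hu2 : u * u = 1 := by rw [← sq, ← hx, pow_orderOf_eq_one]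
    have hyg : y ^ g = 1 := by
      rw [hy, hxu.mul_pow, ← hu]
      obtain ⟨j, hj⟩ := hgo
      conv_lhs => rw [hj, pow_succ, pow_mul, sq, hu2, one_pow, one_mul, hu2]
    set F : Finset Ω := Finset.univ.filter fun q => u • q = q with hF
    have hfix_eq : ∀ w : G, (Finset.univ.filter fun q : Ω => w • q = q).card = fix Ω w := fun w => by
      rw [fix, Nat.card_eq_fintype_card, ← Set.toFinset_card]
      congr 1
      ext q; simp
    have hF3 : F.card = 3 := (hfix_eq u).trans (fix_invol C I hπ hx)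
    have hsub : (Finset.univ.filter fun q : Ω => x • q = q) ⊆ F := fun q hq => by
      simp only [F, Finset.mem_filter, Finset.mem_univ, true_and] at hq ⊢
      exact Subgroup.pow_mem (stabilizer G q) hq g
    have hxF : ∀ q ∈ F, x • q ∈ F := fun q hq => by
      simp only [F, Finset.mem_filter, Finset.mem_univ, true_and] at hq ⊢
      rw [← mul_smul, ← hxu.eq, mul_smul, hq]
    have h03 : fix Ω x = 0 ∨ fix Ω x = 3 := by
      rw [← hfix_eq]
      rcases Finset.eq_empty_or_nonempty (Finset.univ.filter fun q : Ω => x • q = q) with h | h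
      · left; rw [h, Finset.card_empty]
      right
      obtain ⟨q, hq⟩ := h
      rw [← hF3]
      congr 1
      refine hsub.antisymm fun r hr => ?_
      simp only [Finset.mem_filter, Finset.mem_univ, true_and] at hq ⊢
      by_contra hne'
      have hqF : q ∈ F := hsub (by simp [hq])
      have hrq : r ≠ q := fun h => hne' (h ▸ hq)
      have hxrq : x • r ≠ q := fun h => hrq (MulAction.injective x (h.trans hq.symm))
      have hE : (F.erase q).card = 2 := by rw [Finset.card_erase_of_mem hqF, hF3]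
      obtain ⟨b, b', -, hEe⟩ := Finset.card_eq_two.1 hE
      have m1 : r ∈ F.erase q := Finset.mem_erase.2 ⟨hrq, hr⟩
      have m2 : x • r ∈ F.erase q := Finset.mem_erase.2 ⟨hxrq, hxF r hr⟩
      have hxxq : x • x • r ≠ q := fun h => hxrq (MulAction.injective x (h.trans hq.symm))
      have m3 : x • x • r ∈ F.erase q := Finset.mem_erase.2 ⟨hxxq, hxF _ (hxF r hr)⟩
      have hxx : x • x • r = r := by
        have h12 : x • x • r ≠ x • r := fun h => hne' (MulAction.injective x h)
        rw [hEe] at m1 m2 m3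
        simp only [Finset.mem_insert, Finset.mem_singleton] at m1 m2 m3
        rcases m1 with h1 | h1 <;> rcases m2 with h2 | h2 <;> rcases m3 with h3 | h3 <;>
          first
          | exact absurd (h2.trans h1.symm) hne'
          | exact absurd (h3.trans h2.symm) h12
          | exact h3.trans h1.symm
      have hur : u • r = r := by
        have := hr
        simpa [F] using this
      rw [hu] at hur
      obtain ⟨j, hj⟩ := hgo
      rw [hj, pow_succ', mul_smul, pow_mul] at hur
      have hj' : ((x ^ 2) ^ j) • r = r := by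
        have : x ^ 2 ∈ stabilizer G r := by
          show (x ^ 2) • r = r
          rw [sq, mul_smul, hxx]
        exact Subgroup.pow_mem _ this j
      rw [hj'] at hur
      exact hne' hur
    rcases h03 with h | h <;> have h' := hπ x <;> rw [h] at h'
    · right; linear_combination (norm := (push_cast; ring_nf)) (-1 : ℂ) * h'
    · left; linear_combination (norm := (push_cast; ring_nf)) (-1 : ℂ) * h'
  -- counting
  have hcount : Nat.card {u : G // IsConj t u} * o ≤ A.card := by
    have hsol : ∀ u : {u : G // IsConj t u},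
        o ≤ Nat.card {y : centralizer ({(u : G)} : Set G) // y ^ o = 1} := by
      intro u
      have hu : orderOf (u : G) = 2 := by
        obtain ⟨h, hh⟩ := isConj_iff.1 u.2
        rw [← hh, Invol.orderOf_conj, ht]
      haveI : Nonempty {y : centralizer ({(u : G)} : Set G) // y ^ o = 1} := ⟨⟨1, one_pow o⟩⟩
      refine Nat.le_of_dvd Nat.card_pos (FrobeniusCount.frobenius ?_)
      rw [I.card_centralizer _ hu, hc]
      exact dvd_mul_left _ _
    let φ : (Σ u : {u : G // IsConj t u}, {y : centralizer ({(u : G)} : Set G) // y ^ o = 1}) → G :=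
      fun q => (q.1 : G) * ((q.2 : centralizer ({(q.1 : G)} : Set G)) : G)
    have hpow : ∀ q, (φ q) ^ g = (q.1 : G) := by
      rintro ⟨⟨u, hu⟩, ⟨⟨y, hy⟩, hyo⟩⟩
      show (u * y) ^ g = u
      have hcm : Commute u y := (mem_centralizer_singleton_iff.1 hy).symm
      have hyo' : y ^ o = 1 := congrArg Subtype.val hyo
      have hu2 : u * u = 1 := by
        obtain ⟨h, hh⟩ := isConj_iff.1 hu
        rw [← sq, ← hh, conj_pow, ← ht, pow_orderOf_eq_one, mul_one, mul_inv_cancel]
      rw [hcm.mul_pow]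
      obtain ⟨d, hd⟩ := hog
      obtain ⟨j, hj⟩ := hgo
      rw [show y ^ g = 1 by rw [hd, pow_mul, hyo', one_pow], mul_one, hj, pow_succ, pow_mul, sq,
        hu2, one_pow, one_mul]
    have hinj : Function.Injective φ := by
      intro q q' h
      have h1 : q.1 = q'.1 := Subtype.ext (by rw [← hpow q, ← hpow q', h])
      obtain ⟨u, y⟩ := q
      obtain ⟨u', y'⟩ := q'
      simp only at h1
      subst h1
      simp only [φ, mul_right_inj] at h
      exact congrArg _ (Subtype.ext (Subtype.ext h))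
    have hmem : ∀ q, φ q ∈ A := fun q => by
      simp only [A, Finset.mem_filter, Finset.mem_univ, true_and, hpow]
      obtain ⟨h, hh⟩ := isConj_iff.1 q.1.2
      rw [← hh, Invol.orderOf_conj, ht]
    rw [← Nat.card_eq_finsetCard]
    refine le_trans ?_ (Nat.card_le_card_of_injective (fun q => (⟨φ q, hmem q⟩ : A))
      fun q q' h => hinj (congrArg Subtype.val h))
    rw [Nat.card_sigma, Nat.card_eq_fintype_card, ← Finset.card_univ, ← smul_eq_mul,
      ← Finset.sum_const]
    exact Finset.sum_le_sum fun u _ => hsol u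
  have hb := (Nat.mul_le_mul_right _ hcount).trans (bessel S C A hval)
  have hcl := Invol.card_isConj_mul t
  rw [I.card_centralizer t ht, hc] at hcl
  rw [← hcl] at hb
  set n := Nat.card {u : G // IsConj t u}
  have hpos : 0 < n * o := by
    refine Nat.pos_of_ne_zero fun h0 => ?_
    have hG0 : 0 < Nat.card G := Nat.card_pos
    rw [← hcl, show n * (8 * o) = 8 * (n * o) by ring, h0] at hG0
    omega
  rw [show n * (8 * o) * (2 * ((p - 1) / 2) ^ 2 + 9 * ((p - 1) / 2)) =
      (n * o) * (8 * (2 * ((p - 1) / 2) ^ 2 + 9 * ((p - 1) / 2))) by ring] at hb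
  have hN := Nat.le_of_mul_le_mul_left hb hpos
  set N := (p - 1) / 2 with hN'
  have : 6 ≤ N := by
    have : p ≠ 9 := fun h => by have := S.prime; rw [h] at this; norm_num at this
    omega
  nlinarith

/-- The case `p = 5`. -/
theorem five (S : Setup G Ω p) {f : ℕ} (C : Chars G p f) {c o g : ℕ} (I : Invol C 2 c)
    (hπ : ∀ g, (fix Ω g : ℂ) = 1 + (C.X : G → ℂ) g) (hp : p = 5)
    (hG : Nat.card G = 8 * g) (hgo : Odd g) (hE : 9 * g = 455 * o ^ 2) : False := by
  haveI := S.faithful
  haveI := S.simple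
  haveI : Fact (Nat.Prime 13) := ⟨by norm_num⟩
  have hΩ : Fintype.card Ω = 15 := by
    rw [← Nat.card_eq_fintype_card, S.card_points, hp]
  obtain ⟨o₁, rfl⟩ : 3 ∣ o := by
    have h : 3 ∣ 455 * o ^ 2 := hE ▸ Dvd.intro (3 * g) (by ring)
    exact Nat.prime_three.dvd_of_dvd_pow
      (((Nat.Coprime.dvd_mul_left (by norm_num : Nat.Coprime 3 455)).1 h))
  have hg : g = 455 * o₁ ^ 2 := by
    have : 9 * g = 9 * (455 * o₁ ^ 2) := by rw [hE]; ring
    omega
  have hcard : Nat.card G = 3640 * (o₁ * o₁) := by rw [hG, hg]; ring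
  set φ := MulAction.toPermHom G Ω
  have hφ : Function.Injective φ := MulAction.toPerm_injective
  have hdvd : Nat.card G ∣ Nat.factorial 15 := by
    have := Subgroup.card_dvd_of_injective φ hφ
    rwa [Nat.card_eq_fintype_card (α := Equiv.Perm Ω), Fintype.card_perm, hΩ] at this
  have h2 : ¬ 2 ∣ o₁ := fun h => by
    rw [hg] at hgo
    exact (Nat.not_even_iff_odd.2 hgo) (even_iff_two_dvd.2 ((h.trans (dvd_pow_self _ two_ne_zero)).mul_left _))
  have h5 : ¬ 5 ∣ o₁ := fun h => by
    haveI := Fact.mk S.prime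
    have h25 : p ^ 2 ∣ Nat.card G := by
      rw [hcard, hp, sq]
      exact (mul_dvd_mul h h).mul_left _
    have := (default : Sylow p G).pow_dvd_card_of_pow_dvd_card h25
    rw [(S.sylow default).1, hp] at this
    norm_num at this
  have hsq : o₁ * o₁ ∣ 56133 := by
    have h : 3640 * (o₁ * o₁) ∣ 3640 * (56133 * (2 ^ 8 * 5 ^ 2)) := by
      rw [← hcard]; norm_num [Nat.factorial] at hdvd ⊢; exact hdvd
    have h' := Nat.dvd_of_mul_dvd_mul_left (by norm_num) h
    have hc2 : Nat.Coprime o₁ 2 := ((Nat.prime_two.coprime_iff_not_dvd).2 h2).symm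
    have hc5 : Nat.Coprime o₁ 5 := (((by norm_num : Nat.Prime 5)).coprime_iff_not_dvd.2 h5).symm
    have hcop : Nat.Coprime (o₁ * o₁) (2 ^ 8 * 5 ^ 2) :=
      Nat.Coprime.mul_right ((hc2.mul hc2).pow_right 8) ((hc5.mul hc5).pow_right 2)
    exact hcop.dvd_of_dvd_mul_right h'
  have hmem : o₁ ∈ ({1, 3, 9, 27} : Finset ℕ) := by
    have hlt : o₁ < 237 := by
      have := Nat.le_of_dvd (by norm_num) hsq
      nlinarith
    exact (by decide +kernel : ∀ x < 237, x * x ∣ 56133 → x ∈ ({1, 3, 9, 27} : Finset ℕ)) _ hlt hsq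
  -- the Sylow 13-subgroup
  set R : Sylow 13 G := default with hR
  have hR13 : Nat.card R = 13 := by
    obtain ⟨a, ha⟩ := IsPGroup.iff_card.1 R.2
    have hd : 13 ^ a ∣ Nat.card G := ha ▸ Subgroup.card_subgroup_dvd_card _
    have hge : 13 ^ 1 ∣ Nat.card G := by rw [hcard]; exact (by norm_num : 13 ^ 1 ∣ 3640).mul_right _
    have h1 := R.pow_dvd_card_of_pow_dvd_card hge
    rcases a with _ | _ | a
    · rw [show Nat.card R = 1 from ha] at h1; norm_num at h1
    · exact ha
    · exfalso
      have h169 : 169 ∣ 3640 * (o₁ * o₁) :=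
        hcard ▸ ((pow_dvd_pow 13 (by omega : 2 ≤ a + 2)).trans hd)
      simp only [Finset.mem_insert, Finset.mem_singleton] at hmem
      rcases hmem with rfl | rfl | rfl | rfl <;> norm_num at h169
  set R' := (R : Subgroup G) with hR'
  haveI : IsCyclic R' := isCyclic_of_prime_card hR13
  obtain ⟨⟨x, hxR⟩, hx⟩ := IsCyclic.exists_generator (α := R')
  have hxo : orderOf x = 13 := by
    rw [show x = ((⟨x, hxR⟩ : R') : G) from rfl, Subgroup.orderOf_coe,
      orderOf_eq_card_of_forall_mem_zpowers hx, hR13]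
  set σ := φ x with hσ
  have hσo : orderOf σ = 13 := by rw [hσ, orderOf_injective φ hφ, hxo]
  obtain ⟨k, hk⟩ := Equiv.Perm.cycleType_prime_order (σ := σ) (by rw [hσo]; norm_num)
  rw [hσo] at hk
  have hsum : σ.cycleType.sum ≤ 15 := hΩ ▸ σ.sum_cycleType_le
  rw [hk, Multiset.sum_replicate, smul_eq_mul] at hsum
  obtain rfl : k = 0 := by omega
  have hcent : Nat.card (centralizer ({x} : Set G)) ∣ 26 := by
    have h26 : Nat.card (centralizer ({σ} : Set (Equiv.Perm Ω))) = 26 := by
      rw [Equiv.Perm.nat_card_centralizer, hk, hΩ]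
      simp [Nat.factorial]
    have hle : (centralizer ({x} : Set G)).map φ ≤ centralizer ({σ} : Set (Equiv.Perm Ω)) := by
      rintro _ ⟨y, hy, rfl⟩
      rw [mem_centralizer_singleton_iff, hσ, ← map_mul, ← map_mul,
        mem_centralizer_singleton_iff.1 hy]
    have := Subgroup.card_dvd_of_le hle
    rwa [h26, Subgroup.card_map_of_injective hφ] at this
  have hcent13 : Nat.card (centralizer ({x} : Set G)) ∣ 13 := by
    refine (Nat.Coprime.dvd_mul_left ?_).1 (show _ ∣ 2 * 13 from hcent)
    refine (Nat.prime_two.coprime_iff_not_dvd.2 fun h => ?_).symm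
    haveI : Fact (Nat.Prime 2) := ⟨Nat.prime_two⟩
    obtain ⟨⟨t, htc⟩, ht⟩ := exists_prime_orderOf_dvd_card' 2 h
    have ht' : orderOf t = 2 := by rw [show t = ((⟨t, htc⟩ : centralizer ({x} : Set G)) : G) from rfl,
      Subgroup.orderOf_coe, ht]
    have hcm : Commute t x := mem_centralizer_singleton_iff.1 htc
    set F : Finset Ω := Finset.univ.filter fun q => t • q = q
    have hF3 : F.card = 3 := by
      rw [← fix_invol C I hπ ht', fix, Nat.card_eq_fintype_card, ← Set.toFinset_card]
      congr 1; ext q; simp [F]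
    have hsub : F ⊆ σ.supportᶜ := by
      intro q hq
      rw [Finset.mem_compl, Equiv.Perm.notMem_support]
      show x • q = q
      by_contra hne
      let R₀ := zpowers x
      have hmem : ∀ r : orbit R₀ q, (r : Ω) ∈ F := by
        rintro ⟨_, ⟨⟨y, j, rfl⟩, rfl⟩⟩
        simp only [F, Finset.mem_filter, Finset.mem_univ, true_and] at hq ⊢
        show t • (x ^ j • q) = x ^ j • q
        rw [← mul_smul, (hcm.zpow_right j).eq, mul_smul, hq]
      have hle : Nat.card (orbit R₀ q) ≤ 3 := by
        rw [← hF3, ← Nat.card_eq_finsetCard]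
        exact Nat.card_le_card_of_injective (fun r => (⟨r, hmem r⟩ : F))
          fun r r' h => Subtype.ext (congrArg (fun w : F => (w : Ω)) h)
      have hd : Nat.card (orbit R₀ q) ∣ 13 := by
        rw [Nat.card_coe_set_eq, ← MulAction.index_stabilizer, ← hxo, ← Nat.card_zpowers]
        exact Subgroup.index_dvd_card _
      rcases (Nat.dvd_prime (by norm_num)).1 hd with h1 | h1
      · obtain ⟨hs, -⟩ := Nat.card_eq_one_iff_unique.1 h1
        exact hne (congrArg Subtype.val (Subsingleton.elim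
          (⟨x • q, ⟨⟨x, mem_zpowers x⟩, rfl⟩⟩ : orbit R₀ q) ⟨q, mem_orbit_self q⟩))
      · omega
    have := Finset.card_le_card hsub
    rw [hF3, Finset.card_compl, hΩ, ← Equiv.Perm.sum_cycleType, hk] at this
    simp at this
  -- the normaliser
  set NR := normalizer (R' : Set G) with hNR
  have hCR : centralizer (R' : Set G) = centralizer ({x} : Set G) := by
    refine le_antisymm (centralizer_le (by simpa using hxR)) fun y hy => ?_
    rw [mem_centralizer_iff]
    intro w hw
    obtain ⟨j, hj⟩ := hx ⟨w, hw⟩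
    have : w = x ^ j := by
      have := congrArg Subtype.val hj
      simpa using this.symm
    rw [this]
    exact ((Commute.symm (mem_centralizer_singleton_iff.1 hy)).zpow_left j).eq
  have hNd : Nat.card NR ∣ 156 := by
    have hker : Nat.card (R'.normalizerMonoidHom).ker ∣ 13 := by
      rw [Subgroup.normalizerMonoidHom_ker, hCR]
      exact (Subgroup.card_comap_dvd_of_injective _ _ Subtype.val_injective).trans hcent13
    have hAut : Nat.card (MulAut R') = 12 := by
      rw [IsCyclic.card_mulAut, hR13, Nat.totient_prime (by norm_num : Nat.Prime 13)]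
    rw [← (R'.normalizerMonoidHom).ker.card_mul_index, Subgroup.index_ker]
    rw [show 156 = 13 * 12 from rfl, ← hAut]
    exact mul_dvd_mul hker (Subgroup.card_subgroup_dvd_card _)
  have hn : NR.index % 13 = 1 := by
    have h := card_sylow_modEq_one 13 G
    rw [Sylow.card_eq_index_normalizer R] at h
    exact h
  have h13 : 13 ∣ Nat.card NR := by
    rw [← hR13]
    exact Subgroup.card_dvd_of_le Subgroup.le_normalizer
  have hmul := NR.card_mul_index
  rw [hcard] at hmul
  obtain ⟨j, hj⟩ := h13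
  rw [hj] at hNd hmul
  have hj12 : j ∈ Nat.divisors 12 :=
    Nat.mem_divisors.2 ⟨Nat.dvd_of_mul_dvd_mul_left (by norm_num : 0 < 13) hNd, by norm_num⟩
  rw [show Nat.divisors 12 = {1, 2, 3, 4, 6, 12} from by decide] at hj12
  simp only [Finset.mem_insert, Finset.mem_singleton] at hj12 hmem
  rcases hmem with rfl | rfl | rfl | rfl <;>
    rcases hj12 with rfl | rfl | rfl | rfl | rfl | rfl <;> omega

end TwoB

theorem two_one (S : Setup G Ω p) {f : ℕ} (hf : f = 3 * p - 1) (C : Chars G p f) {c : ℕ}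
    (I : Invol C 2 c) (hπ : ∀ g, (fix Ω g : ℂ) = 1 + (C.X : G → ℂ) g) (hp : p % 4 = 1) : False := by
  haveI : Fact (Nat.Prime 2) := ⟨Nat.prime_two⟩
  have hp5 := S.five_le
  obtain ⟨T, z, hz, hTC, hT⟩ := TwoB.sylow_dvd S C I hπ
  obtain ⟨k, rfl⟩ : ∃ k, p = 4 * k + 1 := ⟨p / 4, by omega⟩
  set g := (T : Subgroup G).index
  set τ := Nat.card T with hτ
  have hgo : Odd g := Nat.not_even_iff_odd.1 fun h => T.not_dvd_index (even_iff_two_dvd.1 h)
  have hG : Nat.card G = τ * g := (Subgroup.card_mul_index _).symm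
  obtain ⟨o, ho⟩ : τ ∣ c := by
    rw [← I.card_centralizer z hz]; exact Subgroup.card_dvd_of_le hTC
  have hoo : Odd o := by
    have hd : c ∣ Nat.card G := by
      rw [← I.card_centralizer z hz]; exact Subgroup.card_subgroup_dvd_card _
    rw [ho, hG] at hd
    exact hgo.of_dvd_nat (Nat.dvd_of_mul_dvd_mul_left Nat.card_pos hd)
  have hF := I.formula
  rw [hG, ho, hf, show ((3 * (4 * k + 1) - 1 : ℕ) : ℤ) = 12 * (k : ℤ) + 2 by omega] at hF
  push_cast at hF
  have hE : 72 * (g * k ^ 2) = τ * ((4 * k + 1) * o ^ 2 * (6 * k + 1) * (12 * k + 1)) := by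
    have hτ0 : (τ : ℤ) ≠ 0 := by exact_mod_cast Nat.card_pos.ne'
    have h' : ((τ : ℤ) * 2) * ((72 * (g * k ^ 2) : ℕ) : ℤ) = ((τ : ℤ) * 2) *
        ((τ * ((4 * k + 1) * o ^ 2 * (6 * k + 1) * (12 * k + 1)) : ℕ) : ℤ) := by
      push_cast; linear_combination hF
    exact_mod_cast mul_left_cancel₀ (mul_ne_zero hτ0 two_ne_zero) h'
  set W := (4 * k + 1) * o ^ 2 * (6 * k + 1) * (12 * k + 1)
  have hW : Odd W :=
    ((((odd_two_mul_add_one (2 * k)).mul hoo.pow).mul (odd_two_mul_add_one (3 * k))).mul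
      (odd_two_mul_add_one (6 * k))) |> fun h => by
        simpa [W, ← mul_assoc] using h
  have hτk : τ ∣ 8 * k := by
    obtain ⟨n, hn⟩ := IsPGroup.iff_card.1 T.2
    have h' : τ ∣ 3 * (8 * k) := by
      refine hT.trans (dvd_of_eq ?_)
      omega
    exact (Nat.Coprime.dvd_mul_left (by rw [hτ, hn]; exact Nat.Coprime.pow_left n (by norm_num))).1 h'
  obtain ⟨m, hm⟩ := hτk
  have hτ0 : 0 < τ := Nat.card_pos
  have hk : Odd k := by
    have : τ * (9 * g * k * m) = τ * W := by
      rw [← hE, show τ * (9 * g * k * m) = 9 * g * k * (τ * m) by ring, ← hm]; ring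
    have := Nat.eq_of_mul_eq_mul_left hτ0 this
    exact hW.of_dvd_nat (this ▸ Dvd.intro (9 * g * m) (by ring))
  have h8 : τ = 8 := by
    obtain ⟨n, hn⟩ := IsPGroup.iff_card.1 T.2
    have hodd9 : Odd (9 * (g * k ^ 2)) := (by decide : Odd 9).mul (hgo.mul hk.pow)
    refine Nat.dvd_antisymm ?_ ?_
    · have h1 : τ ∣ 8 * (9 * (g * k ^ 2)) := ⟨W, by rw [← hE]; ring⟩
      exact (Nat.Coprime.dvd_mul_right
        (by rw [hτ, hn]; exact Nat.Coprime.pow_left n hodd9.coprime_two_left)).1 h1
    · have h1 : 8 ∣ τ * W := ⟨9 * (g * k ^ 2), by rw [← hE]; ring⟩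
      exact (Nat.Coprime.dvd_mul_right
        (show Nat.Coprime (2 ^ 3) W from Nat.Coprime.pow_left 3 hW.coprime_two_left)).1 h1
  rw [h8] at hG ho hE
  have h5 := TwoB.p_eq_five S C I hπ hp hG ho hgo
  obtain rfl : k = 1 := by omega
  refine TwoB.five (o := o) S C I hπ h5 hG hgo ?_
  have : W = 455 * o ^ 2 := by simp only [W]; ring
  rw [this] at hE
  omega

end Cfsg.Agent.DegThreeP
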